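import Mathlib
import Cfsg.Agent.H21.Column
import Cfsg.Agent.H21.Contrib
import Cfsg.Agent.H02.PPrimeCore

/-!
Principal 2-blocks on which `χ(1) - χ(u)` is constant (namespace `H01.Bk`).
* `exists_inv` : a nontrivial normal subgroup of a group with `O(G) = 1` contains an involution.
* `Hk M u k` : the hypothesis; `Hk.conj` (all 2-elements `≠ 1` are conjugate to `u₂`), `Hk.ord`,
  `Hk.exists_nat` (`k` is a positive integer `≤ |G|₂`), `Hk.small`, `Hk.lin`.
-/

set_option autoImplicit false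
set_option linter.style.haveILetI false
set_option linter.unusedSectionVars false

namespace H01.Bk
open Cfsg H05 H21 Classical
open scoped ComplexConjugate

variable {G : Type*} [Group G] [Finite G] {M : Ideal AlgInt} {u x : G} {k : ℂ}

theorem exists_inv (o : pPrimeCore 2 G = ⊥) {N : Subgroup G} [N.Normal] (h : N ≠ ⊥) : ∃ x ∈ N, orderOf x = 2 := by
  have := Fact.mk Nat.prime_two
  by_cases h2 : 2 ∣ Nat.card N
  · obtain ⟨x, hx⟩ := exists_prime_orderOf_dvd_card' 2 h2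
    exact ⟨x, x.2, by rwa [Subgroup.orderOf_coe]⟩
  · exact absurd (le_bot_iff.1 (o ▸ H02.le_pPrimeCore ((Nat.Prime.coprime_iff_not_dvd Nat.prime_two).2 h2).symm)) h

/-- the principal block as a finset -/
noncomputable abbrev B (M : Ideal AlgInt) (G : Type*) [Group G] [Finite G] : Finset (IrrCharacter G) :=
  Finset.univ.filter fun χ => χ ∈ principalBlock M G

/-- its nontrivial members -/
noncomputable abbrev B' (M : Ideal AlgInt) (G : Type*) [Group G] [Finite G] : Finset (IrrCharacter G) :=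
  (B M G).erase (irrOne G)

structure Hk (M : Ideal AlgInt) (u : G) (k : ℂ) : Prop where
  hM : IsPModular 2 M
  hk : ∀ χ : IrrCharacter G, χ ∈ principalBlock M G → (χ : G → ℂ) ≠ (fun _ => 1) → (χ : G → ℂ) 1 - (χ : G → ℂ) u = k
  o : pPrimeCore 2 G = ⊥
  u1 : u ≠ 1

theorem mem_B' {χ : IrrCharacter G} : χ ∈ B' M G ↔ χ ∈ principalBlock M G ∧ (χ : G → ℂ) ≠ (fun _ => 1) := by
  rw [Finset.mem_erase, Finset.mem_filter, and_iff_right (Finset.mem_univ χ), and_comm]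
  exact and_congr_right fun _ => not_congr ⟨fun e => by rw [e]; rfl, fun e => Subtype.ext e⟩

theorem sum_B [M.IsMaximal] (f : IrrCharacter G → ℂ) : ∑ χ ∈ B M G, f χ = f (irrOne G) + ∑ χ ∈ B' M G, f χ :=
  (Finset.add_sum_erase _ _ (by simpa using one_mem_principal)).symm

theorem sum_deg_sq (s : Finset (IrrCharacter G)) :
    ∑ χ ∈ s, (χ : G → ℂ) 1 * conj ((χ : G → ℂ) 1) = ((∑ χ ∈ s, charDegree (χ : G → ℂ) ^ 2 : ℕ) : ℂ) := by
  push_cast
  exact Finset.sum_congr rfl fun χ _ => by rw [χ.2.conj_apply_one, χ.2.charDegree_eq, sq]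

theorem sum_sq_pos [M.IsMaximal] : 0 < ∑ χ ∈ B M G, charDegree (χ : G → ℂ) ^ 2 :=
  Finset.sum_pos (fun χ _ => pow_pos χ.2.charDegree_pos _) ⟨irrOne G, by simpa using one_mem_principal⟩

theorem R0 (hM : IsPModular 2 M) (hx : pPart 2 x ≠ 1) :
    ∑ χ ∈ B M G, (χ : G → ℂ) x * conj ((χ : G → ℂ) 1) = 0 :=
  sum_principal_of_ne hM (by rwa [pPart_one, isConj_one_left])

theorem pPart_inv2 (hx : orderOf x = 2) : pPart 2 x = x :=
  haveI := Fact.mk Nat.prime_two
  pPart_of_pow ⟨1, by simpa using hx⟩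

theorem ne_one_of_two (hx : orderOf x = 2) : x ≠ 1 := fun e => by simp [e] at hx

namespace Hk
variable (h : Hk M u k)
include h

theorem key (x : G) : ∑ χ ∈ B M G, (χ : G → ℂ) x * conj ((χ : G → ℂ) 1) -
    ∑ χ ∈ B M G, (χ : G → ℂ) x * conj ((χ : G → ℂ) u) = conj k * ∑ χ ∈ B' M G, (χ : G → ℂ) x := by
  haveI := h.hM.2.1
  rw [← Finset.sum_sub_distrib, sum_B, Finset.mul_sum]
  simp only [irrOne_apply, sub_self, zero_add]
  refine Finset.sum_congr rfl fun χ hχ => ?_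
  rw [← h.hk χ (mem_B'.1 hχ).1 (mem_B'.1 hχ).2, map_sub]; ring

theorem ex_inv : ∃ x : G, orderOf x = 2 :=
  let ⟨x, _, hx⟩ := exists_inv h.o (N := ⊤) fun e => h.u1 (Subgroup.mem_bot.1 (e ▸ Subgroup.mem_top u))
  ⟨x, hx⟩

theorem k0 : k ≠ 0 := by
  haveI := h.hM.2.1
  intro e
  let K : Subgroup G := ⨅ χ : principalBlock M G, charKer ((χ : IrrCharacter G) : G → ℂ)
  haveI : K.Normal := Subgroup.normal_iInf_normal fun _ => inferInstance
  have hu : u ∈ K := Subgroup.mem_iInf.2 fun χ => by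
    refine χ.1.2.isCharacter.mem_charKer.2 ?_
    by_cases h1 : ((χ : IrrCharacter G) : G → ℂ) = fun _ => 1
    · rw [h1]
    · exact (sub_eq_zero.1 ((h.hk _ χ.2 h1).trans e)).symm
  obtain ⟨x, hx, x2⟩ := exists_inv h.o (N := K) fun e => h.u1 (Subgroup.mem_bot.1 (e ▸ hu))
  have h1 := R0 h.hM (x := x) (by rw [pPart_inv2 x2]; exact ne_one_of_two x2)
  rw [Finset.sum_congr rfl (g := fun χ : IrrCharacter G => (χ : G → ℂ) 1 * conj ((χ : G → ℂ) 1)) fun χ hχ => by
    rw [χ.2.isCharacter.mem_charKer.1 (Subgroup.mem_iInf.1 hx ⟨χ, by simpa using hχ⟩)], sum_deg_sq] at h1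
  exact (sum_sq_pos (M := M) (G := G)).ne' (by exact_mod_cast h1)

theorem par : MemLocalIdeal M (∑ χ ∈ B M G, (χ : G → ℂ) 1) := by
  haveI := h.hM.2.1
  obtain ⟨x, x2⟩ := h.ex_inv
  have h1 := R0 h.hM (x := x) (by rw [pPart_inv2 x2]; exact ne_one_of_two x2)
  rw [← ideal_neg_iff, ← zero_sub, ← h1, ← Finset.sum_sub_distrib]
  refine ideal_sum fun χ _ => ?_
  have h2 := ideal_sub_one_of_pow h.hM χ.2.isCharacter (x := x) ⟨1, by simpa using x2⟩
  rw [χ.2.conj_apply_one]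
  rw [← χ.2.charDegree_eq] at h2 ⊢
  generalize charDegree (χ : G → ℂ) = d at h2
  have h3 : MemLocalIdeal M (((d : ℤ) * (d - 1) : ℤ) : ℂ) :=
    (ideal_intCast_iff h.hM).2 (by exact_mod_cast (Int.even_mul_pred_self d).two_dvd)
  convert ideal_add (ideal_mul_right h2 (ring_natCast d)) h3 using 1
  push_cast; ring

theorem conj' (hx : ∃ j, orderOf x = 2 ^ j) (x1 : x ≠ 1) : IsConj x (pPart 2 u) := by
  haveI := h.hM.2.1
  haveI := Fact.mk Nat.prime_two
  by_contra hc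
  have h1 := h.key x
  rw [R0 h.hM (by rwa [pPart_of_pow hx]), sum_principal_of_ne h.hM (by rwa [pPart_of_pow hx]), sub_zero, eq_comm,
    mul_eq_zero, map_eq_zero] at h1
  have h2 : ∑ χ ∈ B M G, (χ : G → ℂ) x = 1 := by rw [sum_B, h1.resolve_left h.k0, irrOne_apply, add_zero]
  have h3 := ideal_add (ideal_sum (s := B M G) fun χ _ => ideal_sub_one_of_pow h.hM χ.2.isCharacter hx) h.par
  rw [Finset.sum_sub_distrib, h2, sub_add_cancel] at h3
  exact not_ideal_one h3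

theorem ord : orderOf (pPart 2 u) = 2 := by
  obtain ⟨x, x2⟩ := h.ex_inv
  obtain ⟨c, hc⟩ := isConj_iff.1 (h.conj' ⟨1, by simpa using x2⟩ (ne_one_of_two x2))
  rw [← hc, orderOf_conj', x2]

theorem T1 : ∑ χ ∈ B M G, (χ : G → ℂ) 1 * conj ((χ : G → ℂ) u) = 0 :=
  sum_principal_of_ne h.hM (by rw [pPart_one, isConj_one_right]; exact ne_one_of_two h.ord)

theorem nat : ∃ n : ℕ, 0 < n ∧ k = n := by
  haveI := h.hM.2.1
  have h1 := h.key 1
  have h0 : ∑ χ ∈ B' M G, (χ : G → ℂ) 1 = ((∑ χ ∈ B' M G, charDegree (χ : G → ℂ) : ℕ) : ℂ) := by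
    rw [Nat.cast_sum]
    exact Finset.sum_congr rfl fun χ _ => χ.2.charDegree_eq.symm
  rw [h.T1, sub_zero, sum_deg_sq, h0] at h1
  clear h0
  have h2 := sum_sq_pos (M := M) (G := G)
  generalize (∑ χ ∈ B M G, charDegree (χ : G → ℂ) ^ 2) = r at h1 h2
  have hs : (∑ χ ∈ B' M G, charDegree (χ : G → ℂ)) ≠ 0 := fun e => by
    rw [e, Nat.cast_zero, mul_zero] at h1
    exact h2.ne' (by exact_mod_cast h1)
  obtain ⟨χ, hχ, -⟩ := Finset.exists_ne_zero_of_sum_ne_zero hs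
  generalize (∑ χ ∈ B' M G, charDegree (χ : G → ℂ)) = s at h1 hs
  have hs' : (s : ℂ) ≠ 0 := by exact_mod_cast hs
  have h3 : k = ((r / s : ℚ) : ℂ) := by
    rw [← Complex.conj_conj k, eq_div_of_mul_eq hs' h1.symm]
    push_cast
    rw [map_div₀, map_natCast, map_natCast]
  have h4 := h.hk χ (mem_B'.1 hχ).1 (mem_B'.1 hχ).2
  obtain ⟨m, hm⟩ := χ.2.isGeneralizedCharacter.exists_int_of_rat u ⟨charDegree (χ : G → ℂ) - r / s, by
    push_cast at h3 ⊢
    rw [χ.2.charDegree_eq, ← h3, ← h4]; ring⟩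
  rw [hm, ← χ.2.charDegree_eq] at h4
  have h5 : ((charDegree (χ : G → ℂ) : ℤ) - m) * s = r := by
    have : ((r : ℂ)) = k * s := by rw [h3]; push_cast; field_simp
    rw [← h4] at this
    exact_mod_cast this.symm
  have h6 : 0 < (charDegree (χ : G → ℂ) : ℤ) - m := by
    by_contra! hc
    have := mul_nonpos_of_nonpos_of_nonneg hc (Int.natCast_nonneg s)
    omega
  refine ⟨((charDegree (χ : G → ℂ) : ℤ) - m).toNat, by omega, ?_⟩
  rw [← h4, ← Int.cast_natCast (R := ℂ) (Int.toNat _), Int.toNat_of_nonneg h6.le]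
  push_cast; rfl

theorem exists_nat : ∃ n : ℕ, 0 < n ∧ k = n ∧ n ≤ 2 ^ (Nat.card G).factorization 2 := by
  haveI := h.hM.2.1
  haveI := Fact.mk Nat.prime_two
  haveI := Fintype.ofFinite G
  obtain ⟨n, hn, e⟩ := h.nat
  refine ⟨n, hn, e, ?_⟩
  let Ψ : G → ℂ := ∑ χ ∈ B' M G, (χ : G → ℂ)
  have hΨ : IsCharacter G Ψ := H05.Cfsg.IsCharacter.sum _ fun χ _ => χ.2.isCharacter
  have a : ∀ x, Ψ x = ∑ χ ∈ B' M G, (χ : G → ℂ) x := fun x => Finset.sum_apply _ _ _
  have s0 : ∀ χ ∈ B' M G, ∑ x, (χ : G → ℂ) x = 0 := fun χ hχ => χ.2.sum_eq_zero (mem_B'.1 hχ).2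
  have h1 : ∀ x, ∑ χ ∈ B M G, (χ : G → ℂ) x * conj ((χ : G → ℂ) u) = n * (pRegularPart 2 Ψ x - Ψ x) := by
    intro x
    by_cases hx : 2 ∣ orderOf x
    · have := h.key x
      rw [R0 h.hM (by rwa [Ne, pPart_eq_one_iff, not_not]), e, map_natCast, ← a] at this
      rw [pRegularPart_of_dvd _ hx]
      linear_combination -this
    · rw [pRegularPart_of_not_dvd _ hx, sub_self, mul_zero]
      exact sum_principal_of_ne h.hM (by rw [pPart_of_not_dvd hx, isConj_one_right]; exact ne_one_of_two h.ord)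
  have h2 : ∑ x, ∑ χ ∈ B M G, (χ : G → ℂ) x * conj ((χ : G → ℂ) u) = Nat.card G := by
    rw [Finset.sum_comm, sum_B, Finset.sum_eq_zero (s := B' M G) fun χ hχ => by rw [← Finset.sum_mul, s0 χ hχ, zero_mul]]
    simp [irrOne_apply]
  have h3 : ∑ x, Ψ x = 0 := by
    simp only [a]
    rw [Finset.sum_comm, Finset.sum_eq_zero s0]
  obtain ⟨m, hm⟩ := exists_int_card_contrib Nat.prime_two hΨ.isGeneralizedCharacter (isGeneralizedCharacter_one (G := G))
  rw [contrib, classInner_one_right] at hm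
  simp only [h1] at h2
  rw [← Finset.mul_sum, Finset.sum_sub_distrib, h3, sub_zero] at h2
  have h4 : ((2 ^ (Nat.card G).factorization 2 : ℕ) : ℤ) = n * m := by
    have hG := card_ne_zero_complex (G := G)
    have : (((2 ^ (Nat.card G).factorization 2 : ℕ) : ℤ) : ℂ) = n * m := by
      rw [← hm]; push_cast
      field_simp
      rw [h2]
    exact_mod_cast this
  exact Nat.le_of_dvd (by positivity) (Int.natCast_dvd_natCast.1 ⟨m, h4⟩)

theorem small : ∃ χ ∈ principalBlock M G, (χ : G → ℂ) ≠ (fun _ => 1) ∧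
    charDegree (χ : G → ℂ) < 2 ^ (Nat.card G).factorization 2 := by
  haveI := h.hM.2.1
  obtain ⟨n, -, e, hn⟩ := h.exists_nat
  by_contra! hc
  have h1 := h.T1
  rw [sum_B, Finset.sum_congr rfl (g := fun χ : IrrCharacter G =>
    ((charDegree (χ : G → ℂ) * (charDegree (χ : G → ℂ) - n) : ℕ) : ℂ)) fun χ hχ => by
      have h2 := h.hk χ (mem_B'.1 hχ).1 (mem_B'.1 hχ).2
      rw [Nat.cast_mul, Nat.cast_sub (hn.trans (hc χ (mem_B'.1 hχ).1 (mem_B'.1 hχ).2)), χ.2.charDegree_eq,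
        show (χ : G → ℂ) u = (χ : G → ℂ) 1 - n by rw [← e, ← h2]; ring, map_sub, χ.2.conj_apply_one, map_natCast],
    ← Nat.cast_sum] at h1
  simp only [irrOne_apply, map_one, mul_one] at h1
  exact absurd (show 1 + _ = 0 by exact_mod_cast h1) (by omega)

theorem lin {φ : G →* ℂˣ} (hφ : (⟨_, isIrrCharacter_monoidHom φ⟩ : IrrCharacter G) ∈ principalBlock M G)
    (h1 : φ ≠ 1) : φ u = -1 := by
  obtain ⟨n, hn, e⟩ := h.nat
  have h2 := h.hk _ hφ fun e => h1 (MonoidHom.ext fun g => Units.ext (congrFun e g))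
  simp only [map_one, Units.val_one] at h2
  have h3 : (φ u : ℂ) = ((1 - n : ℤ) : ℂ) := by push_cast; rw [← e, ← h2]; ring
  have h4 := norm_monoidHom_eq_one φ u
  rw [h3, Complex.norm_intCast] at h4
  have h5 : |(1 - n : ℤ)| = 1 := by exact_mod_cast h4
  have h6 : (1 - n : ℤ) = -1 := by
    rcases abs_eq (zero_le_one' ℤ) |>.1 h5 with h | h <;> omega
  exact Units.ext (by rw [h3, h6]; simp)

end Hk
end H01.Bk
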