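import Mathlib
import Cfsg.Agent.H01.BK1
import Cfsg.Agent.L.PSL2Deg
import Cfsg.Agent.S0205

/-!
Continuation of `H01.BK1` (namespace `H01.Bk`).
* `exists_lin` (nontrivial linear character over an odd-index normal subgroup), `lin_mem`, `ideal_of_cent`.
* with `L u = ⟨u₂ ^ G⟩` and a Sylow `P ∋ u₂` : `Hk.sq`, `Hk.comm`, `Hk.PL`, `Hk.dec` (`G = L C(P)`), `Hk.conjL`, `Hk.simple`,
  `Hk.triv`, `Hk.faith`, `Hk.two`.
* `sl2_deg` (degree of a nontrivial character of `SL₂(q)` is `≥ (q-1)/2`), `psl2_val` (`χ(1) - χ(u) = q` in `PSL₂(2ⁿ)`).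
-/

set_option autoImplicit false
set_option linter.style.haveILetI false
set_option linter.unusedSectionVars false

namespace H01.Bk
open Cfsg H05 H21 Classical Subgroup
open scoped ComplexConjugate MatrixGroups

variable {G : Type*} [Group G] [Finite G] {M : Ideal AlgInt} {u x y : G} {k : ℂ}

theorem exists_lin {K : Subgroup G} [K.Normal] (ho : Odd K.index) (h : K ≠ ⊤) :
    ∃ φ : G →* ℂˣ, φ ≠ 1 ∧ K ≤ φ.ker := by
  haveI := Cfsg.Agent.S0205.result (G := G ⧸ K) ho
  haveI : Nontrivial (G ⧸ K) := QuotientGroup.nontrivial_iff.2 h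
  obtain ⟨a, -, ha⟩ := SetLike.exists_of_lt (Group.IsSolvable.commutator_lt_top_of_nontrivial (G ⧸ K))
  haveI : NeZero (Monoid.exponent (Abelianization (G ⧸ K)) : ℂ) := ⟨by exact_mod_cast Monoid.exponent_ne_zero_of_finite⟩
  obtain ⟨ψ, hψ⟩ := CommGroup.exists_apply_ne_one_of_hasEnoughRootsOfUnity (Abelianization (G ⧸ K)) ℂ
    (a := Abelianization.of a) fun e => ha ((QuotientGroup.eq_one_iff _).1 e)
  refine ⟨(ψ.comp Abelianization.of).comp (QuotientGroup.mk' K), fun e => hψ ?_, fun x hx => ?_⟩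
  · obtain ⟨g, rfl⟩ := QuotientGroup.mk'_surjective K a
    exact DFunLike.congr_fun e g
  · simp [MonoidHom.mem_ker, (QuotientGroup.eq_one_iff x).2 hx]

theorem conj_cent (P : Sylow 2 G) (h : ¬ 2 ∣ (centralizer ({x} : Set G)).index) :
    ∃ g, g * x * g⁻¹ ∈ centralizer ((P : Subgroup G) : Set G) := by
  haveI := Fact.mk Nat.prime_two
  obtain ⟨Q⟩ := (inferInstance : Nonempty (Sylow 2 (centralizer ({x} : Set G))))
  obtain ⟨R, hR⟩ := (Q.isPGroup'.map (centralizer ({x} : Set G)).subtype).exists_le_sylow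
  have h1 : ¬ 2 ∣ ((Q : Subgroup _).map (centralizer ({x} : Set G)).subtype).index := by
    rw [index_map_subtype]
    exact fun e => ((Nat.Prime.dvd_mul Nat.prime_two).1 e).elim Q.not_dvd_index h
  have h2 : (R : Subgroup G) ≤ centralizer {x} := by
    rw [← (Q.isPGroup'.map _).toSylow_coe h1] at hR
    rw [((Q.isPGroup'.map _).toSylow h1).3 R.2 hR]
    exact map_subtype_le _
  obtain ⟨g, rfl⟩ := MulAction.exists_smul_eq G R P
  refine ⟨g, mem_centralizer_iff.2 fun y hy => ?_⟩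
  obtain ⟨z, hz, rfl⟩ := hy
  have := mem_centralizer_singleton_iff.1 (h2 hz)
  simp only [MulDistribMulAction.toMonoidEnd_apply, MulDistribMulAction.toMonoidHom_apply, MulAut.smul_def,
    MulAut.conj_apply]
  calc g * z * g⁻¹ * (g * x * g⁻¹) = g * (z * x) * g⁻¹ := by group
    _ = _ := by rw [this]; group

theorem lin_mem (hM : IsPModular 2 M) (P : Sylow 2 G) {φ : G →* ℂˣ}
    (h : centralizer ((P : Subgroup G) : Set G) ≤ φ.ker) :
    (⟨_, isIrrCharacter_monoidHom φ⟩ : IrrCharacter G) ∈ principalBlock M G := fun g => by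
  haveI := hM.2.1
  simp only [centralChar, map_one, Units.val_one, div_one]
  rw [← mul_sub]
  by_cases h2 : 2 ∣ (centralizer ({g} : Set G)).index
  · exact ideal_mul_right ((ideal_natCast_iff hM).2 h2)
      (ring_sub ring_one (ring_of_isIntegral ((isCharacter_monoidHom φ).isIntegral g)))
  · obtain ⟨c, hc⟩ := conj_cent P h2
    have := h hc
    rw [MonoidHom.mem_ker, map_mul, map_mul, mul_right_comm, ← map_mul, mul_inv_cancel, map_one, one_mul] at this
    rw [this, Units.val_one, sub_self, mul_zero]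
    exact ideal_zero

theorem ideal_of_cent (hM : IsPModular 2 M) (P : Sylow 2 G) {χ : IrrCharacter G} (hχ : χ ∈ principalBlock M G)
    (hx : x ∈ centralizer ((P : Subgroup G) : Set G)) : MemLocalIdeal M ((χ : G → ℂ) 1 - (χ : G → ℂ) x) := by
  haveI := hM.2.1
  haveI := Fact.mk Nat.prime_two
  have h1 : ¬ 2 ∣ (centralizer ({x} : Set G)).index := fun e => P.not_dvd_index (e.trans (index_dvd_of_le fun y hy =>
    mem_centralizer_singleton_iff.2 (hx y hy)))
  have h2 := ideal_mul_left (ring_of_isIntegral (χ.2.isIntegral 1)) (hχ x)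
  rw [← ideal_unit_mul_iff (ring_natCast _) (mt (ideal_natCast_iff hM).1 h1)]
  convert h2 using 1
  have := χ.2.apply_one_ne_zero
  simp only [centralChar]
  field_simp

/-- the normal closure of the 2-part of `u` -/
noncomputable abbrev L (u : G) : Subgroup G := normalClosure {pPart 2 u}

theorem tL : pPart 2 u ∈ L u := subset_normalClosure rfl

theorem L_le {N : Subgroup G} [N.Normal] (h : pPart 2 u ∈ N) : L u ≤ N := normalClosure_le_normal (by simpa using h)

namespace Hk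
variable (h : Hk M u k) {P : Sylow 2 G}
include h

theorem mem_L (hx : ∃ j, orderOf x = 2 ^ j) : x ∈ L u := by
  by_cases x1 : x = 1
  · exact x1 ▸ one_mem _
  obtain ⟨c, hc⟩ := isConj_iff.1 (h.conj' hx x1).symm
  exact hc ▸ Normal.conj_mem inferInstance _ tL c

omit h in
theorem ordP (hx : x ∈ (P : Subgroup G)) : ∃ j, orderOf x = 2 ^ j :=
  haveI := Fact.mk Nat.prime_two
  let ⟨j, hj⟩ := IsPGroup.iff_orderOf.1 P.2 ⟨x, hx⟩
  ⟨j, by rw [← hj, Subgroup.orderOf_mk]⟩

theorem ord2 (hx : ∃ j, orderOf x = 2 ^ j) (x1 : x ≠ 1) : orderOf x = 2 := by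
  obtain ⟨c, hc⟩ := isConj_iff.1 (h.conj' hx x1).symm
  rw [← hc, orderOf_conj', h.ord]

theorem sq (hx : ∃ j, orderOf x = 2 ^ j) : x * x = 1 := by
  by_cases x1 : x = 1
  · simp [x1]
  rw [← pow_two, ← h.ord2 hx x1, pow_orderOf_eq_one]

theorem comm (hx : x ∈ (P : Subgroup G)) : x ∈ centralizer ((P : Subgroup G) : Set G) := fun y hy => by
  have h1 := h.sq (ordP hx)
  have h2 := h.sq (ordP hy)
  have h3 := h.sq (ordP (mul_mem hx hy))
  calc y * x = x * x * (y * x) * (y * y) := by rw [h1, h2]; group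
    _ = x * (x * y * (x * y)) * y := by group
    _ = _ := by rw [h3, mul_one]

theorem PL : (P : Subgroup G) ≤ L u := fun _ hx => h.mem_L (ordP hx)

theorem sup : L u ⊔ centralizer ((P : Subgroup G) : Set G) = ⊤ := by
  haveI := Fact.mk Nat.prime_two
  by_contra hc
  have hN := P.normalizer_sup_eq_top' h.PL
  haveI : (L u ⊔ centralizer ((P : Subgroup G) : Set G)).Normal := by
    rw [← normalizer_eq_top_iff, eq_top_iff, ← hN]
    refine sup_le ?_ (le_sup_left.trans le_normalizer)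
    intro n hn
    refine mem_normalizer_fintype fun g hg => ?_
    rw [SetLike.mem_coe, ← SetLike.mem_coe, normal_mul] at hg
    obtain ⟨l, hl, c, hc, rfl⟩ := hg
    rw [show n * (l * c) * n⁻¹ = n * l * n⁻¹ * (n * c * n⁻¹) by group]
    refine mul_mem (mem_sup_left (Normal.conj_mem inferInstance _ hl n)) (mem_sup_right fun y hy => ?_)
    have := hc _ ((mem_normalizer_iff''.1 hn y).1 hy)
    calc y * (n * c * n⁻¹) = n * (n⁻¹ * y * n * c) * n⁻¹ := by group
      _ = _ := by rw [this]; group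
  obtain ⟨φ, h1, h2⟩ := exists_lin (K := L u ⊔ centralizer ((P : Subgroup G) : Set G))
    (Nat.odd_iff.2 (Nat.two_dvd_ne_zero.1 fun e => P.not_dvd_index (e.trans (index_dvd_of_le (h.PL.trans le_sup_left))))) hc
  have h3 := h.lin (lin_mem h.hM P (le_sup_right.trans h2)) h1
  rw [← pPart_mul_pReg 2 u, map_mul, h2 (mem_sup_left tL), one_mul] at h3
  have h4 := congrArg φ (pow_orderOf_eq_one (pReg 2 u))
  rw [map_pow, h3, map_one, (Nat.odd_iff.2 (Nat.two_dvd_ne_zero.1 (not_dvd_orderOf_pReg 2 u))).neg_one_pow] at h4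
  have := congrArg Units.val h4
  norm_num at this

theorem dec (P : Sylow 2 G) (g : G) : ∃ l ∈ L u, ∃ c ∈ centralizer ((P : Subgroup G) : Set G), l * c = g := by
  have : g ∈ L u ⊔ centralizer ((P : Subgroup G) : Set G) := h.sup ▸ mem_top g
  rwa [← SetLike.mem_coe, normal_mul] at this

theorem triv {χ : IrrCharacter G} (hχ : χ ∈ principalBlock M G) (e : (χ : G → ℂ) (pPart 2 u) = (χ : G → ℂ) 1) :
    (χ : G → ℂ) = fun _ => 1 := by
  haveI := h.hM.2.1
  haveI := Fact.mk Nat.prime_two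
  obtain ⟨P⟩ := (inferInstance : Nonempty (Sylow 2 G))
  have h1 : L u ≤ charKer (χ : G → ℂ) := L_le (χ.2.isCharacter.mem_charKer.2 e)
  obtain ⟨ψ, hψ, e⟩ := χ.2.exists_quotient (L u) fun x hx => χ.2.isCharacter.mem_charKer.1 (h1 hx)
  by_contra hc
  haveI := Fintype.ofFinite (G ⧸ L u)
  have h2 := hψ.sum_eq_zero fun j => hc (by rw [e, j]; rfl)
  have h3 : MemLocalIdeal M (∑ a, (ψ 1 - ψ a)) := ideal_sum fun a _ => by
    obtain ⟨g, rfl⟩ := QuotientGroup.mk_surjective a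
    obtain ⟨l, hl, c, hc, rfl⟩ := h.dec P g
    have := ideal_of_cent h.hM P hχ hc
    rw [e] at this
    rwa [QuotientGroup.mk_mul, (QuotientGroup.eq_one_iff l).2 hl, one_mul]
  rw [Finset.sum_sub_distrib, h2, sub_zero, Finset.sum_const, Finset.card_univ, nsmul_eq_mul, ← hψ.charDegree_eq,
    ← Nat.cast_mul, ideal_natCast_iff h.hM, ← Nat.card_eq_fintype_card] at h3
  have h4 : ¬ 2 ∣ Nat.card (G ⧸ L u) := fun e => P.not_dvd_index (e.trans (index_dvd_of_le h.PL))
  exact ((Nat.Prime.dvd_mul Nat.prime_two).1 h3).elim h4 fun e => h4 (e.trans hψ.charDegree_dvd_card)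

theorem exP : ∃ P : Sylow 2 G, pPart 2 u ∈ (P : Subgroup G) :=
  haveI := Fact.mk Nat.prime_two
  let ⟨P, hP⟩ := (isPGroup_zpowers (orderOf_pPart 2 u)).exists_le_sylow
  ⟨P, hP (mem_zpowers _)⟩

theorem conjL (hx : orderOf x = 2) : ∃ l ∈ L u, l * pPart 2 u * l⁻¹ = x := by
  obtain ⟨P, hP⟩ := h.exP
  obtain ⟨g, rfl⟩ := isConj_iff.1 (h.conj' ⟨1, by simpa using hx⟩ (ne_one_of_two hx)).symm
  obtain ⟨l, hl, c, hc, rfl⟩ := h.dec P g
  refine ⟨l, hl, ?_⟩
  rw [mul_assoc l c, ← hc _ hP]; group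

theorem simple : IsSimpleGroup (L u) := by
  haveI : Nontrivial (L u) := ⟨⟨⟨_, tL⟩, 1, fun e => ne_one_of_two h.ord (congrArg Subtype.val e)⟩⟩
  refine ⟨fun K hK => or_iff_not_imp_left.2 fun h0 => ?_⟩
  have o : pPrimeCore 2 (L u) = ⊥ :=
    H02.pPrimeCoreOf_eq_bot_iff.1 (le_bot_iff.1 (h.o ▸ H02.pPrimeCoreOf_le_pPrimeCore (L u)))
  obtain ⟨s, hs, s2⟩ := exists_inv o h0
  obtain ⟨l, hl, e⟩ := h.conjL (x := (s : G)) (by rwa [orderOf_coe])
  have ht : (⟨_, tL⟩ : L u) ∈ K := by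
    convert hK.conj_mem s hs (⟨l, hl⟩ : L u)⁻¹ using 1
    ext
    simp only [coe_mul, coe_inv, ← e]; group
  have : L u ≤ K.map (L u).subtype := (closure_le _).2 fun y hy => by
    obtain ⟨_, rfl, hy⟩ := Group.mem_conjugatesOfSet_iff.1 hy
    obtain ⟨c, rfl⟩ := isConj_iff.1 hy
    obtain ⟨l, hl, e⟩ := h.conjL (x := c * pPart 2 u * c⁻¹) (by rw [orderOf_conj', h.ord])
    exact ⟨_, hK.conj_mem _ ht ⟨l, hl⟩, e⟩
  exact top_le_iff.1 fun y _ => by
    obtain ⟨z, hz, e⟩ := this y.2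
    exact Subtype.ext e ▸ hz

theorem faith {χ : IrrCharacter G} (hχ : χ ∈ principalBlock M G) (h1 : (χ : G → ℂ) ≠ fun _ => 1) (hx : x ∈ L u)
    (e : (χ : G → ℂ) x = (χ : G → ℂ) 1) : x = 1 := by
  haveI := h.simple
  rcases (inferInstance : ((charKer (χ : G → ℂ)).subgroupOf (L u)).Normal).eq_bot_or_eq_top with j | j
  · have : (⟨x, hx⟩ : L u) ∈ (charKer (χ : G → ℂ)).subgroupOf (L u) := χ.2.isCharacter.mem_charKer.2 e
    rw [j] at this
    exact congrArg Subtype.val (mem_bot.1 this)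
  · exact absurd (h.triv hχ (χ.2.isCharacter.mem_charKer.1 (subgroupOf_eq_top.1 j tL))) h1

theorem two (hc : IsMulCommutative (L u)) : Nat.card G = 2 := by
  haveI := Fact.mk Nat.prime_two
  obtain ⟨P, hP⟩ := h.exP
  have h1 : ∀ x, orderOf x = 2 → x = pPart 2 u := fun x hx => by
    obtain ⟨l, hl, e⟩ := h.conjL hx
    rw [← e, show l * pPart 2 u = pPart 2 u * l from congrArg Subtype.val (mul_comm' (⟨l, hl⟩ : L u) ⟨_, tL⟩),
      mul_inv_cancel_right]
  have h2 : (P : Subgroup G) = zpowers (pPart 2 u) := le_antisymm (fun x hx => by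
    by_cases x1 : x = 1
    · exact x1 ▸ one_mem _
    · exact h1 x (h.ord2 (ordP hx) x1) ▸ mem_zpowers _) (by simpa using hP)
  have h3 : normalizer ((P : Subgroup G) : Set G) ≤ centralizer ((P : Subgroup G) : Set G) := fun g _ => by
    rw [h2, centralizer_zpowers, mem_centralizer_singleton_iff, ← mul_inv_eq_iff_eq_mul]
    exact h1 _ (by rw [orderOf_conj', h.ord])
  have h4 := MonoidHom.ker_transferSylow_isComplement' P h3
  have h5 : (MonoidHom.transferSylow P h3).ker = ⊥ := le_bot_iff.1 (h.o ▸ H02.le_pPrimeCore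
    ((Nat.Prime.coprime_iff_not_dvd Nat.prime_two).2 (MonoidHom.not_dvd_card_ker_transferSylow P h3)).symm)
  rw [← h4.card_mul_card, h5, card_bot, one_mul, h2, Nat.card_zpowers, h.ord]

end Hk

section SL
open L L.SLc
variable {F : Type*} [Field F] [Fintype F]

theorem sl2_deg {χ : SL(2, F) → ℂ} (hχ : IsCharacter _ χ) {g : SL(2, F)} (hg : χ g ≠ χ 1) :
    Fintype.card F ≤ 2 * charDegree χ + 1 := by
  haveI := Fintype.ofFinite SL(2, F)
  obtain ⟨ψ, hψ, h1, h2⟩ : ∃ ψ, IsIrrCharacter _ ψ ∧ ψ ≠ 1 ∧ classInner χ ψ ≠ 0 := by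
    by_contra! hc
    have : χ = classInner χ 1 • (1 : SL(2, F) → ℂ) :=
      hχ.isClassFunction.ext_inner (isClassFunction_one.smul _) fun ψ hψ => by
        rw [classInner_smul_left, isIrrCharacter_one.classInner_eq hψ]
        split_ifs with e
        · rw [← e, mul_one]
        · rw [hc ψ hψ (Ne.symm e), mul_zero]
    exact hg (by rw [this]; rfl)
  have h3 := hχ.charDegree_le_of_constituent hψ h2
  obtain ⟨g₀, h₀⟩ := exists_noEig_SL (F := F)
  have := Fintype.one_lt_card (α := F)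
  rcases irr_cases_deg h₀ hψ hψ.charDegree_eq.symm with h | h | h | h | ⟨h4, h, -⟩ | ⟨h4, h, -⟩
  · exact absurd h.2 h1
  · omega
  · omega
  · omega
  · omega
  · rw [Nat.odd_iff] at h4; omega

theorem psl2_deg {X : Type*} [Group X] {χ : X → ℂ} (hχ : IsCharacter X χ) (f : PSL(2, F) →* X) {g : PSL(2, F)}
    (hg : χ (f g) ≠ χ 1) : Fintype.card F ≤ 2 * charDegree χ + 1 := by
  obtain ⟨g, rfl⟩ := QuotientGroup.mk'_surjective _ g
  have := sl2_deg (hχ.comp (f.comp (QuotientGroup.mk' _))) (g := g) (by simpa using hg)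
  rwa [charDegree_comp] at this

theorem psl2_val (h2 : (2 : F) = 0) {χ : PSL(2, F) → ℂ} (hχ : IsIrrCharacter _ χ) (h1 : χ ≠ fun _ => 1)
    {v : PSL(2, F)} (v1 : v ≠ 1) (v2 : v ^ 2 = 1) : χ 1 - χ v = Fintype.card F := by
  obtain ⟨g, rfl⟩ := QuotientGroup.mk_surjective v
  have hψ := hχ.inflate
  have hg : ¬ IsScal (g : M2 F) := fun e => v1 ((QuotientGroup.eq_one_iff g).2 (mem_center_iff_isScal.2 e))
  have ht : (g : M2 F).trace = 0 := by
    have e := mem_center_iff_isScal.1 ((QuotientGroup.eq_one_iff (g ^ 2)).1 v2)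
    rw [sq, Matrix.SpecialLinearGroup.coe_mul, m2_sq, sub_eq_neg_add, ← neg_smul] at e
    exact (isScal_lin_iff hg _ _).1 e
  have ht1 : (g : M2 F).trace = 2 * 1 := by rw [ht, h2, zero_mul]
  have hev : ¬ Odd (Fintype.card F) := fun e => by
    obtain ⟨m, hm⟩ := e
    have := FiniteField.cast_card_eq_zero F
    rw [hm] at this
    push_cast at this
    rw [h2, zero_mul, zero_add] at this
    exact one_ne_zero this
  obtain ⟨g₀, h₀⟩ := exists_noEig_SL (F := F)
  change (fun x : SL(2, F) => χ x) 1 - (fun x : SL(2, F) => χ x) g = _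
  rcases irr_cases_deg h₀ hψ hψ.charDegree_eq.symm with h | h | ⟨-, α, -, h⟩ | ⟨-, θ, -, h⟩ | ⟨h4, -⟩ | ⟨h4, -⟩
  · refine absurd (funext fun a => ?_) h1
    obtain ⟨a, rfl⟩ := QuotientGroup.mk_surjective a
    exact congrFun h.2 a
  · rw [h.2, Sts_one, Sts_par hg ht1 (one_pow 2), sub_zero]
  · rw [h, R_one, R_par α hg ht1 (one_pow 2), map_one]; ring
  · rw [h, pi_one, pi_unip h₀ θ hg (by rw [ht, h2])]; ring
  · exact absurd h4 hev
  · exact absurd h4 hev

end SL
end H01.Bk
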