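import Mathlib
import Cfsg.Agent.H19.Cm0

/-!
# Finite facts in `(S₃ × S₅)⁺` (namespace `H01.Cm`)
-/

set_option autoImplicit false
set_option synthInstance.maxSize 4000
open H19.Cm

namespace H01.Cm

theorem k1 : ∀ x : L, (∃ w ∈ [1, Z', A * Z' * A], (x * w) ^ 15 = 1) ∨ x * Z ≠ Z * x ∧ x * I * Z = Z * (x * I) := by
  decide +kernel
theorem k2 : (∃ c : L, c * (A * A8) * c⁻¹ = Z') ∧ A * A8 * I = I * (A * A8) ∧ I * I = 1 ∧ I ≠ 1 ∧ U ≠ 1 ∧ U * Z = Z * U ∧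
    Z' ≠ 1 ∧ Z ≠ 1 ∧ Z * Z' ≠ 1 ∧ (Z * Z') ^ 3 = 1 ∧ (A * Z' * A) ^ 3 = 1 ∧ A * Z' * A * Z = Z * (A * Z' * A) ∧
    Z' * (A * Z' * A) ≠ A * Z' * A * Z' := by decide +kernel

end H01.Cm
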