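import Mathlib
import Cfsg.Agent.H01.CmT
import Cfsg.Agent.BG.Api2

/-!
# Part (1) of the 3-local characterization of `A₈` (namespace `H01.Cm`)

`cl3`, `us`, `i2`.
-/

set_option autoImplicit false
set_option synthInstance.maxSize 4000
set_option linter.unusedSectionVars false
open Cfsg BG Subgroup H19.Cm

namespace H01.Cm
variable {G : Type*} [Group G] [Finite G] {f : L →* G} {s r x y : G} {K : Subgroup G}

theorem Dc (i : x ∈ D f) (j : y ∈ D f) : Commute x y := by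
  obtain ⟨a, b, rfl⟩ := mem_D.1 i
  obtain ⟨c, d, rfl⟩ := mem_D.1 j
  have e : Commute Z Z' := zz.1
  exact (((Commute.refl Z).pow_pow a c).mul_right (e.pow_pow a d)).mul_left
    ((e.symm.pow_pow b c).mul_right ((Commute.refl Z').pow_pow b d)) |>.map f

theorem sD (h : Hy f s) : IsSylowIn 3 (D f) ⊤ := h.syl.elim fun P e => e ▸ isSylowIn_top Nat.prime_three P

theorem o3 (x3 : x ^ 3 = 1) (x1 : x ≠ 1) : Nat.card (zpowers x) = 3 := by
  have : Fact (Nat.Prime 3) := ⟨by norm_num⟩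
  rw [Nat.card_zpowers, orderOf_eq_prime x3 x1]

theorem cl3 (h : Hy f s) (r2 : r * r = 1) (r1 : r ≠ 1) (k : K ≤ C_[r]) (i : x ∈ K) (j : y ∈ K) (x3 : x ^ 3 = 1) (x1 : x ≠ 1)
    (y3 : y ^ 3 = 1) (y1 : y ≠ 1) : ∃ g ∈ K, g * x * g⁻¹ = y ∨ g * x * g⁻¹ = y⁻¹ := by
  classical
  obtain ⟨P, hP, l⟩ := sylow_superset Nat.prime_three (IsPGroup.of_card (n := 1) (o3 y3 y1)) (zpowers_le.2 j)
  obtain ⟨g, m, l'⟩ := sylow_Jsub Nat.prime_three hP (IsPGroup.of_card (n := 1) (o3 x3 x1)) (zpowers_le.2 i)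
  obtain ⟨c, -, lc⟩ := sylow_Jsub Nat.prime_three (sD h) (hP.pg Nat.prime_three) le_top
  have a1 := card_dvd_of_le lc
  have a2 := card_dvd_of_le l
  rw [card_cj, h.cD] at a1
  rw [o3 y3 y1] at a2
  have a3 : Nat.card P ≠ 9 := fun e => by
    have e1 := Subgroup.eq_of_le_of_card_ge lc (by rw [card_cj, h.cD, e])
    have t : ∀ w ∈ D f, c * r * c⁻¹ * w = w * (c * r * c⁻¹) := fun w o => by
      obtain ⟨v, o', rfl⟩ := e1.ge o
      show _ * (c * v * c⁻¹) = c * v * c⁻¹ * _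
      rw [conj_mul, conj_mul, mem_cent1.1 (k (hP.le o'))]
    have m := h.cD' (t _ (subset_closure (by simp))) (t _ (subset_closure (by simp)))
    have a := (D f).orderOf_dvd_natCard m
    have b : orderOf (c * r * c⁻¹) ∣ 2 := orderOf_dvd_of_pow_eq_one (by rw [conj_pow, pow_two, r2]; simp)
    rw [h.cD] at a
    exact r1 (conj_eq_one_iff.1 (orderOf_eq_one_iff.1 (Nat.eq_one_of_dvd_coprimes (by norm_num) a b)))
  have a4 : Nat.card P ≤ 3 := by
    have := Nat.le_of_dvd (by norm_num) a1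
    generalize Nat.card P = n at *
    interval_cases n <;> omega
  have e := (Subgroup.eq_of_le_of_card_ge l (by rw [o3 y3 y1]; exact a4)).ge (l' ⟨x, mem_zpowers x, rfl⟩)
  have : Fact (Nat.Prime 3) := ⟨by norm_num⟩
  rw [mem_zpowers_iff_mem_range_orderOf, orderOf_eq_prime y3 y1] at e
  simp only [Finset.mem_image, Finset.mem_range] at e
  obtain ⟨n, o, e⟩ := e
  replace e : y ^ n = g * x * g⁻¹ := e
  refine ⟨g, m, ?_⟩
  obtain _ | _ | _ | n := n
  · exact absurd (conj_eq_one_iff.1 (e.symm.trans (pow_zero y))) x1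
  · exact .inl (by simpa using e.symm)
  · exact .inr (e.symm.trans (eq_inv_of_mul_eq_one_left (by rw [← pow_succ, y3])))
  · omega

theorem f3 {x : L} {n : ℕ} (e : x ^ n = 1) : f x ^ n = 1 := by rw [← map_pow, e, map_one]
theorem f1 (h : Hy f s) {x : L} (e : x ≠ 1) : f x ≠ 1 := fun k => e (h.inj (k.trans (map_one f).symm))
theorem fc {x y : L} (e : x * y = y * x) : f x * f y = f y * f x := by rw [← map_mul, e, map_mul]

theorem us (h : Hy f s) : US f s := fun e => by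
  obtain ⟨c, e⟩ := isConj_iff.1 e
  obtain ⟨-, -, -, -, u1, uz, -, z1, y1, y3, w3, wz, n⟩ := k2
  obtain ⟨g, -, k⟩ := cl3 h h.s2 (fun k => f1 h u1 (conj_eq_one_iff.1 (e.trans k))) le_rfl (x := c * f Z * c⁻¹) (y := f (Z * Z'))
    (mem_cent1.2 (by rw [← e, conj_mul, conj_mul, fc uz])) (mem_cent1.2 (by
      have a : s * f Z = f Z' * s := by rw [← h.sz, mul_assoc, h.s2, mul_one]
      have b : s * f Z' = f Z * s := by rw [← h.sz', mul_assoc, h.s2, mul_one]
      rw [map_mul, ← mul_assoc, a, mul_assoc (f Z'), b, ← mul_assoc, fc zz.1]))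
    (by rw [conj_pow, f3 zz.2.1]; simp) (fun k => f1 h z1 (conj_eq_one_iff.1 k)) (f3 y3) (f1 h y1)
  have t : ∀ w : L, w ^ 3 = 1 → w * Z = Z * w → g * c * f w * (g * c)⁻¹ ∈ D f := fun w w3 wz => by
    have a : Commute (g * c * f w * (g * c)⁻¹) (g * (c * f Z * c⁻¹) * g⁻¹) := by
      rw [show g * (c * f Z * c⁻¹) * g⁻¹ = g * c * f Z * (g * c)⁻¹ by group, Commute, SemiconjBy, conj_mul, conj_mul, fc wz]
    have b : Commute (g * c * f w * (g * c)⁻¹) (f (Z * Z')) := by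
      rcases k with k | k <;> rw [k] at a
      exacts [a, Commute.inv_right_iff.1 a]
    exact (sD h).le_of_norm_pg' Nat.prime_three (X := zpowers _) (fun x => ⟨1, by
      obtain ⟨_, m, rfl⟩ := x
      refine Subtype.ext ?_
      show (_ ^ m) ^ 3 ^ 1 = 1
      rw [pow_one, ← zpow_natCast, ← zpow_mul, mul_comm m, zpow_mul, zpow_natCast, conj_pow, f3 w3]; simp⟩) le_top
      (zpowers_le.2 (h.hy _ b)) (mem_zpowers _)
  have := (Dc (t _ zz.2.2 zz.1.symm) (t _ w3 wz)).eq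
  rw [conj_mul, conj_mul, mul_left_inj, mul_right_inj, ← map_mul, ← map_mul] at this
  exact n (h.inj this)

theorem i2 (h : Hy f s) : I2 G := fun H e => by
  have nH := normal_of_index_eq_two e
  obtain ⟨⟨c, ec⟩, ki, i2, i1, -, -, z1, -, -, -, w3, -, -⟩ := k2
  have od : ∀ x : L, x ^ 15 = 1 → f x ∈ H := fun x k => by
    have := mul_self_mem_of_index_two e (f x ^ 8)
    rwa [← pow_add, show 8 + 8 = 15 + 1 from rfl, pow_succ, f3 k, one_mul] at this
  have o3 : ∀ x : L, x ^ 3 = 1 → f x ∈ H := fun x k => od x (by rw [show 15 = 3 * 5 from rfl, pow_mul, k, one_pow])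
  have a0 : ∀ x : L, (∃ w ∈ [1, Z', A * Z' * A], (x * w) ^ 15 = 1) → f x ∈ H := fun x ⟨w, m, o⟩ => by
    have := od _ o
    rw [map_mul, mul_mem_cancel_right] at this
    · exact this
    simp only [List.mem_cons, List.not_mem_nil, or_false] at m
    rcases m with rfl | rfl | rfl
    exacts [o3 _ (one_pow _), o3 _ zz.2.2, o3 _ w3]
  have a1 : ∀ x : L, x * Z = Z * x → f x ∈ H := fun x k => a0 x ((k1 x).resolve_right fun n => n.1 k)
  have ek : f c * f (A * A8) * (f c)⁻¹ = f Z' := by rw [← ec, map_mul f _ c⁻¹, map_mul f c, map_inv]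
  have iH : f I ∈ H := by
    obtain ⟨x, o, k⟩ := h.cz' (g := f c * f I * (f c)⁻¹) (by rw [← ek, conj_mul, conj_mul, fc ki])
    have := nH.conj_mem _ (a1 x k) s
    rw [h.si', o] at this
    simpa [mul_assoc] using nH.conj_mem _ this (f c)⁻¹
  have a2 : ∀ x : L, f x ∈ H := fun x => (k1 x).elim (a0 x) fun k => by
    have := a1 _ k.2
    rwa [map_mul, mul_mem_cancel_right iH] at this
  by_cases m : s ∈ H
  · have l : D f ≤ H := fun g i => by obtain ⟨a, b, rfl⟩ := mem_D.1 i; exact a2 _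
    have := sylow_frattini Nat.prime_three ((sD h).sub l le_top) le_top (normalizer_eq_top_iff.2 nH).ge
    rw [sup_eq_left.2 fun g i => by
      rcases h.hD g i.2 with ⟨x, rfl⟩ | ⟨x, o⟩
      exacts [a2 x, (mul_mem_cancel_right m).1 (o ▸ a2 x)]] at this
    simp [this] at e
  have k3 : f (A * A8) ^ 3 = 1 := conj_eq_one_iff.1 (by rw [← conj_pow, ek, f3 zz.2.2] : f c * _ * (f c)⁻¹ = 1)
  have k0 : f (A * A8) ≠ 1 := fun k => f1 h z1 (by rw [← ek, k]; simp)
  obtain ⟨g, ⟨-, gH⟩, k⟩ := cl3 h (r := f I) (by rw [← map_mul, i2, map_one]) (f1 h i1) (K := C_[f I] ⊓ H) inf_le_left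
    (x := f (A * A8)) (y := s * f (A * A8) * s⁻¹) ⟨mem_cent1.2 (fc ki), a2 _⟩
    ⟨(C_[f I]).mul_mem (mul_mem (mem_cent1.2 h.si) (mem_cent1.2 (fc ki))) (inv_mem (mem_cent1.2 h.si)), nH.conj_mem _ (a2 _) s⟩
    k3 k0 (by rw [conj_pow, k3]; simp) fun k => k0 (conj_eq_one_iff.1 k)
  have b : s * f c * s⁻¹ * g * (f c)⁻¹ * s ∈ N_(zpowers (f Z)) := mem_norm_of_cj_le (by
    rw [cj_zpowers, zpowers_le]
    have e1 : s * f c * s⁻¹ * g * (f c)⁻¹ * s * f Z * (s * f c * s⁻¹ * g * (f c)⁻¹ * s)⁻¹ =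
        s * f c * s⁻¹ * (g * f (A * A8) * g⁻¹) * (s * f c * s⁻¹)⁻¹ := by
      rw [show f (A * A8) = (f c)⁻¹ * (s * f Z * s⁻¹) * f c by rw [h.si', h.sz, ← ek]; group]; group
    have e2 : s * f c * s⁻¹ * (s * f (A * A8) * s⁻¹) * (s * f c * s⁻¹)⁻¹ = f Z := by
      rw [← show s * f Z' * s⁻¹ = f Z by rw [h.si', h.sz'], ← ek]; group
    rw [e1]
    rcases k with k | k <;> rw [k]
    · rw [e2]; exact mem_zpowers _
    · rw [← conj_inv, e2]; exact inv_mem (mem_zpowers _))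
  obtain ⟨x, o⟩ := (h.hN _).1 b
  have := a2 x
  rw [o, mul_mem_cancel_left (mul_mem (mul_mem (nH.conj_mem _ (a2 c) s) gH) (inv_mem (a2 c)))] at this
  exact m this

end H01.Cm
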