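import Mathlib
import Cfsg.Agent.H19.Frob3
import Cfsg.Agent.H19.Basic
import Cfsg.Agent.H16.PLen
import Cfsg.Agent.H21.Height
import Cfsg.Agent.H05.Burnside
import Cfsg.Agent.H03.Fusion

/-! Pairs of elements of order `p` generating `p`-solvable subgroups, abelian Sylow `p`-subgroup.
`H01.PP2.exists_sigma` (a homomorphism to `P` computing `p`-parts up to conjugacy),
`H01.PP2.two_of_trans` (all non-identity elements of `P` conjugate forces `p = 2`). -/

set_option autoImplicit false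
set_option linter.unusedSectionVars false
set_option linter.style.haveILetI false

open H05 Cfsg Classical
open scoped ComplexConjugate

namespace H01
namespace PP2

variable {p : ℕ} {G : Type*} [Group G] [hp : Fact p.Prime]

theorem comm_of_pgroup [Finite G] {P : Sylow p G} (hP : IsMulCommutative (P : Subgroup G)) {Q : Subgroup G}
    (hQ : IsPGroup p Q) {a b : G} (ha : a ∈ Q) (hb : b ∈ Q) : a * b = b * a := by
  obtain ⟨c, hc⟩ := H03.exists_conj_mem_sylow P hQ
  have := congrArg Subtype.val (hP.is_comm.comm (⟨_, hc a ha⟩ : (P : Subgroup G)) ⟨_, hc b hb⟩)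
  have h2 : c * (a * b) * c⁻¹ = c * (b * a) * c⁻¹ := by simpa [mul_assoc] using this
  exact mul_left_cancel (mul_right_cancel h2)

theorem ord_conj (c a : G) : orderOf (c * a * c⁻¹) = orderOf a := (MulAut.conj c).orderOf_eq a

theorem exists_sigma [Finite G] {P : Sylow p G} (hP : IsMulCommutative (P : Subgroup G)) {x y : G}
    (hx : ∃ k, orderOf x = p ^ k) (hy : ∃ k, orderOf y = p ^ k)
    (hs : IsPSolvable p (Subgroup.closure ({x, y} : Set G))) :
    ∃ σ : Subgroup.closure ({x, y} : Set G) →* (P : Subgroup G), ∀ g, IsConj (σ g : G) (H21.pPart p (g : G)) := by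
  set H := Subgroup.closure ({x, y} : Set G) with hH
  have hmem : ∀ z : H, (∃ k, orderOf (z : G) = p ^ k) → z ∈ pPrimePCore p H := by
    intro z hz
    have hz' : IsPGroup p (Subgroup.zpowers z) := by
      obtain ⟨k, hk⟩ := hz
      exact IsPGroup.of_card (n := k) (by rw [Nat.card_zpowers, ← hk, Subgroup.orderOf_coe])
    obtain ⟨S, hS⟩ := hz'.exists_le_sylow
    refine H16.mem_pPrimePCore_of_comm hs S fun s h => Subtype.ext ?_
    exact comm_of_pgroup hP (S.2.map H.subtype) ⟨s, h, rfl⟩ ⟨z, hS (Subgroup.mem_zpowers z), rfl⟩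
  have htop : pPrimePCore p H = ⊤ := by
    rw [eq_top_iff]
    rintro ⟨z, hz⟩ -
    induction hz using Subgroup.closure_induction with
    | mem w hw =>
      rcases hw with rfl | rfl
      · exact hmem _ hx
      · exact hmem _ hy
    | one => exact one_mem _
    | mul a b ha hb h1 h2 => exact mul_mem h1 h2
    | inv a ha h1 => exact inv_mem h1
  set K := pPrimeCore p H with hK
  have hq : IsPGroup p (H ⧸ K) := by
    rw [← H02.pCore_eq_top_iff, eq_top_iff]
    intro z _
    obtain ⟨z, rfl⟩ := QuotientGroup.mk'_surjective K z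
    exact (htop ▸ Subgroup.mem_top z : z ∈ pPrimePCore p H)
  obtain ⟨Q⟩ : Nonempty (Sylow p H) := inferInstance
  have hb : Function.Bijective ((QuotientGroup.mk' K).comp (Q : Subgroup H).subtype) := by
    constructor
    · rw [injective_iff_map_eq_one]
      intro a ha
      have h1 : (a : H) ∈ (Q : Subgroup H) ⊓ K := ⟨a.2, (QuotientGroup.eq_one_iff _).1 ha⟩
      rw [hK, H02.isPGroup_inf_pPrimeCore Q.2] at h1
      exact Subtype.ext h1
    · intro z
      have h1 : (Q : Subgroup H).map (QuotientGroup.mk' K) = ⊤ :=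
        ((Q.mapSurjective (QuotientGroup.mk'_surjective K)).is_maximal' (hq.to_subgroup ⊤) le_top).symm
      obtain ⟨a, ha, rfl⟩ := (h1 ▸ Subgroup.mem_top z : z ∈ (Q : Subgroup H).map (QuotientGroup.mk' K))
      exact ⟨⟨a, ha⟩, rfl⟩
  set e := MulEquiv.ofBijective _ hb with he
  obtain ⟨c, hc⟩ := H03.exists_conj_mem_sylow P (Q.2.map H.subtype)
  let π : H →* (Q : Subgroup H) := e.symm.toMonoidHom.comp (QuotientGroup.mk' K)
  have hπ : ∀ g, QuotientGroup.mk' K (π g : H) = QuotientGroup.mk' K g := fun g => e.apply_symm_apply _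
  refine ⟨(((MulAut.conj c).toMonoidHom.comp (H.subtype.comp (Q : Subgroup H).subtype)).comp π).codRestrict _
    fun g => hc _ ⟨π g, (π g).2, rfl⟩, fun g => ?_⟩
  have h1 : QuotientGroup.mk' K (H21.pPart p g) = QuotientGroup.mk' K g := by
    rw [H21.map_pPart, H21.pPart_of_pow]
    exact (IsPGroup.iff_orderOf.1 hq) _
  obtain ⟨k, -, hk⟩ := H21.exists_conj_of_coset (K := K) (H02.not_dvd_card_pPrimeCore hp.out) (a := (π g : H))
    (b := H21.pPart p g) (by rw [Subgroup.normalizer_eq_top]; trivial) (H21.orderOf_pow_of_mem Q.2 (π g).2)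
    (H21.orderOf_pPart p g) (by
      rw [← QuotientGroup.eq_one_iff, ← QuotientGroup.mk'_apply, map_mul, map_inv, h1, hπ, mul_inv_cancel])
  rw [← H21.coe_pPart, ← hk]
  refine IsConj.trans (b := ((π g : H) : G)) (isConj_iff.2 ⟨c⁻¹, ?_⟩) (isConj_iff.2 ⟨k, rfl⟩)
  simp [mul_assoc]

theorem ord_eq_of_isConj {a b : G} (h : IsConj a b) : orderOf a = orderOf b := by
  obtain ⟨c, rfl⟩ := isConj_iff.1 h
  exact (ord_conj c a).symm
  
theorem int_val [Fintype G] {P : Sylow p G} (hP : IsMulCommutative (P : Subgroup G)) {x : G}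
    (hx : x ∈ (P : Subgroup G)) (hx1 : x ≠ 1) (χ : IrrCharacter G)
    (h : ∀ y ∈ (P : Subgroup G), y ≠ 1 → (χ : G → ℂ) y = (χ : G → ℂ) x) :
    ∃ a m : ℤ, (χ : G → ℂ) x = a ∧ (charDegree (χ : G → ℂ) : ℤ) = a + m * Nat.card (P : Subgroup G) := by
  haveI := hP
  have hn : Nontrivial (P : Subgroup G) := ⟨⟨⟨x, hx⟩, 1, fun e => hx1 (congrArg Subtype.val e)⟩⟩
  obtain ⟨ψ, hψ⟩ : ∃ ψ : (P : Subgroup G) →* ℂˣ, ψ ≠ 1 := by
    have : 1 < Fintype.card ((P : Subgroup G) →* ℂˣ) := by rw [H19.card_dual]; exact Finite.one_lt_card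
    exact Fintype.exists_ne_of_one_lt_card this 1
  have hq := card_ne_zero_complex (G := (P : Subgroup G))
  have hs : ∑ y ∈ Finset.univ.erase (1 : (P : Subgroup G)), conj (H19.hf ψ y) = -1 := by
    have h1 := H19.classInner_hf (1 : (P : Subgroup G) →* ℂˣ) ψ
    rw [if_neg hψ.symm, classInner, mul_eq_zero, inv_eq_zero, ← Finset.add_sum_erase _ _ (Finset.mem_univ 1)] at h1
    simp only [H19.hf_one, Pi.one_apply, one_mul, H19.hf_apply_one, map_one] at h1
    linear_combination h1.resolve_left hq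
  have hc : ((Finset.univ.erase (1 : (P : Subgroup G))).card : ℂ) = Nat.card (P : Subgroup G) - 1 := by
    rw [Finset.card_erase_of_mem (Finset.mem_univ _), Finset.card_univ, ← Nat.card_eq_fintype_card,
      Nat.cast_sub Nat.card_pos]; simp
  have h1 := H19.card_mul_uu (P : Subgroup G) χ ψ
  rw [Finset.sum_congr rfl (g := fun y => (χ : G → ℂ) x * (conj (H19.hf ψ y) - 1)) fun y hy => by
    rw [h y y.2 fun e => (Finset.mem_erase.1 hy).1 (Subtype.ext e)]; simp,
    ← Finset.mul_sum, Finset.sum_sub_distrib, hs, Finset.sum_const, nsmul_eq_mul, hc] at h1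
  have ha : (χ : G → ℂ) x = (-H19.uu (P : Subgroup G) χ ψ : ℤ) := by
    apply mul_left_cancel₀ hq
    push_cast; linear_combination h1
  obtain ⟨m, hm⟩ := (χ.2.isCharacter.comp (P : Subgroup G).subtype).isGeneralizedCharacter.exists_classInner_eq_int
    (H19.isIrr_hf ψ).isGeneralizedCharacter
  refine ⟨_, m, ha, ?_⟩
  have h2 : (Nat.card (P : Subgroup G) : ℂ) * m = (χ : G → ℂ) 1 - (χ : G → ℂ) x := by
    rw [← hm, classInner, ← mul_assoc, mul_inv_cancel₀ hq, one_mul, ← Finset.add_sum_erase _ _ (Finset.mem_univ 1),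
      Finset.sum_congr rfl (g := fun y => (χ : G → ℂ) x * conj (H19.hf ψ y)) fun y hy => by
        rw [← h y y.2 fun e => (Finset.mem_erase.1 hy).1 (Subtype.ext e)]; rfl,
      ← Finset.mul_sum, hs]
    simp [H19.hf_apply_one]; ring
  have h3 : (charDegree (χ : G → ℂ) : ℂ) = (-H19.uu (P : Subgroup G) χ ψ : ℤ) + m * Nat.card (P : Subgroup G) := by
    rw [χ.2.charDegree_eq, ← ha]; linear_combination -h2
  exact_mod_cast h3

theorem le_deg [Finite G] (χ : IrrCharacter G) {x : G} {a : ℤ} (h : (χ : G → ℂ) x = a) :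
    a ≤ charDegree (χ : G → ℂ) := by
  have := χ.2.isCharacter.norm_le x
  rw [h, Complex.norm_intCast] at this
  exact_mod_cast (le_abs_self _).trans this

theorem lt_deg [Finite G] [IsSimpleGroup G] (χ : IrrCharacter G) (h1 : χ ≠ H21.irrOne G) {x : G} (hx : x ≠ 1) {a : ℤ}
    (h : (χ : G → ℂ) x = a) : a < charDegree (χ : G → ℂ) := by
  refine lt_of_le_of_ne (le_deg χ h) fun e => hx ?_
  have := χ.2.charKer_eq_bot_of_simple fun e' => h1 (Subtype.ext e')
  rw [← Subgroup.mem_bot, ← this, χ.2.isCharacter.mem_charKer, h, e, ← χ.2.charDegree_eq]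
  simp

theorem two_of_trans [Finite G] [IsSimpleGroup G] (P : Sylow p G) (hP1 : (P : Subgroup G) ≠ ⊥)
    (hPe : IsElementaryAbelian p (P : Subgroup G))
    (hconj : ∀ x ∈ (P : Subgroup G), ∀ y ∈ (P : Subgroup G), x ≠ 1 → y ≠ 1 → ∃ g : G, g * x * g⁻¹ = y)
    (hb : ∀ x ∈ (P : Subgroup G), orderOf x = p → HasNormalPComplement p (Subgroup.centralizer ({x} : Set G)))
    (hc : ∀ x y : G, orderOf x = p → orderOf y = p → IsPSolvable p (Subgroup.closure ({x, y} : Set G))) :
    p = 2 := by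
  by_contra h2
  have hp3 : 3 ≤ p := by have := hp.out.two_le; omega
  haveI := Fintype.ofFinite G
  obtain ⟨M, hM⟩ := H21.exists_isPModular hp.out
  obtain ⟨⟨x, hx⟩, hx1⟩ := (Subgroup.ne_bot_iff_exists_ne_one).1 hP1
  replace hx1 : x ≠ 1 := fun e => hx1 (Subtype.ext e)
  have hox : orderOf x = p := orderOf_eq_prime (hPe.2 x hx) hx1
  have hxk : ∃ k, orderOf x = p ^ k := ⟨1, by rw [hox, pow_one]⟩
  have hsing : ∀ g, p ∣ orderOf g → IsConj x (H21.pPart p g) := by
    intro g hg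
    have hz' : IsPGroup p (Subgroup.zpowers (H21.pPart p g)) := by
      obtain ⟨k, hk⟩ := H21.orderOf_pPart p g
      exact IsPGroup.of_card (n := k) (by rw [Nat.card_zpowers, ← hk])
    obtain ⟨c, hc⟩ := H03.exists_conj_mem_sylow P hz'
    obtain ⟨d, hd⟩ := hconj x hx _ (hc _ (Subgroup.mem_zpowers _)) hx1 (by
      simpa [H21.pPart_eq_one_iff] using hg)
    exact (isConj_iff.2 ⟨d, hd⟩).trans (isConj_iff.2 ⟨c⁻¹, by group⟩)
  have hval : ∀ χ ∈ principalBlock M G, ∀ g, p ∣ orderOf g → (χ : G → ℂ) g = (χ : G → ℂ) x :=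
    fun χ hχ g hg => H21.principal_apply_of_isConj hM hχ (hsing g hg) (hb x hx hox)
  have hle : (P : Subgroup G) ≤ Subgroup.centralizer {x} := fun y hy => Subgroup.mem_centralizer_singleton_iff.2
    (congrArg Subtype.val (hPe.1.is_comm.comm (⟨y, hy⟩ : (P : Subgroup G)) ⟨x, hx⟩))
  set q := Nat.card (P : Subgroup G) with hq
  have hlam : H21.lamP M (Subgroup.centralizer ({x} : Set G)) = q := by
    rw [H21.lamP_of_hasNPC hM (hb x hx hox), ← (P.subtype hle).card_eq_multiplicity]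
    exact Nat.card_congr (Subgroup.subgroupOfEquivOfLe hle).toEquiv
  set B := Finset.univ.filter fun χ : IrrCharacter G => χ ∈ principalBlock M G with hB
  have hΦ : ∀ g, ∑ χ ∈ B, (χ : G → ℂ) g * conj ((χ : G → ℂ) x) = if p ∣ orderOf g then (q : ℂ) else 0 := by
    intro g
    split_ifs with hg
    · rw [← hlam, ← H21.sum_principal_col_of_isConj hM hxk (IsConj.refl x)]
      exact Finset.sum_congr rfl fun χ hχ => by rw [hval χ (by simpa [hB] using hχ) g hg]
    · refine H21.sum_principal_of_ne hM ?_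
      rw [H21.pPart_of_not_dvd hg, H21.pPart_of_pow hxk, isConj_one_right]
      exact hx1
  have hint : ∀ χ : IrrCharacter G, ∃ a m : ℤ, χ ∈ B → (χ : G → ℂ) x = a ∧
      (charDegree (χ : G → ℂ) : ℤ) = a + m * q := by
    intro χ
    by_cases hχ : χ ∈ B
    · obtain ⟨a, m, h⟩ := int_val hPe.1 hx hx1 χ fun y hy hy1 => hval χ (by simpa [hB] using hχ) y
        (by rw [orderOf_eq_prime (hPe.2 y hy) hy1])
      exact ⟨a, m, fun _ => h⟩
    · exact ⟨0, 0, fun h => absurd h hχ⟩
  choose a m ham using hint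
  have h1B : H21.irrOne G ∈ B := by
    haveI := hM.2.1
    simpa [hB] using H21.one_mem_principal
  have hdeg1 := H19.charDegree_irrOne21 (G := G)
  have ha1 : a (H21.irrOne G) = 1 := by
    have := (ham _ h1B).1
    rw [H21.irrOne_apply] at this
    exact_mod_cast this.symm
  have hsq : ∑ χ ∈ B, a χ ^ 2 = q := by
    have := hΦ x
    rw [if_pos (by rw [hox]), Finset.sum_congr rfl (g := fun χ => ((a χ ^ 2 : ℤ) : ℂ)) fun χ hχ => by
      rw [(ham χ hχ).1]; simp [sq]] at this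
    exact_mod_cast this
  have hdeg : ∑ χ ∈ B, (charDegree (χ : G → ℂ) : ℤ) * a χ = 0 := by
    have := hΦ 1
    rw [if_neg (by simpa using hp.out.one_lt.ne'),
      Finset.sum_congr rfl (g := fun χ : IrrCharacter G => (((charDegree (χ : G → ℂ) : ℤ) * a χ : ℤ) : ℂ)) fun χ hχ => by
      rw [(ham χ hχ).1, ← χ.2.charDegree_eq]; simp] at this
    exact_mod_cast this
  obtain ⟨χ₀, hχ₀, hneg⟩ : ∃ χ ∈ B, a χ < 0 := by
    by_contra hn
    push Not at hn
    have := (Finset.sum_eq_zero_iff_of_nonneg fun χ hχ => mul_nonneg (Int.natCast_nonneg _) (hn χ hχ)).1 hdeg _ h1B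
    rw [hdeg1, ha1] at this
    simp at this
  set A : ℝ := ∑ χ ∈ B, (a χ : ℝ) ^ 3 / charDegree (χ : G → ℂ) with hA
  have hup : A < q / 2 := by
    have hne : χ₀ ≠ H21.irrOne G := by rintro rfl; omega
    have e1 : ∀ f : IrrCharacter G → ℝ, ∑ χ ∈ B, f χ =
        f (H21.irrOne G) + (f χ₀ + ∑ χ ∈ (B.erase (H21.irrOne G)).erase χ₀, f χ) := fun f => by
      rw [Finset.add_sum_erase _ _ (Finset.mem_erase.2 ⟨hne, hχ₀⟩), Finset.add_sum_erase _ _ h1B]
    have hsq' : ∑ χ ∈ B, (a χ : ℝ) ^ 2 = q := by exact_mod_cast hsq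
    rw [e1] at hsq'
    rw [hA, e1]
    simp only [ha1, hdeg1] at hsq' ⊢
    have b1 : (a χ₀ : ℝ) ^ 3 / charDegree (χ₀ : G → ℂ) < 0 := by
      have : (0 : ℝ) < charDegree (χ₀ : G → ℂ) := by exact_mod_cast χ₀.2.charDegree_pos
      have : (a χ₀ : ℝ) < 0 := by exact_mod_cast hneg
      exact div_neg_of_neg_of_pos (Odd.pow_neg (by decide) this) ‹_›
    have b2 : (1 : ℝ) ≤ (a χ₀ : ℝ) ^ 2 := by
      have : (a χ₀ : ℝ) ≤ -1 := by exact_mod_cast (by omega : a χ₀ ≤ -1)
      nlinarith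
    have b3 : ∑ χ ∈ (B.erase (H21.irrOne G)).erase χ₀, (a χ : ℝ) ^ 3 / charDegree (χ : G → ℂ) ≤
        (∑ χ ∈ (B.erase (H21.irrOne G)).erase χ₀, (a χ : ℝ) ^ 2) / 2 := by
      rw [Finset.sum_div]
      refine Finset.sum_le_sum fun χ hχ => ?_
      have hχ1 := Finset.mem_erase.1 (Finset.mem_erase.1 hχ).2
      have c0 : (0 : ℝ) < charDegree (χ : G → ℂ) := by exact_mod_cast χ.2.charDegree_pos
      have c1 := lt_deg χ hχ1.1 hx1 (ham χ hχ1.2).1
      have c2 := (ham χ hχ1.2).2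
      have c3 : a χ ^ 2 ≤ q := hsq ▸ Finset.single_le_sum (f := fun χ => a χ ^ 2) (fun _ _ => sq_nonneg _) hχ1.2
      have c4 : 2 * a χ ≤ charDegree (χ : G → ℂ) := by
        have : 0 < m χ := by
          by_contra hm
          have : m χ * q ≤ 0 := mul_nonpos_of_nonpos_of_nonneg (by omega) (Int.natCast_nonneg _)
          omega
        have : (q : ℤ) ≤ m χ * q := le_mul_of_one_le_left (Int.natCast_nonneg _) this
        nlinarith
      have c5 : 2 * (a χ : ℝ) ≤ charDegree (χ : G → ℂ) := by exact_mod_cast c4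
      rw [div_le_div_iff₀ c0 (by norm_num)]
      nlinarith [sq_nonneg (a χ : ℝ)]
    push_cast at hsq' ⊢
    linarith
  -- the count
  have hpair : ∀ w : G, p ∣ orderOf w → (Nat.card G : ℝ) ^ 2 * A =
      ∑ b : G, ∑ c : G, if p ∣ orderOf (c * x * c⁻¹ * (b * w * b⁻¹)) then (q : ℝ) else 0 := by
    intro w hw
    have : (Nat.card G : ℂ) ^ 2 * (A : ℂ) =
        ∑ b : G, ∑ c : G, if p ∣ orderOf (c * x * c⁻¹ * (b * w * b⁻¹)) then (q : ℂ) else 0 := by
      simp only [← hΦ]
      rw [hA]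
      push_cast
      rw [Finset.mul_sum, Finset.sum_congr rfl (g := fun χ : IrrCharacter G => ∑ b : G, ∑ c : G,
        (χ : G → ℂ) (c * x * c⁻¹ * (b * w * b⁻¹)) * conj ((χ : G → ℂ) x)) fun χ hχ => by
          simp only [← Finset.sum_mul]
          rw [← H08.pairSum, H08.pairSum_irr χ.2, hval χ (by simpa [hB] using hχ) w hw, (ham χ hχ).1,
            χ.2.charDegree_eq]
          simp; ring, Finset.sum_comm]
      exact Finset.sum_congr rfl fun _ _ => Finset.sum_comm
    apply Complex.ofReal_injective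
    push_cast
    rw [this]
    refine Finset.sum_congr rfl fun _ _ => Finset.sum_congr rfl fun _ _ => ?_
    split_ifs <;> simp
  have hone : ∀ b c : G, ((p : ℝ) - 2) * q ≤ ∑ i ∈ Finset.Ico 1 p,
      if p ∣ orderOf (c * x * c⁻¹ * (b * x ^ i * b⁻¹)) then (q : ℝ) else 0 := by
    intro b c
    have o1 : orderOf (c * x * c⁻¹) = p := by rw [ord_conj, hox]
    have o2 : orderOf (b * x * b⁻¹) = p := by rw [ord_conj, hox]
    obtain ⟨σ, hσ⟩ := exists_sigma hPe.1 ⟨1, by rw [o1, pow_one]⟩ ⟨1, by rw [o2, pow_one]⟩ (hc _ _ o1 o2)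
    set u : Subgroup.closure ({c * x * c⁻¹, b * x * b⁻¹} : Set G) := ⟨_, Subgroup.subset_closure (Or.inl rfl)⟩
    set v : Subgroup.closure ({c * x * c⁻¹, b * x * b⁻¹} : Set G) := ⟨_, Subgroup.subset_closure (Or.inr rfl)⟩
    have o3 : orderOf (σ v) = p := by
      rw [← Subgroup.orderOf_coe, ord_eq_of_isConj (hσ v), H21.pPart_of_pow ⟨1, by rw [pow_one]; exact o2⟩]
      exact o2
    have hreg : ∀ i : ℕ, ¬ p ∣ orderOf (c * x * c⁻¹ * (b * x ^ i * b⁻¹)) → σ u * σ v ^ i = 1 := by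
      intro i hi
      have := hσ (u * v ^ i)
      rw [show ((u * v ^ i : Subgroup.closure _) : G) = c * x * c⁻¹ * (b * x ^ i * b⁻¹) by simp [u, v],
        H21.pPart_of_not_dvd hi, isConj_one_left, map_mul, map_pow] at this
      exact Subtype.ext this
    rw [← Finset.sum_filter, Finset.sum_const, nsmul_eq_mul]
    refine mul_le_mul_of_nonneg_right ?_ (Nat.cast_nonneg _)
    have hc1 : ((Finset.Ico 1 p).filter fun i => ¬ p ∣ orderOf (c * x * c⁻¹ * (b * x ^ i * b⁻¹))).card ≤ 1 := by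
      rw [Finset.card_le_one]
      intro i hi j hj
      rw [Finset.mem_filter, Finset.mem_Ico] at hi hj
      have := (hreg i hi.2).trans (hreg j hj.2).symm
      exact pow_injOn_Iio_orderOf (by rw [o3]; exact hi.1.2) (by rw [o3]; exact hj.1.2) (mul_left_cancel this)
    have hc2 := Finset.card_filter_add_card_filter_not (s := Finset.Ico 1 p)
      (fun i => p ∣ orderOf (c * x * c⁻¹ * (b * x ^ i * b⁻¹)))
    rw [Nat.card_Ico] at hc2
    have : p ≤ ((Finset.Ico 1 p).filter fun i => p ∣ orderOf (c * x * c⁻¹ * (b * x ^ i * b⁻¹))).card + 2 := by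
      omega
    have : (p : ℝ) ≤ ((Finset.Ico 1 p).filter fun i => p ∣ orderOf (c * x * c⁻¹ * (b * x ^ i * b⁻¹))).card + 2 := by
      exact_mod_cast this
    linarith
  have hsum : (Nat.card G : ℝ) ^ 2 * (((p : ℝ) - 2) * q) ≤ ((p : ℝ) - 1) * ((Nat.card G : ℝ) ^ 2 * A) := by
    have e1 : ((p : ℝ) - 1) * ((Nat.card G : ℝ) ^ 2 * A) = ∑ i ∈ Finset.Ico 1 p, (Nat.card G : ℝ) ^ 2 * A := by
      rw [Finset.sum_const, Nat.card_Ico, nsmul_eq_mul, Nat.cast_sub hp.out.one_le]; simp
    rw [e1, Finset.sum_congr rfl fun i hi => hpair (x ^ i) (by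
      rw [Finset.mem_Ico] at hi
      rw [(Nat.Coprime.orderOf_pow (by
        rw [hox]; exact (Nat.coprime_of_lt_prime (by omega) hi.2 hp.out))), hox]), Finset.sum_comm]
    have e2 : (Nat.card G : ℝ) ^ 2 * (((p : ℝ) - 2) * q) = ∑ b : G, ∑ c : G, ((p : ℝ) - 2) * q := by
      simp only [Finset.sum_const, Finset.card_univ, nsmul_eq_mul, Nat.card_eq_fintype_card]; ring
    rw [e2]
    refine Finset.sum_le_sum fun b _ => ?_
    rw [Finset.sum_comm]
    exact Finset.sum_le_sum fun c _ => hone b c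
  have hG : (0 : ℝ) < (Nat.card G : ℝ) ^ 2 := by have := Nat.card_pos (α := G); positivity
  have hq0 : (0 : ℝ) < q := by exact_mod_cast Nat.card_pos
  have hp3' : (3 : ℝ) ≤ p := by exact_mod_cast hp3
  have : ((p : ℝ) - 2) * q ≤ ((p : ℝ) - 1) * A := by
    apply le_of_mul_le_mul_left _ hG
    linarith
  nlinarith

end PP2
end H01
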