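import Mathlib
import Cfsg.Agent.H01.PPairA
import Cfsg.Agent.H20.Misc
import Cfsg.Agent.H24.PSolv
import Cfsg.Agent.H03.NPC3

/-! Cyclic Sylow `p`-subgroups: if all pairs of elements of order `p` generate `p`-solvable subgroups then the group
is `p`-solvable.  `H01.PP2.eta` (orbit sums of linear characters), `theta`, `pair_id`, `frob_of_cyclic`,
`not_simple_cyc`, `psol_of_pairs_cyc`. -/

set_option autoImplicit false
set_option linter.unusedSectionVars false
set_option linter.style.haveILetI false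

open H05 Cfsg Classical H19
open scoped ComplexConjugate

namespace H01
namespace PP2

variable {p : ℕ} {G : Type*} [Group G] [hp : Fact p.Prime]

set_option hygiene false in
local notation "𝐍" => Subgroup.normalizer ((P : Subgroup G) : Set G)
set_option hygiene false in
local notation "𝐂" => Subgroup.centralizer ((P : Subgroup G) : Set G)
set_option hygiene false in
local notation "ν" => Subgroup.normalizerMonoidHom (P : Subgroup G)

section eta
variable [Fintype G] {M : Ideal AlgInt} {P : Sylow p G}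

variable (P) in
/-- normalised orbit sum of a linear character -/
noncomputable def eta (ψ : (P : Subgroup G) →* ℂˣ) (y : (P : Subgroup G)) : ℂ :=
  (Nat.card (𝐂) : ℂ)⁻¹ * ∑ n : 𝐍, hf ψ (ν n y)

theorem card_mul_eta (ψ : (P : Subgroup G) →* ℂˣ) (y : (P : Subgroup G)) :
    Nat.card (𝐂) * eta P ψ y = ∑ n : 𝐍, hf ψ (ν n y) := by
  rw [eta, ← mul_assoc, mul_inv_cancel₀ card_ne_zero_complex, one_mul]

theorem eta_nu (ψ : (P : Subgroup G) →* ℂˣ) (m : 𝐍) (y : (P : Subgroup G)) : eta P ψ (ν m y) = eta P ψ y := by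
  rw [eta, eta, ← Equiv.sum_comp (Equiv.mulRight m) (fun n => hf ψ (ν n y))]
  simp [map_mul]

theorem eta_of_triv {ψ : (P : Subgroup G) →* ℂˣ} {y : (P : Subgroup G)} (h : ∀ n : 𝐍, ψ (ν n y) = 1) :
    eta P ψ y = frobIdx (P : Subgroup G) := by
  apply mul_left_cancel₀ (card_ne_zero_complex (G := 𝐂))
  rw [card_mul_eta]
  simp only [hf_apply, h, Units.val_one, Finset.sum_const, Finset.card_univ, ← Nat.card_eq_fintype_card,
    card_normalizer]
  simp

theorem hf_mul {Q : Type*} [Group Q] (ψ : Q →* ℂˣ) (y z : Q) : hf ψ (y * z) = hf ψ y * hf ψ z := by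
  simp [hf_apply]

theorem sum_eta_nu (ψ : (P : Subgroup G) →* ℂˣ) (m : 𝐍) (x w : (P : Subgroup G)) :
    ∑ n : 𝐍, eta P ψ (x * ν (m * n) w) = Nat.card (𝐂) * (eta P ψ x * eta P ψ w) := by
  apply mul_left_cancel₀ (card_ne_zero_complex (G := 𝐂))
  rw [Finset.mul_sum]
  simp only [card_mul_eta, map_mul (ν _), hf_mul]
  rw [Finset.sum_comm]
  have : ∀ k : 𝐍, ∑ n : 𝐍, hf ψ (ν k x) * hf ψ (ν k (ν (m * n) w)) =
      hf ψ (ν k x) * (Nat.card (𝐂) * eta P ψ w) := fun k => by
    rw [← Finset.mul_sum, card_mul_eta, ← Equiv.sum_comp (Equiv.mulLeft (k * m)) (fun n => hf ψ (ν n w))]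
    simp [map_mul]
  simp only [this]
  rw [← Finset.sum_mul, ← card_mul_eta]; ring

variable (F : Frob P)
include F

theorem eta_exc {ψ : (P : Subgroup G) →* ℂˣ} (hψ : ψ ≠ 1) (y : (P : Subgroup G)) :
    ∑ ψ' with DRel _ ψ ψ', hf ψ' y = eta P ψ y := by
  apply mul_left_cancel₀ (card_ne_zero_complex (G := 𝐂))
  rw [card_mul_eta, ← Finset.sum_fiberwise (s := Finset.univ) (g := fun n => cD _ n ψ), Finset.mul_sum,
    Finset.sum_filter]
  refine Finset.sum_congr rfl fun ψ' _ => ?_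
  rw [Finset.sum_congr rfl (g := fun _ => hf ψ' y) fun n hn => by rw [← (Finset.mem_filter.1 hn).2]; rfl,
    Finset.sum_const, F.card_filter_cD hψ, nsmul_eq_mul]
  by_cases h : DRel _ ψ ψ'
  · rw [if_pos h, if_pos ((dRel_equivalence _).symm h)]
  · rw [if_neg h, if_neg fun h' => h ((dRel_equivalence _).symm h')]; simp

theorem theta (hM : IsPModular p M) (ψ : (P : Subgroup G) →* ℂˣ) {g : G} {y : (P : Subgroup G)}
    (h : IsConj (y : G) (H21.pPart p g)) :
    ∑ χ with χ ∈ principalBlock M G, uu P χ ψ * (χ : G → ℂ) g = eta P ψ y - frobIdx (P : Subgroup G) := by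
  by_cases hy : y = 1
  · subst hy
    rw [eta_of_triv (by simp), sub_self]
    refine sum_uu_mul_eq_zero hM ψ (H21.pPart_eq_one_iff.1 ?_)
    simpa [eq_comm] using h
  have hy' : (y : G) ≠ 1 := fun e => hy (Subtype.ext e)
  rw [Finset.sum_congr rfl (g := fun χ => uu P χ ψ * (χ : G → ℂ) y) fun χ hχ => by
    rw [H21.principal_apply_of_isConj hM (Finset.mem_filter.1 hχ).2 h (F.hasNPC y.2 hy')]]
  have hP := card_ne_zero_complex (G := (P : Subgroup G))
  have hC := card_ne_zero_complex (G := 𝐂)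
  apply mul_left_cancel₀ (mul_ne_zero hC hP)
  calc _ = ∑ y' ∈ Finset.univ.erase 1, (hf ψ y' - 1) * (Nat.card (𝐂) *
          ∑ χ with χ ∈ principalBlock M G, (χ : G → ℂ) y * conj ((χ : G → ℂ) (y' : (P : Subgroup G)))) := by
        simp only [Finset.mul_sum]
        rw [Finset.sum_comm]
        refine Finset.sum_congr rfl fun χ _ => ?_
        rw [mul_assoc, ← mul_assoc (Nat.card (P : Subgroup G) : ℂ), card_mul_uu', Finset.sum_mul, Finset.mul_sum]
        exact Finset.sum_congr rfl fun _ _ => by ring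
    _ = ∑ n : 𝐍, Nat.card (P : Subgroup G) * (hf ψ (ν n y) - 1) := by
        rw [Finset.sum_erase _ (by simp [hf_apply_one])]
        simp only [F.col hM hy, Finset.mul_sum]
        rw [Finset.sum_comm]
        refine Finset.sum_congr rfl fun n _ => ?_
        rw [Finset.sum_eq_single (ν n y)]
        · simp [mul_comm]
        · intro y' _ hy'
          rw [if_neg hy'.symm]; simp
        · simp
    _ = _ := by
        rw [← Finset.mul_sum, Finset.sum_sub_distrib, ← card_mul_eta, Finset.sum_const, Finset.card_univ,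
          ← Nat.card_eq_fintype_card, card_normalizer]
        simp; ring

theorem sum_eta {x : (P : Subgroup G)} (hx : x ≠ 1) : ∑ ψ, eta P ψ x = 0 := by
  haveI := F.comm
  simp only [eta]
  rw [← Finset.mul_sum, Finset.sum_comm, Finset.sum_eq_zero, mul_zero]
  exact fun n _ => sum_dual (by simpa using hx)

theorem sum_eta_mul (hM : IsPModular p M) {x : (P : Subgroup G)} (hx : x ≠ 1) (w : (P : Subgroup G)) :
    ∑ ψ, eta P ψ x * eta P ψ w =
      frobIdx (P : Subgroup G) * ∑ χ with χ ∈ principalBlock M G, (χ : G → ℂ) x * (χ : G → ℂ) w := by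
  haveI := F.comm
  have hC := card_ne_zero_complex (G := 𝐂)
  apply mul_left_cancel₀ (mul_ne_zero hC hC)
  have h1 := F.col hM hx w⁻¹
  simp only [InvMemClass.coe_inv, IsIrrCharacter.apply_inv (Subtype.property (_ : IrrCharacter G)),
    Complex.conj_conj] at h1
  calc _ = ∑ n' : 𝐍, ∑ n : 𝐍, ∑ ψ, hf ψ (ν n x * ν n' w) := by
        rw [Finset.mul_sum, Finset.sum_congr rfl (g := fun ψ => ∑ n' : 𝐍, ∑ n : 𝐍,
          hf ψ (ν n x * ν n' w)) fun ψ _ => by
            rw [mul_mul_mul_comm, card_mul_eta, card_mul_eta, mul_comm, Finset.sum_mul_sum]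
            simp only [hf_mul, mul_comm], Finset.sum_comm]
        exact Finset.sum_congr rfl fun _ _ => Finset.sum_comm
    _ = ∑ n' : 𝐍, Nat.card (P : Subgroup G) * ∑ n : 𝐍, if ν n x = w⁻¹ then (1 : ℂ) else 0 := by
        refine Finset.sum_congr rfl fun n' _ => ?_
        rw [← Equiv.sum_comp (Equiv.mulLeft n'), Finset.mul_sum]
        refine Finset.sum_congr rfl fun n _ => ?_
        rw [Equiv.coe_mulLeft, map_mul, MulAut.mul_apply, ← map_mul]
        split_ifs with h
        · rw [h]; simp [hf_apply_one, card_dual]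
        · rw [sum_dual (by rwa [Ne, map_eq_one_iff _ (MulEquiv.injective _), mul_eq_one_iff_eq_inv])]; simp
    _ = _ := by
        rw [← h1, Finset.sum_const, Finset.card_univ, ← Nat.card_eq_fintype_card, card_normalizer]
        simp; ring

theorem pair_id (hM : IsPModular p M) (ψ : (P : Subgroup G) →* ℂˣ) {x w : (P : Subgroup G)}
    (h : ∀ a b : G, ∃ n₁ n₂ : 𝐍, ∀ n : 𝐍, IsConj ((ν n₁ x * ν (n₂ * n) w : (P : Subgroup G)) : G)
      (H21.pPart p (a * x * a⁻¹ * (b * (ν n w : (P : Subgroup G)) * b⁻¹)))) :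
    frobIdx (P : Subgroup G) *
      ∑ χ with χ ∈ principalBlock M G, uu P χ ψ * ((χ : G → ℂ) x * (χ : G → ℂ) w / (χ : G → ℂ) 1) =
      eta P ψ x * eta P ψ w - (frobIdx (P : Subgroup G) : ℂ) ^ 2 := by
  have hC := card_ne_zero_complex (G := 𝐂)
  have hG := pow_ne_zero 2 (card_ne_zero_complex (G := G))
  apply mul_left_cancel₀ (mul_ne_zero hG hC)
  have h1 : ∀ n : 𝐍, (Nat.card G : ℂ) ^ 2 *
      ∑ χ with χ ∈ principalBlock M G, uu P χ ψ * ((χ : G → ℂ) x * (χ : G → ℂ) w / (χ : G → ℂ) 1) =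
      ∑ b : G, ∑ a : G, ∑ χ with χ ∈ principalBlock M G,
        uu P χ ψ * (χ : G → ℂ) (a * x * a⁻¹ * (b * (ν n w : (P : Subgroup G)) * b⁻¹)) := fun n => by
    rw [Finset.mul_sum, Finset.sum_congr rfl (g := fun χ : IrrCharacter G => ∑ b : G, ∑ a : G,
      uu P χ ψ * (χ : G → ℂ) (a * x * a⁻¹ * (b * (ν n w : (P : Subgroup G)) * b⁻¹))) fun χ _ => by
        simp only [← Finset.mul_sum]
        rw [← H08.pairSum, H08.pairSum_irr χ.2, coe_nmh, χ.2.isClassFunction]
        ring, Finset.sum_comm]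
    exact Finset.sum_congr rfl fun _ _ => Finset.sum_comm
  calc _ = ∑ n : 𝐍, (Nat.card G : ℂ) ^ 2 *
      ∑ χ with χ ∈ principalBlock M G, uu P χ ψ * ((χ : G → ℂ) x * (χ : G → ℂ) w / (χ : G → ℂ) 1) := by
        rw [Finset.sum_const, Finset.card_univ, ← Nat.card_eq_fintype_card, card_normalizer]
        simp; ring
    _ = ∑ b : G, ∑ a : G, Nat.card (𝐂) * (eta P ψ x * eta P ψ w - (frobIdx (P : Subgroup G) : ℂ) ^ 2) := by
        rw [Finset.sum_congr rfl fun n _ => h1 n, Finset.sum_comm]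
        refine Finset.sum_congr rfl fun b _ => ?_
        rw [Finset.sum_comm]
        refine Finset.sum_congr rfl fun a _ => ?_
        obtain ⟨n₁, n₂, hn⟩ := h a b
        simp only [theta F hM ψ (hn _)]
        rw [Finset.sum_sub_distrib, sum_eta_nu, eta_nu, Finset.sum_const, Finset.card_univ,
          ← Nat.card_eq_fintype_card, card_normalizer]
        simp; ring
    _ = _ := by
        simp only [Finset.sum_const, Finset.card_univ, ← Nat.card_eq_fintype_card, nsmul_eq_mul]; ring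

theorem pair_hyp (hc : IsCyclic (P : Subgroup G))
    (hs : ∀ x y : G, orderOf x = p → orderOf y = p → IsPSolvable p (Subgroup.closure ({x, y} : Set G)))
    {x w : (P : Subgroup G)} (hx : orderOf (x : G) = p) (hw : orderOf (w : G) = p) (a b : G) :
    ∃ n₁ n₂ : 𝐍, ∀ n : 𝐍, IsConj ((ν n₁ x * ν (n₂ * n) w : (P : Subgroup G)) : G)
      (H21.pPart p (a * x * a⁻¹ * (b * (ν n w : (P : Subgroup G)) * b⁻¹))) := by
  have o1 : orderOf (a * x * a⁻¹) = p := by rw [ord_conj, hx]
  have o2 : orderOf (b * w * b⁻¹) = p := by rw [ord_conj, hw]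
  obtain ⟨σ, hσ⟩ := exists_sigma F.comm ⟨1, by rw [o1, pow_one]⟩ ⟨1, by rw [o2, pow_one]⟩ (hs _ _ o1 o2)
  set u : Subgroup.closure ({a * x * a⁻¹, b * w * b⁻¹} : Set G) := ⟨_, Subgroup.subset_closure (Or.inl rfl)⟩
  set v : Subgroup.closure ({a * x * a⁻¹, b * w * b⁻¹} : Set G) := ⟨_, Subgroup.subset_closure (Or.inr rfl)⟩
  have h1 := hσ u
  have h2 := hσ v
  rw [H21.pPart_of_pow ⟨1, by rw [pow_one]; exact o1⟩] at h1
  rw [H21.pPart_of_pow ⟨1, by rw [pow_one]; exact o2⟩] at h2
  obtain ⟨n₁, m₁, e₁⟩ := F.exists_conj (y := x) (y' := σ u) ((isConj_iff.2 ⟨a, rfl⟩).trans h1.symm)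
  obtain ⟨n₂, m₂, e₂⟩ := F.exists_conj (y := w) (y' := σ v) ((isConj_iff.2 ⟨b, rfl⟩).trans h2.symm)
  refine ⟨⟨n₁, m₁⟩, ⟨n₂, m₂⟩, fun n => ?_⟩
  obtain ⟨k, hk⟩ := H20.exists_zpow_of_isCyclic hc n.2
  have h3 := hσ (u * v ^ k)
  have e3 : ν n w = w ^ k := Subtype.ext (hk w w.2)
  have e4 : ν ⟨n₁, m₁⟩ x = σ u := Subtype.ext e₁
  have e5 : ν ⟨n₂, m₂⟩ w = σ v := Subtype.ext e₂
  rw [map_mul, MulAut.mul_apply, e3, map_zpow, e4, e5, ← map_zpow, ← map_mul]
  convert h3 using 2
  simp [u, v]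

theorem card_orbit {x : G} (hx : x ∈ (P : Subgroup G)) (hx1 : x ≠ 1) :
    (Finset.univ.filter fun y => ∃ n ∈ 𝐍, n * x * n⁻¹ = y).card = frobIdx (P : Subgroup G) := by
  have h := H21.sum_subgroup_conj (𝐍) x fun _ => 1
  rw [inf_comm, F.frob x hx hx1, Finset.sum_const, Finset.sum_const, Finset.card_univ,
    ← Nat.card_eq_fintype_card, card_normalizer] at h
  simp only [nsmul_eq_mul, mul_one, Nat.cast_mul] at h
  exact_mod_cast (mul_left_cancel₀ card_ne_zero_complex h).symm

end eta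

theorem frob_of_cyclic [Finite G] (P : Sylow p G) (hc : IsCyclic (P : Subgroup G)) : Frob P := by
  have hcomm : IsMulCommutative (P : Subgroup G) := IsCyclic.isMulCommutative
  refine ⟨hcomm, fun y hy hy1 => le_antisymm ?_ (le_inf (Subgroup.centralizer_le (Set.singleton_subset_iff.2 hy))
    (Subgroup.centralizer_le_normalizer _))⟩
  rintro n ⟨h1, h2⟩
  rw [← H21.pPart_mul_pReg p n]
  refine mul_mem ?_ (H20.mem_centralizer_of_isCyclic P.2 hc (H21.pReg_mem p h2) (H21.not_dvd_orderOf_pReg p n) hy hy1 ?_)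
  · have hz : IsPGroup p (Subgroup.zpowers (H21.pPart p n)) := by
      obtain ⟨k, hk⟩ := H21.orderOf_pPart p n
      exact IsPGroup.of_card (n := k) (by rw [Nat.card_zpowers, ← hk])
    have := hz.inf_normalizer_sylow P
    have h3 : H21.pPart p n ∈ (P : Subgroup G) :=
      (this ▸ (⟨Subgroup.mem_zpowers _, H21.pPart_mem p h2⟩ : H21.pPart p n ∈ Subgroup.zpowers (H21.pPart p n) ⊓
        Subgroup.normalizer (P : Set G)) : H21.pPart p n ∈ Subgroup.zpowers (H21.pPart p n) ⊓ P).2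
    exact fun z hz => congrArg Subtype.val (hcomm.is_comm.comm (⟨z, hz⟩ : (P : Subgroup G)) ⟨_, h3⟩)
  · rw [mul_inv_eq_iff_eq_mul]
    exact Subgroup.mem_centralizer_singleton_iff.1 (H21.pReg_mem p h1)


section main
variable [Fintype G] {M : Ideal AlgInt} {P : Sylow p G} {d δ : ℤ} {a : IrrCharacter G → ℤ}
  {ζ : ((P : Subgroup G) →* ℂˣ) → IrrCharacter G}

theorem isPPart_self (y : (P : Subgroup G)) : IsPPart p (y : G) y :=
  H21.isPPart_iff.2 (H21.pPart_of_pow (H21.orderOf_pow_of_mem P.2 y.2)).symm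

theorem single (D : FDesc M P d δ a ζ) {Dg : ℕ} (hD : ∀ η ∈ fY ζ, (η : G → ℂ) 1 = Dg) (hD0 : Dg ≠ 0)
    {x w : (P : Subgroup G)} (hx : (x : G) ≠ 1) (hw : (w : G) ≠ 1)
    (h : ∀ a b : G, ∃ n₁ n₂ : 𝐍, ∀ n : 𝐍, IsConj ((ν n₁ x * ν (n₂ * n) w : (P : Subgroup G)) : G)
      (H21.pPart p (a * x * a⁻¹ * (b * (ν n w : (P : Subgroup G)) * b⁻¹))))
    {ψ : (P : Subgroup G) →* ℂˣ} (hψ : ψ ≠ 1) :
    frobIdx (P : Subgroup G) * (-(Dg * ∑ χ ∈ fX M ζ, (a χ : ℂ) ^ 3 / charDegree (χ : G → ℂ)) -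
      d * (∑ χ with χ ∈ principalBlock M G, (χ : G → ℂ) x * (χ : G → ℂ) w - ∑ χ ∈ fX M ζ, (a χ : ℂ) ^ 2) +
      δ * ((d + δ * eta P ψ x) * (d + δ * eta P ψ w))) =
      Dg * (eta P ψ x * eta P ψ w - (frobIdx (P : Subgroup G) : ℂ) ^ 2) := by
  have hD0' : (Dg : ℂ) ≠ 0 := by exact_mod_cast hD0
  rw [← pair_id D.frob D.mod ψ h, D.sum_split, D.sum_split,
    Finset.sum_congr (s₁ := fX M ζ) (f := fun χ => (χ : G → ℂ) x * (χ : G → ℂ) w) rfl (g := fun χ => (a χ : ℂ) ^ 2)
      fun χ hχ => by rw [D.apply_X hχ (isPPart_self x) x.2 hx, D.apply_X hχ (isPPart_self w) w.2 hw, sq],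
    Finset.sum_congr (s₁ := fX M ζ)
      (f := fun χ => uu P χ ψ * ((χ : G → ℂ) x * (χ : G → ℂ) w / (χ : G → ℂ) 1)) rfl
      (g := fun χ => -((a χ : ℂ) ^ 3 / charDegree (χ : G → ℂ)))
      fun χ hχ => by
        rw [D.apply_X hχ (isPPart_self x) x.2 hx, D.apply_X hχ (isPPart_self w) w.2 hw, D.u_X hχ hψ,
          χ.2.charDegree_eq]
        push_cast; ring,
    Finset.sum_congr (s₁ := fY ζ)
      (f := fun χ => uu P χ ψ * ((χ : G → ℂ) x * (χ : G → ℂ) w / (χ : G → ℂ) 1)) rfl
      (g := fun χ => -(d / Dg * ((χ : G → ℂ) x * (χ : G → ℂ) w)) +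
        if ζ ψ = χ then δ / Dg * ((χ : G → ℂ) x * (χ : G → ℂ) w) else 0)
      fun χ hχ => by
        rw [D.u_Y hχ hψ, hD χ hχ]
        push_cast; split_ifs <;> ring,
    Finset.sum_add_distrib, Finset.sum_ite_eq, if_pos (mem_fY.2 ⟨ψ, hψ, rfl⟩), Finset.sum_neg_distrib,
    Finset.sum_neg_distrib, ← Finset.mul_sum, D.apply_exc hψ (isPPart_self x) hx, D.apply_exc hψ (isPPart_self w) hw,
    eta_exc D.frob hψ, eta_exc D.frob hψ]
  field_simp
  ring

theorem star (D : FDesc M P d δ a ζ) {Dg : ℕ} (hD : ∀ η ∈ fY ζ, (η : G → ℂ) 1 = Dg) (hD0 : Dg ≠ 0)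
    {x w : (P : Subgroup G)} (hx : (x : G) ≠ 1) (hw : (w : G) ≠ 1)
    (h : ∀ a b : G, ∃ n₁ n₂ : 𝐍, ∀ n : 𝐍, IsConj ((ν n₁ x * ν (n₂ * n) w : (P : Subgroup G)) : G)
      (H21.pPart p (a * x * a⁻¹ * (b * (ν n w : (P : Subgroup G)) * b⁻¹))))
    {T A Q e n : ℂ} (hT : ∑ χ with χ ∈ principalBlock M G, (χ : G → ℂ) x * (χ : G → ℂ) w = T)
    (hA : ∑ χ ∈ fX M ζ, (a χ : ℂ) ^ 3 / charDegree (χ : G → ℂ) = A) (hQ : ∑ χ ∈ fX M ζ, (a χ : ℂ) ^ 2 = Q)
    (he : (frobIdx (P : Subgroup G) : ℂ) = e) (hn : (Nat.card (P : Subgroup G) : ℂ) = n + 1) :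
    Dg * (T - e - n * e + n * A) = -d * n * (T - Q) + δ * d ^ 2 * n - 2 * d * e + δ * e * (T - e) := by
  haveI := D.frob.comm
  have hδ : (δ : ℂ) ^ 2 = 1 := by rcases D.sign with h | h <;> simp [h]
  have he0 : e ≠ 0 := by rw [← he]; exact_mod_cast (frobIdx_pos _).ne'
  have h1 : ∀ y : (P : Subgroup G), eta P 1 y = e := fun y => by rw [eta_of_triv (by simp), he]
  have s1 : ∀ y : (P : Subgroup G), (y : G) ≠ 1 → ∑ ψ ∈ Finset.univ.erase 1, eta P ψ y = -e := fun y hy => by
    have := sum_eta D.frob (x := y) fun e => hy (congrArg Subtype.val e)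
    rw [← Finset.add_sum_erase _ _ (Finset.mem_univ 1), h1] at this
    linear_combination this
  have s2 : ∑ ψ ∈ Finset.univ.erase 1, eta P ψ x * eta P ψ w = e * T - e ^ 2 := by
    have := sum_eta_mul D.frob D.mod (x := x) (fun e => hx (congrArg Subtype.val e)) w
    rw [← Finset.add_sum_erase _ _ (Finset.mem_univ 1), h1, h1, hT, he] at this
    linear_combination this
  have s3 : ((Finset.univ.erase (1 : (P : Subgroup G) →* ℂˣ)).card : ℂ) = n := by
    rw [Finset.card_erase_of_mem (Finset.mem_univ _), Finset.card_univ, card_dual, Nat.cast_sub Nat.card_pos, hn]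
    simp
  have := Finset.sum_congr (s₁ := Finset.univ.erase (1 : (P : Subgroup G) →* ℂˣ)) rfl
    (f := fun ψ => e * (-(Dg * A) - d * (T - Q) + δ * d ^ 2) + (e * d * eta P ψ x + (e * d * eta P ψ w +
      (e * δ - Dg) * (eta P ψ x * eta P ψ w))))
    (g := fun _ => -(Dg * e ^ 2)) fun ψ hψ => by
      have := single D hD hD0 hx hw h (Finset.mem_erase.1 hψ).1
      rw [hT, hA, hQ, he] at this
      linear_combination this - e * (d * eta P ψ x + d * eta P ψ w + δ * eta P ψ x * eta P ψ w) * hδ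
  rw [Finset.sum_add_distrib, Finset.sum_add_distrib, Finset.sum_add_distrib, Finset.sum_const, Finset.sum_const,
    ← Finset.mul_sum, ← Finset.mul_sum, ← Finset.mul_sum, s1 x hx, s1 w hw, s2, nsmul_eq_mul, nsmul_eq_mul, s3] at this
  apply mul_left_cancel₀ he0
  linear_combination -this

theorem A_lt [IsSimpleGroup G] (D : FDesc M P d δ a ζ) (he : 2 ≤ frobIdx (P : Subgroup G)) :
    ∑ χ ∈ fX M ζ, (a χ : ℝ) ^ 3 / charDegree (χ : G → ℂ) < frobIdx (P : Subgroup G) := by
  obtain ⟨y, hy, hy1⟩ := D.exists_ne_one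
  have h1 := D.norm
  have h3 : (2 : ℤ) ≤ (fY ζ).card := by exact_mod_cast D.two_le_card_Y
  have h4 : 1 ≤ (d - δ) ^ 2 + ((fY ζ).card - 1 : ℤ) * d ^ 2 := by
    by_cases hd : d = 0
    · rcases D.sign with rfl | rfl <;> simp [hd]
    · have := pow_pos (abs_pos.2 hd) 2
      rw [sq_abs] at this
      nlinarith [sq_nonneg (d - δ)]
  have h5 : ∑ χ ∈ fX M ζ, (a χ : ℝ) ^ 2 ≤ frobIdx (P : Subgroup G) := by
    exact_mod_cast (by linarith : ∑ χ ∈ fX M ζ, a χ ^ 2 ≤ frobIdx (P : Subgroup G))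
  rw [← Finset.add_sum_erase _ _ D.one_mem_X, D.a_one] at h5 ⊢
  rw [charDegree_irrOne21]
  rcases ((fX M ζ).erase (H21.irrOne G)).eq_empty_or_nonempty with h | h
  · rw [h]
    have : (2 : ℝ) ≤ frobIdx (P : Subgroup G) := by exact_mod_cast he
    simp; linarith
  · have := Finset.sum_lt_sum_of_nonempty h (f := fun χ => (a χ : ℝ) ^ 3 / charDegree (χ : G → ℂ))
      (g := fun χ => (a χ : ℝ) ^ 2) fun χ hχ => by
        have hχ' := Finset.mem_erase.1 hχ
        have c0 : (0 : ℝ) < charDegree (χ : G → ℂ) := by exact_mod_cast χ.2.charDegree_pos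
        have c1 : (a χ : ℝ) < charDegree (χ : G → ℂ) := by
          exact_mod_cast lt_deg χ hχ'.1 hy1 (D.apply_X hχ'.2 (isPPart_self ⟨y, hy⟩) hy hy1)
        have c2 : (0 : ℝ) < (a χ : ℝ) ^ 2 := by
          have : (a χ : ℝ) ≠ 0 := by exact_mod_cast D.a_ne_zero hχ'.2
          positivity
        rw [div_lt_iff₀ c0]
        nlinarith
    push_cast at h5 ⊢
    linarith

end main

theorem not_simple_cyc [Finite G] [IsSimpleGroup G] (hG : ¬ IsMulCommutative G) (P : Sylow p G)
    (hc : IsCyclic (P : Subgroup G)) (hd : p ∣ Nat.card G)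
    (hs : ∀ x y : G, orderOf x = p → orderOf y = p → IsPSolvable p (Subgroup.closure ({x, y} : Set G))) : False := by
  haveI := Fintype.ofFinite G
  have F := frob_of_cyclic P hc
  obtain ⟨M, hM⟩ := H21.exists_isPModular hp.out
  obtain ⟨x, hx⟩ := exists_prime_orderOf_dvd_card' (G := (P : Subgroup G)) p (P.dvd_card_of_dvd_card hd)
  have hx' : orderOf (x : G) = p := by rw [Subgroup.orderOf_coe, hx]
  have ne1 : ∀ w : G, orderOf w = p → w ≠ 1 := by
    rintro w hw rfl
    exact hp.out.one_lt.ne (by simpa using hw)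
  have hx1 := ne1 _ hx'
  set e := frobIdx (P : Subgroup G) with he
  set q := Nat.card (P : Subgroup G) with hq
  have he2 : 2 ≤ e := by
    have h0 := frobIdx_pos (P : Subgroup G)
    have h1 : e ≠ 1 := fun h => H19.not_normalizer_le_centralizer hG hd P (Subgroup.relIndex_eq_one.1 h)
    omega
  have hO := card_orbit F x.2 hx1
  have hep : e + 1 ≤ p := by
    have h1 : (Finset.univ.filter fun y => ∃ n ∈ 𝐍, n * x * n⁻¹ = y) ⊆
        (Finset.univ.filter fun y => y ∈ Subgroup.zpowers (x : G)).erase 1 := by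
      intro y hy
      obtain ⟨n, hn, rfl⟩ := (Finset.mem_filter.1 hy).2
      obtain ⟨k, hk⟩ := H20.exists_zpow_of_isCyclic hc hn
      refine Finset.mem_erase.2 ⟨by simpa using hx1, Finset.mem_filter.2 ⟨Finset.mem_univ _, k, (hk x x.2).symm⟩⟩
    have h2 := Finset.card_le_card h1
    rw [hO, Finset.card_erase_of_mem (by simp), ← Fintype.card_subtype, ← Nat.card_eq_fintype_card,
      Nat.card_zpowers, hx'] at h2
    have := hp.out.pos
    omega
  have hTq : ∑ χ with χ ∈ principalBlock M G, (χ : G → ℂ) x * (χ : G → ℂ) (x⁻¹ : (P : Subgroup G)) = q := by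
    rw [hq, ← F.lamP_eq hM x.2 hx1, ← H21.sum_principal_col_of_isConj hM ⟨1, by rw [pow_one, hx']⟩ (IsConj.refl _)]
    exact Finset.sum_congr rfl fun χ _ => by rw [InvMemClass.coe_inv, χ.2.apply_inv]
  have hxi : orderOf ((x⁻¹ : (P : Subgroup G)) : G) = p := by rw [InvMemClass.coe_inv, orderOf_inv, hx']
  have hq0 : (0 : ℝ) < q := by exact_mod_cast Nat.card_pos
  have key : e + 1 < q → ∃ (d δ : ℤ) (a : IrrCharacter G → ℤ) (ζ : ((P : Subgroup G) →* ℂˣ) → IrrCharacter G)
      (Dg : ℕ), FDesc M P d δ a ζ ∧ (∀ η ∈ fY ζ, (η : G → ℂ) 1 = Dg) ∧ Dg ≠ 0 := by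
    intro h
    obtain ⟨d, δ, a, ζ, D⟩ := F.exists_desc hM h
    obtain ⟨η, hη⟩ := Finset.card_pos.1 (lt_of_lt_of_le (by norm_num) D.two_le_card_Y)
    exact ⟨d, δ, a, ζ, charDegree (η : G → ℂ), D, fun η' h' => by
      rw [D.reg_eq h' hη (by simpa using hp.out.one_lt.ne'), η.2.charDegree_eq], η.2.charDegree_pos.ne'⟩
  by_cases hall : ∀ w : (P : Subgroup G), orderOf (w : G) = p → IsConj (x : G) w
  · by_cases hqp : q = p
    · have hord : ∀ w ∈ (P : Subgroup G), w ≠ 1 → orderOf w = p := fun w hw hw1 =>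
        ((Nat.dvd_prime hp.out).1 (hqp ▸ Subgroup.orderOf_dvd_natCard _ hw)).resolve_left (by simpa using hw1)
      have := two_of_trans P (P.ne_bot_of_dvd_card hd) ⟨F.comm, fun w hw => by
          by_cases h : w = 1
          · simp [h]
          · rw [← hord w hw h, pow_orderOf_eq_one]⟩
        (fun y hy z hz hy1 hz1 => isConj_iff.1 ((hall ⟨y, hy⟩ (hord y hy hy1)).symm.trans (hall ⟨z, hz⟩ (hord z hz hz1))))
        (fun y hy ho => F.hasNPC hy (ne1 y ho)) hs
      omega
    · have hpp : p * p ≤ q := by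
        obtain ⟨k, hk⟩ := IsPGroup.iff_card.1 P.2
        have hk' : q = p ^ k := hk
        have h1 : p ∣ q := P.dvd_card_of_dvd_card hd
        have h2 : 2 ≤ k := by
          rcases k with _ | _ | k
          · rw [hk', pow_zero] at h1; exact absurd (Nat.dvd_one.1 h1) hp.out.one_lt.ne'
          · exact absurd (by simpa using hk') hqp
          · omega
        rw [hk', ← sq]; exact Nat.pow_le_pow_right hp.out.pos h2
      obtain ⟨d, δ, a, ζ, Dg, D, hD, hD0⟩ := key (by have := hp.out.two_le; nlinarith)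
      have hd0 : d = 0 := by
        by_contra hd0
        have h1 := D.norm
        have h2 := D.card_Y
        rw [← he, ← hq] at h2
        have h3 : e + 2 ≤ (fY ζ).card := by
          by_contra h
          have : e * (fY ζ).card ≤ e * (e + 1) := Nat.mul_le_mul_left _ (by omega)
          nlinarith
        have h4 : (1 : ℤ) ≤ ∑ χ ∈ fX M ζ, a χ ^ 2 := by
          have := Finset.single_le_sum (f := fun χ => a χ ^ 2) (fun _ _ => sq_nonneg _) D.one_mem_X
          simpa [D.a_one] using this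
        have h5 := pow_pos (abs_pos.2 hd0) 2
        rw [sq_abs] at h5
        have h6 : (e : ℤ) + 2 ≤ (fY ζ).card := by exact_mod_cast h3
        rw [← he] at h1
        nlinarith [sq_nonneg (d - δ)]
      subst hd0
      obtain ⟨ψ, hψ, hψ'⟩ : ∃ ψ : (P : Subgroup G) →* ℂˣ, ψ ≠ 1 ∧ ∀ y, y ^ p = 1 → ψ y = 1 := by
        haveI := F.comm
        obtain ⟨g, hg⟩ := hc.exists_generator
        have hg1 : g ^ p ≠ 1 := fun h => by
          have := Nat.le_of_dvd hp.out.pos (orderOf_dvd_of_pow_eq_one h)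
          rw [orderOf_eq_card_of_forall_mem_zpowers hg, ← hq] at this
          have := hp.out.two_le
          nlinarith
        obtain ⟨ψ, hψ⟩ : ∃ ψ : (P : Subgroup G) →* ℂˣ, ψ (g ^ p) ≠ 1 := by
          by_contra hn
          push Not at hn
          have := sum_dual hg1
          simp only [hf_apply, hn, Units.val_one, Finset.sum_const, Finset.card_univ, nsmul_eq_mul, mul_one,
            Nat.cast_eq_zero] at this
          exact Fintype.card_ne_zero this
        refine ⟨ψ ^ p, fun h => hψ ?_, fun y hy => ?_⟩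
        · rw [map_pow, ← MonoidHom.pow_apply, h, MonoidHom.one_apply]
        · rw [MonoidHom.pow_apply, ← map_pow, hy, map_one]
      have hxp : x ^ p = 1 := orderOf_dvd_iff_pow_eq_one.1 hx.dvd
      have h1 := single D hD hD0 hx1 (ne1 _ hxi) (pair_hyp F hc hs hx' hxi) hψ
      rw [eta_of_triv fun n => hψ' _ (by rw [← map_pow, hxp, map_one]),
        eta_of_triv fun n => hψ' _ (by rw [← map_pow, inv_pow, hxp, inv_one, map_one])] at h1
      have h2 := star D hD hD0 hx1 (ne1 _ hxi) (pair_hyp F hc hs hx' hxi) hTq rfl rfl rfl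
        (n := q - 1) (by rw [← hq]; ring)
      have h3 := A_lt D he2
      rw [← he] at h1 h2 h3
      set A : ℝ := ∑ χ ∈ fX M ζ, (a χ : ℝ) ^ 3 / charDegree (χ : G → ℂ) with hA
      have hA' : ∑ χ ∈ fX M ζ, (a χ : ℂ) ^ 3 / charDegree (χ : G → ℂ) = A := by rw [hA]; push_cast; rfl
      rw [hA'] at h1 h2
      have hδ : (δ : ℝ) ^ 2 = 1 := by rcases D.sign with h | h <;> simp [h]
      have e0 : (2 : ℝ) ≤ e := by exact_mod_cast he2
      have r1 : (e : ℝ) * (-(Dg * A) + δ * (δ * e * (δ * e))) = 0 := by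
        apply Complex.ofReal_injective; push_cast at h1 ⊢; linear_combination h1
      have r2 : (Dg : ℝ) * (q - e - (q - 1) * e + (q - 1) * A) = δ * e * (q - e) := by
        apply Complex.ofReal_injective; push_cast at h2 ⊢; linear_combination h2
      have r3 : (Dg : ℝ) * A = δ * e ^ 2 := by
        have := (mul_eq_zero.1 r1).resolve_left (by positivity)
        linear_combination -this + δ * e ^ 2 * hδ
      have r4 : (Dg : ℝ) = δ * e := by
        apply mul_left_cancel₀ (show (q : ℝ) * (1 - e) ≠ 0 from mul_ne_zero hq0.ne' (by linarith))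
        linear_combination r2 - (q - 1) * r3
      have r5 : (0 : ℝ) < Dg := by exact_mod_cast Nat.pos_of_ne_zero hD0
      have : (Dg : ℝ) * A = Dg * e := by rw [r3, r4]; ring
      have := mul_left_cancel₀ r5.ne' this
      linarith
  · push Not at hall
    obtain ⟨w, hw, hxw⟩ := hall
    have hwi : orderOf ((w⁻¹ : (P : Subgroup G)) : G) = p := by rw [InvMemClass.coe_inv, orderOf_inv, hw]
    have heq : e + 1 < q := by
      have h1 : (Finset.univ.filter fun y => ∃ n ∈ 𝐍, n * x * n⁻¹ = y) ⊆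
          ((Finset.univ.filter fun y => y ∈ (P : Subgroup G)).erase 1).erase w := by
        intro y hy
        obtain ⟨n, hn, rfl⟩ := (Finset.mem_filter.1 hy).2
        refine Finset.mem_erase.2 ⟨fun h => hxw (isConj_iff.2 ⟨n, h⟩), Finset.mem_erase.2 ⟨by simpa using hx1,
          Finset.mem_filter.2 ⟨Finset.mem_univ _, (Subgroup.mem_normalizer_iff.1 hn x).1 x.2⟩⟩⟩
      have h2 := Finset.card_le_card h1
      rw [hO, Finset.card_erase_of_mem (by simpa using ne1 _ hw), Finset.card_erase_of_mem (by simp),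
        ← Fintype.card_subtype, ← Nat.card_eq_fintype_card, ← hq] at h2
      omega
    obtain ⟨d, δ, a, ζ, Dg, D, hD, hD0⟩ := key heq
    have hT0 : ∑ χ with χ ∈ principalBlock M G, (χ : G → ℂ) x * (χ : G → ℂ) (w⁻¹ : (P : Subgroup G)) = 0 := by
      rw [← H21.sum_principal_col_of_not hM ⟨1, by rw [pow_one, hx']⟩ ⟨1, by rw [pow_one, hw]⟩ hxw]
      exact Finset.sum_congr rfl fun χ _ => by rw [InvMemClass.coe_inv, χ.2.apply_inv]
    set t := (fY ζ).card with ht
    have hY := D.card_Y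
    rw [← he, ← hq, ← ht] at hY
    have hQ : ∑ χ ∈ fX M ζ, (a χ : ℂ) ^ 2 = e - t * d ^ 2 + 2 * d * δ := by
      have h1 := D.norm
      rw [← he, ← ht] at h1
      have h2 : ∑ χ ∈ fX M ζ, a χ ^ 2 = e - t * d ^ 2 + 2 * d * δ := by
        rcases D.sign with h | h <;> rw [h] at h1 ⊢ <;> linarith
      exact_mod_cast h2
    set A : ℝ := ∑ χ ∈ fX M ζ, (a χ : ℝ) ^ 3 / charDegree (χ : G → ℂ) with hA
    have hA' : ∑ χ ∈ fX M ζ, (a χ : ℂ) ^ 3 / charDegree (χ : G → ℂ) = A := by rw [hA]; push_cast; rfl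
    have hn : (Nat.card (P : Subgroup G) : ℂ) = e * t + 1 := by rw [← hq, ← hY]; push_cast; rfl
    have h1 := star D hD hD0 hx1 (ne1 _ hxi) (pair_hyp F hc hs hx' hxi) hTq hA' hQ rfl hn
    have h2 := star D hD hD0 hx1 (ne1 _ hwi) (pair_hyp F hc hs hx' hwi) hT0 hA' hQ rfl hn
    have h3 : A < e := A_lt D he2
    rw [← he] at h1 h2
    have hδ : δ ^ 2 = 1 := by rcases D.sign with h | h <;> simp [h]
    have e0 : (2 : ℝ) ≤ e := by exact_mod_cast he2
    have t0 : (2 : ℤ) ≤ t := by exact_mod_cast D.two_le_card_Y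
    have r1 : (Dg : ℤ) = e * (δ - t * d) := by
      have : (Dg : ℂ) = e * (δ - t * d) := by
        apply mul_left_cancel₀ (show (q : ℂ) ≠ 0 by exact_mod_cast hq0.ne')
        linear_combination h1 - h2
      exact_mod_cast this
    have r2 : d ≤ 0 := by
      by_contra hd0
      have c1 : (0 : ℤ) < e * (δ - t * d) := by rw [← r1]; exact_mod_cast Nat.pos_of_ne_zero hD0
      have c2 : 0 < δ - t * d := (pos_iff_pos_of_mul_pos c1).1 (by exact_mod_cast (by omega : 0 < e))
      have c3 : δ ≤ 1 := by rcases D.sign with h | h <;> omega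
      nlinarith
    have r3 : (Dg : ℝ) * t * (A - e) = (-d * ((t * d * δ - 1) * (t * d * δ - 2)) : ℤ) := by
      apply mul_left_cancel₀ (show (e : ℝ) ≠ 0 by positivity)
      apply Complex.ofReal_injective
      have r1' : (Dg : ℂ) = e * (δ - t * d) := by exact_mod_cast r1
      have hδ' : (δ : ℂ) ^ 2 = 1 := by exact_mod_cast hδ
      push_cast
      linear_combination h2 + e * r1' + e * d ^ 3 * t ^ 2 * hδ'
    have r4 : (0 : ℤ) ≤ -d * ((t * d * δ - 1) * (t * d * δ - 2)) := by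
      refine mul_nonneg (by omega) ?_
      rcases le_or_gt (t * d * δ) 1 with h | h
      · exact mul_nonneg_of_nonpos_of_nonpos (by omega) (by omega)
      · exact mul_nonneg (by omega) (by omega)
    have r5 : (0 : ℝ) < (Dg : ℝ) * t := by
      have : (0 : ℝ) < Dg := by exact_mod_cast Nat.pos_of_ne_zero hD0
      have : (0 : ℝ) < t := by exact_mod_cast (by omega : 0 < t)
      positivity
    have r6 : (0 : ℝ) ≤ (Dg : ℝ) * t * (A - e) := by rw [r3]; exact_mod_cast r4
    nlinarith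

theorem psol_normalizer_cyc [Finite G] (hc : ∀ Q : Subgroup G, IsPGroup p Q → IsCyclic Q) {Q : Subgroup G}
    (hQ : IsPGroup p Q) (h1 : Q ≠ ⊥) : IsPSolvable p (Subgroup.normalizer (Q : Set G)) := by
  haveI := Fintype.ofFinite G
  obtain ⟨P, hP⟩ := hQ.exists_le_sylow
  obtain ⟨⟨y, hy⟩, hy1⟩ := Subgroup.ne_bot_iff_exists_ne_one.1 h1
  have hC := H03.HasNPC.pSolvable ((frob_of_cyclic P (hc _ P.2)).hasNPC (hP hy) fun e => hy1 (Subtype.ext e))
  refine H24.PS.ext Q.normalizerMonoidHom.ker ?_ ?_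
  · rw [Subgroup.normalizerMonoidHom_ker]
    exact H24.PS.congr (H24.PS.of_le hC (Subgroup.centralizer_le (Set.singleton_subset_iff.2 hy)))
      (Subgroup.subgroupOfEquivOfLe (Subgroup.centralizer_le_normalizer _)).symm
  · haveI := hc Q hQ
    haveI : Group.IsSolvable (MulAut Q) := Group.isSolvable_of_comm fun a b =>
      (IsCyclic.mulAutMulEquiv Q).injective (by rw [map_mul, map_mul, mul_comm])
    exact H24.PS.of_injective (G := MulAut Q) H24.PS.of_solvable _ (QuotientGroup.kerLift_injective _)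

universe u

theorem psol_aux (n : ℕ) : ∀ (G : Type u) [Group G] [Finite G], Nat.card G = n →
    (∀ Q : Subgroup G, IsPGroup p Q → IsCyclic Q) →
    (∀ x y : G, orderOf x = p → orderOf y = p → IsPSolvable p (Subgroup.closure ({x, y} : Set G))) →
    IsPSolvable p G := by
  induction n using Nat.strong_induction_on with
  | _ n ih =>
  intro G _ _ hn hc hs
  by_cases hd : p ∣ Nat.card G
  swap
  · exact H24.PS.of_coprime ((hp.out.coprime_iff_not_dvd.2 hd).symm)
  by_cases hG : IsMulCommutative G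
  · haveI : Group.IsSolvable G := Group.isSolvable_of_comm hG.is_comm.comm
    exact H24.PS.of_solvable
  haveI : Nontrivial G := by
    by_contra h
    rw [not_nontrivial_iff_subsingleton] at h
    exact hG ⟨⟨fun a b => Subsingleton.elim _ _⟩⟩
  by_cases hS : IsSimpleGroup G
  · obtain ⟨P⟩ : Nonempty (Sylow p G) := inferInstance
    exact (not_simple_cyc hG P (hc _ P.2) hd hs).elim
  obtain ⟨N, hN, h0, h1⟩ : ∃ N : Subgroup G, N.Normal ∧ N ≠ ⊥ ∧ N ≠ ⊤ := by
    by_contra h
    push Not at h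
    exact hS ⟨fun N hN => by by_cases h0 : N = ⊥; exacts [Or.inl h0, Or.inr (h N hN h0)]⟩
  by_cases hpN : p ∣ Nat.card N
  · have hNs : IsPSolvable p N := by
      refine ih (Nat.card N) ?_ N rfl (fun Q hQ => ?_) fun x y hx hy => ?_
      · rw [← hn, ← N.index_mul_card]
        exact lt_mul_of_one_lt_left Nat.card_pos (Subgroup.one_lt_index_of_ne_top h1)
      · haveI := hc _ (hQ.map N.subtype)
        exact isCyclic_of_surjective _ (Subgroup.equivMapOfInjective Q N.subtype N.subtype_injective).symm.surjective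
      · have := hs x y (by rw [Subgroup.orderOf_coe, hx]) (by rw [Subgroup.orderOf_coe, hy])
        have e : Subgroup.closure ({(x : G), (y : G)} : Set G) = (Subgroup.closure ({x, y} : Set N)).map N.subtype := by
          rw [MonoidHom.map_closure, Set.image_pair]; rfl
        rw [e] at this
        exact H24.PS.congr this (Subgroup.equivMapOfInjective _ N.subtype N.subtype_injective).symm
    obtain ⟨Q⟩ : Nonempty (Sylow p N) := inferInstance
    have h2 := psol_normalizer_cyc hc (Q.2.map N.subtype) (by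
      rw [Ne, Subgroup.map_eq_bot_iff_of_injective _ N.subtype_injective]
      exact Q.ne_bot_of_dvd_card hpN)
    have h3 := H24.PS.sup (N := N) (by rw [Subgroup.normalizer_eq_top N]; exact le_top) h2 hNs
    have h4 := Q.normalizer_sup_eq_top
    exact H24.PS.top_iff.1 (h4 ▸ h3)
  · refine H24.PS.ext N (H24.PS.of_coprime ((hp.out.coprime_iff_not_dvd.2 hpN).symm)) ?_
    have hsur := QuotientGroup.mk'_surjective N
    refine ih (Nat.card (G ⧸ N)) ?_ (G ⧸ N) rfl (fun Q hQ => ?_) fun x y hx hy => ?_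
    · rw [← hn, Subgroup.card_eq_card_quotient_mul_card_subgroup N]
      exact lt_mul_of_one_lt_right Nat.card_pos ((Subgroup.one_lt_card_iff_ne_bot N).2 h0)
    · obtain ⟨S, hS⟩ := hQ.exists_le_sylow
      obtain ⟨T, rfl⟩ := Sylow.mapSurjective_surjective hsur p S
      haveI := hc _ T.2
      haveI : IsCyclic ((T.mapSurjective hsur : Sylow p (G ⧸ N)) : Subgroup (G ⧸ N)) :=
        isCyclic_of_surjective _ ((QuotientGroup.mk' N).subgroupMap_surjective T)
      exact isCyclic_of_injective (Subgroup.inclusion hS) (Subgroup.inclusion_injective hS)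
    · have lift : ∀ x : G ⧸ N, orderOf x = p → ∃ z : G, orderOf z = p ∧ QuotientGroup.mk' N z = x := by
        intro x hx
        obtain ⟨z, rfl⟩ := hsur x
        have e : QuotientGroup.mk' N (H21.pPart p z) = QuotientGroup.mk' N z := by
          rw [H21.map_pPart, H21.pPart_of_pow ⟨1, by rw [pow_one, hx]⟩]
        refine ⟨_, orderOf_eq_prime ?_ fun h => ?_, e⟩
        · have h5 : H21.pPart p z ^ p ∈ N := by
            rw [← QuotientGroup.eq_one_iff, ← QuotientGroup.mk'_apply, map_pow, e]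
            exact orderOf_dvd_iff_pow_eq_one.1 hx.dvd
          refine H21.eq_one_of_pow_of_not_dvd (p := p) ?_ fun h => hpN (h.trans (N.orderOf_dvd_natCard h5))
          rw [← H21.pPart_pow]; exact H21.orderOf_pPart p _
        · rw [← e, h, map_one, orderOf_one] at hx
          exact hp.out.one_lt.ne hx
      obtain ⟨x, hx', rfl⟩ := lift x hx
      obtain ⟨y, hy', rfl⟩ := lift y hy
      have := H24.PS.map (hs x y hx' hy') (QuotientGroup.mk' N)
      rwa [MonoidHom.map_closure, Set.image_pair] at this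

theorem psol_of_pairs_cyc [Finite G] (P : Sylow p G) (hP : IsCyclic (P : Subgroup G))
    (hs : ∀ x y : G, orderOf x = p → orderOf y = p → IsPSolvable p (Subgroup.closure ({x, y} : Set G))) :
    IsPSolvable p G := by
  refine psol_aux _ G rfl (fun Q hQ => ?_) hs
  obtain ⟨S, hS⟩ := hQ.exists_le_sylow
  haveI : IsCyclic (S : Subgroup G) := isCyclic_of_surjective _ (P.equiv S).surjective
  exact isCyclic_of_injective (Subgroup.inclusion hS) (Subgroup.inclusion_injective hS)

end PP2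
end H01
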