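import Mathlib
import Cfsg.Agent.H16.Pronormal
import Cfsg.Agent.S3820
import Cfsg.Agent.H12.LtF
import Cfsg.Agent.H03.PResidual
import Cfsg.Agent.S0205

/-! Pronormality of overgroups of Sylow subgroups (namespace `H01`): `sylow_prn`, `yp_of`, `yp_of_lt` (groups with a split
BN-pair in the defining characteristic), `yp_of_cent`, `yp_klein`, `prn_of_yp`. -/

set_option autoImplicit false
set_option linter.style.haveILetI false
set_option linter.unusedSectionVars false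

namespace H01
open Subgroup Cfsg BG H16

variable {G : Type*} [Group G] [Finite G] {p : ℕ} [hp : Fact p.Prime]

theorem sylow_prn (P : Sylow p G) : IsPronormal (P : Subgroup G) := by
  intro g
  set K : Subgroup G := (P : Subgroup G) ⊔ (P : Subgroup G).map (MulAut.conj g).toMonoidHom with hK
  have h1 : (P : Subgroup G) ≤ K := le_sup_left
  have h2 : ((g • P : Sylow p G) : Subgroup G) ≤ K := le_sup_right
  obtain ⟨x, hx⟩ := MulAction.exists_smul_eq K (P.subtype h1) ((g • P).subtype h2)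
  refine ⟨x, x.2, ?_⟩
  rw [Sylow.smul_subtype] at hx
  have := Sylow.subtype_injective hx
  exact (congrArg (fun Q : Sylow p G => (Q : Subgroup G)) this).symm

theorem yp_of (P : Sylow p G) (h : ∀ K : Subgroup G, (P : Subgroup G) ≤ K → ∀ g ∈ normalizer (P : Set G),
    (orderOf g).Coprime p → ∃ w ∈ K ⊔ cj g K, cj g K = cj w K) : YP p G := by
  have h1 : ∀ K : Subgroup G, (P : Subgroup G) ≤ K → IsPronormal K := fun K hK =>
    (Cfsg.Agent.S3820.result _ K hK (sylow_prn P)).2 fun g hg => by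
      obtain ⟨u, s, hu, hs, ⟨k, hk⟩, h2, e⟩ := H03.exists_pPart_mul (p := p) g
      have hu' : u ∈ normalizer (P : Set G) := (zpowers_le.2 hg) hu
      have hs' : s ∈ normalizer (P : Set G) := (zpowers_le.2 hg) hs
      have h3 : u ∈ (P : Subgroup G) := by
        have h4 : IsPGroup p (zpowers u) := IsPGroup.of_card (by rw [Nat.card_zpowers, hk])
        have := h4.inf_normalizer_sylow P
        exact (this.le ⟨mem_zpowers u, hu'⟩).2
      have hc : u * s = s * u := by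
        obtain ⟨a, rfl⟩ := hu
        obtain ⟨b, rfl⟩ := hs
        exact (Commute.zpow_zpow_self g a b).eq
      have h5 : cj g K = cj s K := by rw [e, hc, cj_mul_of_mem_norm (le_normalizer (hK h3))]
      obtain ⟨w, hw, e'⟩ := h K hK s hs' h2
      exact ⟨w, (h5 ▸ hw : w ∈ K ⊔ cj g K), h5.trans e'⟩
  rintro K ⟨Q, hQ⟩
  obtain ⟨g, rfl⟩ := MulAction.exists_smul_eq G P Q
  have h2 := IsPronormal.map (h1 (cj g⁻¹ K) (cj_le_iff.1 hQ)) (MulAut.conj g).toMonoidHom (MulAut.conj g).surjective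
  rwa [← cj_eq_map, cj_cj_inv] at h2

theorem prn_of_yp (h : YP 2 G) (H : Subgroup G) (hH : Odd H.index) : IsPronormal H := by
  obtain ⟨P⟩ : Nonempty (Sylow 2 H) := inferInstance
  have h1 : ¬ 2 ∣ ((P : Subgroup H).map H.subtype).index := by
    rw [index_map_subtype]
    exact fun e => ((Nat.prime_two.dvd_mul.1 e).elim P.not_dvd_index hH.not_two_dvd_nat)
  exact h H ⟨(P.2.map H.subtype).toSylow h1, map_subtype_le _⟩

theorem yp_of_cent (P : Sylow p G) (h : ∀ g ∈ normalizer (P : Set G), (orderOf g).Coprime p → g ∈ center G) : YP p G :=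
  yp_of P fun K _ g hg h1 => ⟨1, one_mem _, by
    rw [cj_one]; exact cj_of_mem_cent (mem_centralizer_iff.2 fun y _ => mem_center_iff.1 (h g hg h1) y)⟩

section lt
open H12.Lt H12.St H12.Ri
variable {ι W : Type*} [Group W] {s : ι → W} {A : ι → W → Prop} {δ : G → W} {P : Set ι → Subgroup G}
  {U H N : Subgroup G} {ν : ι → G} {X : ι → Subgroup G}

theorem lt_norm (C : LT p s A δ P U H N ν X) {M : Subgroup G} (hM : U ≤ M) {h : G} (hh : h ∈ H) {g : G} (hg : g ∈ M) :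
    h⁻¹ * g * h ∈ M := by
  have hU : ∀ k ∈ H, ∀ u ∈ U, k⁻¹ * u * k ∈ U := fun k hk u hu => C.B_conj (C.H_le hk) u hu
  obtain ⟨u, hu, n, hn, u', hu', rfl, e⟩ := C.exists_un g
  replace hg : n ∈ M := by simpa [mul_assoc] using mul_mem (mul_mem (inv_mem (hM hu)) hg) (inv_mem (hM hu'))
  suffices h⁻¹ * n * h ∈ M by
    simpa [mul_assoc] using mul_mem (mul_mem (hM (hU h hh u hu)) this) (hM (hU h hh u' hu'))
  clear e
  induction hw : δ n using C.cox.induction generalizing n with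
  | h1 =>
    have h1 := C.NB n hn (C.mem_B.2 hw)
    rwa [mul_assoc, C.comm n h1 h hh, inv_mul_cancel_left]
  | h2 i w ha ih =>
    have h1 : δ ((ν i)⁻¹ * n) = w := by rw [C.mul _ (inv_mem (C.nu_mem i)) _ hn, C.inv, C.nu, hw]; group
    obtain ⟨x, hx, h0⟩ := C.exists_x i
    have h6 := C.X_conj i _ (mul_mem (inv_mem (C.nu_mem i)) hn) (h1 ▸ ha) x hx
    have h2 := mul_mem (mul_mem hg (hM h6)) (inv_mem hg)
    have h7 := mul_mem (mul_mem hg (hM (hU _ (C.conj n hn h hh) _ h6))) (inv_mem hg)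
    have h3 := C.conj_not_B hx h0 (inv_mem (C.nu_mem i)) (by rw [C.inv, C.nu, C.cox.inv_eq])
    rw [show n * (((ν i)⁻¹ * n)⁻¹ * x * ((ν i)⁻¹ * n)) * n⁻¹ = (ν i)⁻¹⁻¹ * x * (ν i)⁻¹ by group] at h2
    rw [show n * ((n⁻¹ * h * n)⁻¹ * (((ν i)⁻¹ * n)⁻¹ * x * ((ν i)⁻¹ * n)) * (n⁻¹ * h * n)) * n⁻¹ =
      h⁻¹ * ((ν i)⁻¹⁻¹ * x * (ν i)⁻¹) * h by group] at h7
    obtain ⟨a, ha, m, hm, b, hb, e, e'⟩ := C.exists_un ((ν i)⁻¹⁻¹ * x * (ν i)⁻¹)
    have h4 : m ∈ M := by
      rw [e] at h2; simpa [mul_assoc] using mul_mem (mul_mem (inv_mem (hM ha)) h2) (inv_mem (hM hb))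
    have h8 : h⁻¹ * m * h ∈ M := by
      rw [e] at h7
      simpa [mul_assoc] using mul_mem (mul_mem (inv_mem (hM (hU h hh a ha))) h7) (inv_mem (hM (hU h hh b hb)))
    have h9 := ih _ (mul_mem (inv_mem hm) hn) (mul_mem (inv_mem h4) hg)
      (by rw [C.mul _ (inv_mem hm) _ hn, C.inv, e', h3, hw]; group)
    simpa [mul_assoc] using mul_mem h8 h9

theorem yp_of_lt (C : LT p s A δ P U H N ν X) : YP p G :=
  yp_of (C.pU.toSylow C.sylow) fun K hK g hg _ => ⟨1, one_mem _, by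
    obtain ⟨u, hu, h, hh, rfl⟩ := C.fac g (C.norm_U hg)
    rw [cj_one]
    exact cj_of_mem_norm (mul_mem (le_normalizer (hK hu)) (le_norm (fun k hk y hy => lt_norm C hK hk hy) hh))⟩

end lt

theorem yp_klein (hS : ∀ P : Sylow 2 G, IsKleinFour (P : Subgroup G))
    (hc : ∀ a : G, a ≠ 1 → Odd (orderOf a) → ∀ x y, Commute a x → Commute a y → Commute x y)
    (hu : ∀ a : G, a ≠ 1 → Odd (orderOf a) → ∀ x y, Commute a x → Commute a y → orderOf x = 2 → orderOf y = 2 → x = y) :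
    YP 2 G := by
  obtain ⟨P⟩ : Nonempty (Sylow 2 G) := inferInstance
  haveI := hS P
  have sq : ∀ x ∈ (P : Subgroup G), x * x = 1 := fun x hx =>
    congrArg Subtype.val (IsKleinFour.mul_self (⟨x, hx⟩ : (P : Subgroup G)))
  have o2 : ∀ x ∈ (P : Subgroup G), x ≠ 1 → orderOf x = 2 := fun x hx h =>
    orderOf_eq_prime (by rw [pow_two, sq x hx]) h
  have cm : ∀ x ∈ (P : Subgroup G), ∀ y ∈ (P : Subgroup G), x * y = y * x := fun x hx y hy =>
    congrArg Subtype.val ((IsKleinFour.isMulCommutative (G := (P : Subgroup G))).is_comm.comm ⟨x, hx⟩ ⟨y, hy⟩)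
  have k4 : ∀ x ∈ (P : Subgroup G), ∀ y ∈ (P : Subgroup G), ∀ z ∈ (P : Subgroup G), x ≠ 1 → y ≠ 1 → x ≠ y → z ≠ 1 →
      z ≠ x → z ≠ y → z = x * y := fun x hx y hy z hz a b c d e f =>
    congrArg Subtype.val (IsKleinFour.eq_mul_of_ne_all (G := (P : Subgroup G)) (x := ⟨x, hx⟩) (y := ⟨y, hy⟩) (z := ⟨z, hz⟩)
      (fun h => a (congrArg Subtype.val h)) (fun h => b (congrArg Subtype.val h)) (fun h => c (congrArg Subtype.val h))
      (fun h => d (congrArg Subtype.val h)) (fun h => e (congrArg Subtype.val h)) (fun h => f (congrArg Subtype.val h)))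
  have ex : ∀ x : G, ∃ y ∈ (P : Subgroup G), y ≠ 1 ∧ y ≠ x := fun x => by
    by_contra! h
    classical
    have h1 : (((P : Subgroup G) : Set G)).ncard ≤ ({1, x} : Set G).ncard :=
      Set.ncard_le_ncard (fun y hy => by by_cases e : y = 1; exacts [Or.inl e, Or.inr (h y hy e)])
    have h2 := Set.ncard_insert_le 1 ({x} : Set G)
    have h3 : (((P : Subgroup G) : Set G)).ncard = 4 := IsKleinFour.card_four (G := (P : Subgroup G))
    rw [Set.ncard_singleton] at h2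
    omega
  have cjm : ∀ y ∈ normalizer (P : Set G), ∀ x ∈ (P : Subgroup G), y * x * y⁻¹ ∈ (P : Subgroup G) := fun y hy x hx =>
    (mem_normalizer_iff.1 hy x).1 hx
  have sq1 : ∀ y : G, Odd (orderOf y) → y * y = 1 → y = 1 := fun y ho e => by
    have h1 : orderOf y ∣ 2 := orderOf_dvd_of_pow_eq_one (by rw [pow_two, e])
    rcases (Nat.dvd_prime Nat.prime_two).1 h1 with h | h
    · exact orderOf_eq_one_iff.1 h
    · rw [h] at ho; exact absurd ho (by decide)
  have osq : ∀ y : G, Odd (orderOf y) → Odd (orderOf (y * y)) := fun y ho =>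
    ho.of_dvd_nat (by rw [← pow_two]; exact orderOf_pow_dvd 2)
  have fix : ∀ y ∈ normalizer (P : Set G), Odd (orderOf y) → ∀ x ∈ (P : Subgroup G), x ≠ 1 → y * x * y⁻¹ = x → y = 1 := by
    intro y hy ho x hx x1 e
    obtain ⟨x', hx', a, b⟩ := ex x
    have e' : y * x = x * y := mul_inv_eq_iff_eq_mul.1 e
    have h1 : y * y * x' * (y * y)⁻¹ = x' := by
      by_cases h : y * x' * y⁻¹ = x'
      · rw [show y * y * x' * (y * y)⁻¹ = y * (y * x' * y⁻¹) * y⁻¹ by group, h, h]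
      · have h2 := k4 x hx x' hx' _ (cjm y hy x' hx') x1 a b.symm (fun h => a (by simpa using h))
          (fun h => b (by rw [← e] at h; simpa using h)) h
        rw [show y * y * x' * (y * y)⁻¹ = y * (y * x' * y⁻¹) * y⁻¹ by group, h2,
          show y * (x * x') * y⁻¹ = (y * x * y⁻¹) * (y * x' * y⁻¹) by group, e, h2, ← mul_assoc, sq x hx, one_mul]
    by_contra y1
    exact b (hu (y * y) (fun h => y1 (sq1 y ho h)) (osq y ho) x' x (mul_inv_eq_iff_eq_mul.1 h1)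
      (Commute.mul_left e' e') (o2 x' hx' a) (o2 x hx x1))
  have fix2 : ∀ y ∈ normalizer (P : Set G), ∀ x ∈ (P : Subgroup G), x ≠ 1 → y * x * y⁻¹ = x → y ∈ (P : Subgroup G) := by
    intro y hy x hx x1 e
    obtain ⟨u, s, hu', hs, ⟨k, hk⟩, h2, e'⟩ := H03.exists_pPart_mul (p := 2) y
    have h3 : u ∈ (P : Subgroup G) := by
      have h4 : IsPGroup 2 (zpowers u) := IsPGroup.of_card (by rw [Nat.card_zpowers, hk])
      exact ((h4.inf_normalizer_sylow P).le ⟨mem_zpowers u, (zpowers_le.2 hy) hu'⟩).2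
    have h5 : s = 1 := fix s ((zpowers_le.2 hy) hs) (Nat.coprime_two_right.1 h2) x hx x1 (by
      obtain ⟨b, rfl⟩ := hs
      have : Commute y x := mul_inv_eq_iff_eq_mul.1 e
      exact mul_inv_eq_iff_eq_mul.2 (this.zpow_left b).eq)
    rw [e', h5, mul_one]; exact h3
  refine yp_of P fun K hK g hg ho => ?_
  replace ho := Nat.coprime_two_right.1 ho
  set L := K ⊔ cj g K with hL
  by_cases hgL : g ∈ L
  · exact ⟨g, hgL, rfl⟩
  have g1 : g ≠ 1 := fun h => hgL (h ▸ one_mem _)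
  have hPL : (P : Subgroup G) ≤ L := hK.trans le_sup_left
  refine ⟨1, one_mem _, ?_⟩
  rw [cj_one]
  suffices h : IsPGroup 2 K by rw [P.3 h hK]; exact cj_of_mem_norm hg
  have hN : ∀ y ∈ L, y ∈ normalizer (P : Set G) → y ∈ (P : Subgroup G) := by
    intro y hyL hy
    obtain ⟨u, s, hu', hs, ⟨k, hk⟩, h2, e'⟩ := H03.exists_pPart_mul (p := 2) y
    have h3 : u ∈ (P : Subgroup G) := by
      have h4 : IsPGroup 2 (zpowers u) := IsPGroup.of_card (by rw [Nat.card_zpowers, hk])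
      exact ((h4.inf_normalizer_sylow P).le ⟨mem_zpowers u, (zpowers_le.2 hy) hu'⟩).2
    suffices h5 : s = 1 by rw [e', h5, mul_one]; exact h3
    replace h2 := Nat.coprime_two_right.1 h2
    have hsN : s ∈ normalizer (P : Set G) := (zpowers_le.2 hy) hs
    have hsL : s ∈ L := (zpowers_le.2 hyL) hs
    by_contra s1
    obtain ⟨a, ha, a1, -⟩ := ex 1
    have key : ∀ t ∈ L, t ∈ normalizer (P : Set G) → t * a * t⁻¹ ≠ g * a * g⁻¹ := fun t h1 h2 e => hgL (by
      have := fix2 (t⁻¹ * g) (mul_mem (inv_mem h2) hg) a ha a1 (by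
        rw [show t⁻¹ * g * a * (t⁻¹ * g)⁻¹ = t⁻¹ * (g * a * g⁻¹) * t by group, ← e]; group)
      simpa using mul_mem h1 (hPL this))
    have n1 : ∀ t : G, t * a * t⁻¹ ≠ 1 := fun t h => a1 (by simpa using h)
    have n2 : s * a * s⁻¹ ≠ a := fun h => s1 (fix s hsN h2 a ha a1 h)
    have e1 := k4 a ha _ (cjm s hsN a ha) _ (cjm g hg a ha) a1 (n1 s) n2.symm (n1 g)
      (fun h => g1 (fix g hg ho a ha a1 h)) (key s hsL hsN).symm
    have e2 := k4 a ha _ (cjm s hsN a ha) _ (cjm s⁻¹ (inv_mem hsN) a ha) a1 (n1 s) n2.symm (n1 s⁻¹)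
      (fun h => s1 (inv_eq_one.1 (fix s⁻¹ (inv_mem hsN) (by rwa [orderOf_inv]) a ha a1 h)))
      (fun h => s1 (sq1 s h2 (fix (s * s) (mul_mem hsN hsN) (osq s h2) a ha a1 (by
        rw [show s * s * a * (s * s)⁻¹ = s * (s * a * s⁻¹) * s⁻¹ by group, ← h]; group))))
    exact key s⁻¹ (inv_mem hsL) (inv_mem hsN) (e2.trans e1.symm)
  have hB : normalizer ((P.subtype hPL : Sylow 2 L) : Set L) ≤ centralizer ((P.subtype hPL : Sylow 2 L) : Set L) := by
    intro y hy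
    have h1 : (y : G) ∈ normalizer (P : Set G) := by
      refine mem_norm_of_cj_le (X := (P : Subgroup G)) fun x hx => ?_
      obtain ⟨z, hz, rfl⟩ := mem_cj'.1 hx
      exact (mem_set_normalizer_iff.1 hy ⟨z, hPL hz⟩).1 hz
    exact mem_centralizer_iff.2 fun x hx => Subtype.ext (cm _ hx _ (hN y y.2 h1))
  have hC := MonoidHom.ker_transferSylow_isComplement' _ hB
  have hO := MonoidHom.not_dvd_card_ker_transferSylow _ hB
  generalize hker : (MonoidHom.transferSylow _ hB).ker = O at hC hO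
  haveI : O.Normal := hker ▸ inferInstance
  by_cases h0 : O = ⊥
  · rw [h0, isComplement'_bot_left] at hC
    refine IsPGroup.to_le P.2 fun x hx => ?_
    exact (hC.ge (mem_top (⟨x, mem_sup_left hx⟩ : L)) : x ∈ (P : Subgroup G))
  have hOo : Odd (Nat.card O) := Nat.not_even_iff_odd.1 (mt even_iff_two_dvd.1 hO)
  haveI : Group.IsSolvable O := Cfsg.Agent.S0205.result hOo
  obtain ⟨M, hMn, hMO, hM0, hMc⟩ := exists_abelian_normal_le O h0
  have hMo : ∀ m ∈ M, Odd (orderOf (m : G)) := fun m hm => by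
    rw [Subgroup.orderOf_coe]; exact hOo.of_dvd_nat (orderOf_dvd_natCard O (hMO hm))
  have hMc' : ∀ m ∈ M, ∀ m' ∈ M, m * m' = m' * m := fun m hm m' hm' =>
    congrArg Subtype.val (hMc.is_comm.comm ⟨m, hm⟩ ⟨m', hm'⟩)
  obtain ⟨s, hs, s1, a, ha, a1, hsa⟩ : ∃ s ∈ (P : Subgroup G), s ≠ 1 ∧ ∃ a ∈ M, a ≠ 1 ∧ Commute (a : G) s := by
    by_contra! h
    obtain ⟨⟨n, hn⟩, n1⟩ := (ne_bot_iff_exists_ne_one.1 hM0)
    have h1 : ∀ s ∈ (P : Subgroup G), s ≠ 1 → s * n * s⁻¹ = (n : G)⁻¹ := fun s hs s1 => by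
      have h2 := hMn.conj_mem n hn ⟨s, hPL hs⟩
      have h3 : (n : G) * (s * n * s⁻¹) = (s * n * s⁻¹) * n := congrArg Subtype.val (hMc' _ hn _ h2)
      by_contra h4
      refine h s hs s1 _ (mul_mem hn h2) (fun e => h4 (eq_inv_of_mul_eq_one_right (congrArg Subtype.val e))) ?_
      change (n : G) * (s * n * s⁻¹) * s = s * (n * (s * n * s⁻¹))
      have h5 : s⁻¹ = s := inv_eq_of_mul_eq_one_right (sq s hs)
      rw [h3]
      calc s * (n : G) * s⁻¹ * n * s = s * (n * (s⁻¹ * n * s)) := by group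
        _ = s * (n * (s * n * s⁻¹)) := by rw [h5]
        _ = _ := by rw [h3]
    obtain ⟨x, hx, x1, -⟩ := ex 1
    obtain ⟨y, hy, y1, xy⟩ := ex x
    have h6 := h1 (x * y) (mul_mem hx hy) fun e => xy (by
      rw [← inv_eq_of_mul_eq_one_right e, inv_eq_of_mul_eq_one_right (sq x hx)])
    rw [show x * y * (n : G) * (x * y)⁻¹ = x * (y * n * y⁻¹) * x⁻¹ by group, h1 y hy y1,
      show x * (n : G)⁻¹ * x⁻¹ = (x * n * x⁻¹)⁻¹ by group, h1 x hx x1, inv_inv] at h6
    exact n1 (Subtype.ext (Subtype.ext (sq1 _ (hMo n hn) (mul_eq_one_iff_eq_inv.2 h6))))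
  have a1' : (a : G) ≠ 1 := fun e => a1 (Subtype.ext e)
  have hLs : ∀ k ∈ L, k * s * k⁻¹ = s := fun k hk => by
    have h1 := hMn.conj_mem a ha ⟨k, hk⟩
    have h2 : Commute (a : G) (k * a * k⁻¹) := congrArg Subtype.val (hMc' _ ha _ h1)
    refine hu (k * a * k⁻¹) (fun e => a1' (by simpa using e)) (hMo _ h1) _ _ ?_
      (hc a a1' (hMo a ha) _ _ h2 hsa) ?_ (o2 s hs s1)
    · exact (hsa.map (MulAut.conj k))
    · exact ((MulAut.conj k).orderOf_eq s).trans (o2 s hs s1)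
  intro h
  obtain ⟨u, t, -, ht, ⟨k, hk⟩, h2, e'⟩ := H03.exists_pPart_mul (p := 2) h
  suffices h5 : t = 1 from ⟨k, by rw [e', h5, mul_one, ← hk, pow_orderOf_eq_one]⟩
  by_contra t1
  have h3 := hLs t (mem_sup_left t.2)
  have h4 := hLs _ (mem_sup_right (conj_mem_cj g t.2))
  have h6 := hu t (fun e => t1 (Subtype.ext e)) (by rw [Subgroup.orderOf_coe]; exact Nat.coprime_two_right.1 h2) s
    (g⁻¹ * s * g⁻¹⁻¹) (mul_inv_eq_iff_eq_mul.1 h3) (mul_inv_eq_iff_eq_mul.1 (by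
      rw [show (t : G) * (g⁻¹ * s * g⁻¹⁻¹) * (t : G)⁻¹ = g⁻¹ * (g * t * g⁻¹ * s * (g * t * g⁻¹)⁻¹) * g⁻¹⁻¹ by group, h4]))
    (o2 s hs s1) (((MulAut.conj g⁻¹).orderOf_eq s).trans (o2 s hs s1))
  exact g1 (inv_eq_one.1 (fix g⁻¹ (inv_mem hg) (by rwa [orderOf_inv]) s hs s1 h6.symm))

end H01
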