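import Mathlib
import Cfsg.Agent.H01.Prn1

/-! Iterated wreath products and Sylow 2-normalizers (namespace `H01`): abstract block data `WD`, the wreath product `WD.W`,
its order `WD.card_W`, the invariants `Gd`, `Strong`, the induction step `WD.strong`, `WD.gd`. -/

set_option autoImplicit false
set_option linter.style.haveILetI false
set_option linter.unusedSectionVars false

namespace H01
open Subgroup Cfsg BG

variable {G₀ G A : Type*} [Group G₀] [Group G] [CommGroup A]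

/-- block data -/
structure WD (d₀ : G₀ →* A) (m₀ : G₀) (d : G →* A) (β : G₀ × G₀ →* G) (τ : G) : Prop where
  inj : Function.Injective β
  ττ : τ * τ = 1
  τβ : ∀ a b, τ * β (a, b) = β (b, a) * τ
  cent : ∀ g, Commute g (β (1, m₀)) → g ∈ β.range
  dβ : ∀ a b, d (β (a, b)) = d₀ a * d₀ b
  dτ : d τ = 1
  dm : d₀ m₀ = 1
  mc : m₀ ∈ center G₀
  msq : m₀ * m₀ = 1
  mne : m₀ ≠ 1
  inv : ∀ a ∈ center G₀, a * a = 1 → a = 1 ∨ a = m₀
  zc : ∀ c ∈ center G₀, β (c, c) ∈ center G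
  nc : center G₀ ≠ ⊤

/-- the invariants of the induction -/
structure Gd (d : G →* A) (m : G) (T : Subgroup G) : Prop where
  p2 : IsPGroup 2 T
  mem : m ∈ T
  cen : ∀ x, (∀ t ∈ T, d t = 1 → Commute x t) → x ∈ center G
  nor : ∀ x, Odd (orderOf x) → (∀ t ∈ T, x * t * x⁻¹ ∈ T) → x ∈ center G

/-- odd order elements normalising `T ∩ ker d` are central -/
def Strong (d : G →* A) (T : Subgroup G) : Prop :=
  ∀ x, Odd (orderOf x) → (∀ t ∈ T, d t = 1 → x * t * x⁻¹ ∈ T) → x ∈ center G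

theorem commute_of_sq_odd {x z : G} (ho : Odd (orderOf x)) (h : Commute (x * x) z) : Commute x z := by
  obtain ⟨k, hk⟩ := ho
  have : x = (x * x) ^ (k + 1) := by
    rw [← pow_two, ← pow_mul, show 2 * (k + 1) = orderOf x + 1 by omega, pow_succ, pow_orderOf_eq_one, one_mul]
  rw [this]; exact h.pow_left _

namespace WD
variable {d₀ : G₀ →* A} {m₀ : G₀} {d : G →* A} {β : G₀ × G₀ →* G} {τ : G} (h : WD d₀ m₀ d β τ)
include h

theorem βτ (a b : G₀) : β (a, b) * τ = τ * β (b, a) := (h.τβ b a).symm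

theorem τinv : τ⁻¹ = τ := inv_eq_of_mul_eq_one_right h.ττ

theorem bmul (a b c e : G₀) : β (a, b) * β (c, e) = β (a * c, b * e) := (map_mul β _ _).symm

theorem binv (a b : G₀) : (β (a, b))⁻¹ = β (a⁻¹, b⁻¹) := (map_inv β _).symm

theorem beq {a b c e : G₀} (x : β (a, b) = β (c, e)) : a = c ∧ b = e := Prod.ext_iff.1 (h.inj x)

theorem ne (a b c e : G₀) : β (a, b) ≠ β (c, e) * τ := fun x => by
  have h1 : τ = β (c⁻¹ * a, e⁻¹ * b) := by rw [← h.bmul, x, ← mul_assoc, h.bmul]; simp [← Prod.one_eq_mk]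
  have h2 := h.τβ 1 m₀
  rw [h1, h.bmul, h.bmul] at h2
  exact h.mne (by simpa using (h.beq h2).1.symm)

/-- the wreath product -/
def W (T : Subgroup G₀) : Subgroup G where
  carrier := {g | ∃ a ∈ T, ∃ b ∈ T, g = β (a, b) ∨ g = β (a, b) * τ}
  one_mem' := ⟨1, one_mem _, 1, one_mem _, Or.inl (map_one β).symm⟩
  mul_mem' := by
    rintro _ _ ⟨a, ha, b, hb, rfl | rfl⟩ ⟨c, hc, e, he, rfl | rfl⟩
    · exact ⟨_, mul_mem ha hc, _, mul_mem hb he, Or.inl (h.bmul ..)⟩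
    · exact ⟨_, mul_mem ha hc, _, mul_mem hb he, Or.inr (by rw [← mul_assoc, h.bmul])⟩
    · exact ⟨_, mul_mem ha he, _, mul_mem hb hc, Or.inr (by rw [mul_assoc, h.τβ, ← mul_assoc, h.bmul])⟩
    · exact ⟨_, mul_mem ha he, _, mul_mem hb hc, Or.inl (by
        rw [mul_assoc, ← mul_assoc τ, h.τβ, mul_assoc, h.ττ, mul_one, h.bmul])⟩
  inv_mem' := by
    rintro _ ⟨a, ha, b, hb, rfl | rfl⟩
    · exact ⟨_, inv_mem ha, _, inv_mem hb, Or.inl (h.binv ..)⟩
    · exact ⟨_, inv_mem hb, _, inv_mem ha, Or.inr (by rw [mul_inv_rev, h.τinv, h.binv, h.τβ])⟩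

variable {T : Subgroup G₀}

theorem mem_W {g : G} : g ∈ h.W T ↔ ∃ a ∈ T, ∃ b ∈ T, g = β (a, b) ∨ g = β (a, b) * τ := Iff.rfl

theorem β_mem {a b : G₀} : β (a, b) ∈ h.W T ↔ a ∈ T ∧ b ∈ T := by
  refine ⟨?_, fun x => ⟨a, x.1, b, x.2, Or.inl rfl⟩⟩
  rintro ⟨c, hc, e, he, x | x⟩
  · obtain ⟨rfl, rfl⟩ := h.beq x; exact ⟨hc, he⟩
  · exact absurd x (h.ne _ _ _ _)

theorem τ_mem : τ ∈ h.W T := ⟨1, one_mem _, 1, one_mem _, Or.inr (by simp [← Prod.one_eq_mk])⟩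

theorem card_W : Nat.card (h.W T) = 2 * Nat.card T ^ 2 := by
  let f : (T × T) ⊕ (T × T) → h.W T := Sum.elim (fun x => ⟨β (x.1, x.2), _, x.1.2, _, x.2.2, Or.inl rfl⟩)
    (fun x => ⟨β (x.1, x.2) * τ, _, x.1.2, _, x.2.2, Or.inr rfl⟩)
  have hf : Function.Bijective f := by
    constructor
    · rintro (⟨a, b⟩ | ⟨a, b⟩) (⟨c, e⟩ | ⟨c, e⟩) x <;> replace x := congrArg Subtype.val x
      · obtain ⟨h1, h2⟩ := h.beq x; exact congrArg _ (Prod.ext (Subtype.ext h1) (Subtype.ext h2))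
      · exact absurd x (h.ne _ _ _ _)
      · exact absurd x.symm (h.ne _ _ _ _)
      · obtain ⟨h1, h2⟩ := h.beq (mul_right_cancel x); exact congrArg _ (Prod.ext (Subtype.ext h1) (Subtype.ext h2))
    · rintro ⟨_, a, ha, b, hb, rfl | rfl⟩
      exacts [⟨.inl (⟨a, ha⟩, ⟨b, hb⟩), rfl⟩, ⟨.inr (⟨a, ha⟩, ⟨b, hb⟩), rfl⟩]
  by_cases hT : Finite T
  · rw [← Nat.card_congr (Equiv.ofBijective f hf), Nat.card_sum, Nat.card_prod]; ring
  · haveI := not_finite_iff_infinite.1 hT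
    haveI : Infinite (h.W T) := Infinite.of_injective (f ∘ Sum.inl) (hf.1.comp Sum.inl_injective)
    simp

theorem W_le {Γ : Subgroup G} (h1 : ∀ a ∈ T, ∀ b ∈ T, β (a, b) ∈ Γ) (h2 : τ ∈ Γ) : h.W T ≤ Γ := by
  rintro _ ⟨a, ha, b, hb, rfl | rfl⟩
  exacts [h1 a ha b hb, mul_mem (h1 a ha b hb) h2]

theorem z_conj {s : G} (hs : s ∈ h.W T) : s * β (1, m₀) * s⁻¹ = β (1, m₀) ∨ s * β (1, m₀) * s⁻¹ = β (1, m₀) * β (m₀, m₀) := by
  have c := mem_center_iff.1 h.mc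
  obtain ⟨a, -, b, -, rfl | rfl⟩ := hs
  · left; rw [h.binv, h.bmul, h.bmul, c b]; simp
  · right
    rw [mul_inv_rev, h.τinv, mul_assoc (β (a, b)), h.τβ, mul_assoc, mul_assoc, ← mul_assoc τ, h.ττ, one_mul, h.binv, h.bmul,
      h.bmul, h.bmul, ← mul_assoc a, c a, h.msq]; simp

variable [Finite G] (hT : Gd d₀ m₀ T)
include hT

theorem strong : Strong d (h.W T) := by
  intro x ho hx
  have c := mem_center_iff.1 h.mc
  have hm := mem_center_iff.1 (h.zc _ h.mc)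
  set S := h.W T ⊓ d.ker with hS
  have hN : x ∈ normalizer (S : Set G) := mem_norm_of_cj_le fun y hy => by
    obtain ⟨s, hs, rfl⟩ := mem_cj'.1 hy
    exact ⟨hx s hs.1 hs.2, by simpa using hs.2⟩
  have hz : β (1, m₀) ∈ S := ⟨h.β_mem.2 ⟨one_mem _, hT.mem⟩, by simp [h.dβ, h.dm]⟩
  obtain ⟨y, hy⟩ : ∃ y, y = x * β (1, m₀) * x⁻¹ := ⟨_, rfl⟩
  have hyS : y ∈ S := hy ▸ (mem_normalizer_iff.1 hN _).1 hz
  have hy1 : y * y = 1 := by
    rw [hy, show x * β (1, m₀) * x⁻¹ * (x * β (1, m₀) * x⁻¹) = x * (β (1, m₀) * β (1, m₀)) * x⁻¹ by group, h.bmul, h.msq]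
    simp [← Prod.one_eq_mk]
  have hy2 : ∀ s ∈ S, s * y * s⁻¹ = y ∨ s * y * s⁻¹ = y * β (m₀, m₀) := fun s hs => by
    have h1 := h.z_conj ((mem_normalizer_iff.1 (inv_mem hN) s).1 hs).1
    have h2 : s * y * s⁻¹ = x * (x⁻¹ * s * x⁻¹⁻¹ * β (1, m₀) * (x⁻¹ * s * x⁻¹⁻¹)⁻¹) * x⁻¹ := by rw [hy]; group
    rw [h2]
    refine h1.imp (fun e => by rw [e, hy]) fun e => ?_
    rw [e, hy, mul_assoc (x * β (1, m₀)) x⁻¹, hm x⁻¹]; group
  have hy3 : y ∉ center G := fun e => by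
    have h1 : β (1, m₀) = y := by
      have := mem_center_iff.1 e x
      rw [hy] at this ⊢
      calc _ = x⁻¹ * (x * β (1, m₀) * x⁻¹ * x) := by group
        _ = _ := by rw [← this]; group
    have h2 := mem_center_iff.1 (h1 ▸ e) τ
    rw [h.τβ] at h2
    exact h.mne (h.beq (mul_right_cancel h2)).1
  have hs1 : ∀ t ∈ T, d₀ t = 1 → β (t, 1) ∈ S := fun t ht e => ⟨h.β_mem.2 ⟨ht, one_mem _⟩, by simp [h.dβ, e]⟩
  have hs2 : ∀ t ∈ T, d₀ t = 1 → β (1, t) ∈ S := fun t ht e => ⟨h.β_mem.2 ⟨one_mem _, ht⟩, by simp [h.dβ, e]⟩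
  have hy4 : y = β (1, m₀) ∨ y = β (1, m₀) * β (m₀, m₀) := by
    obtain ⟨a, ha, b, hb, e | e⟩ := hyS.1
    · rw [e, h.bmul, ← map_one β] at hy1
      obtain ⟨a1, b1⟩ := h.beq hy1
      have a2 := h.inv a (hT.cen a fun t ht e' => by
        have := hy2 _ (hs1 t ht e')
        rw [e, h.binv, h.bmul, h.bmul, h.bmul] at this
        rcases this with x | x
        · exact (mul_inv_eq_iff_eq_mul.1 (h.beq x).1).symm
        · exact absurd (by simpa using (h.beq x).2) h.mne) a1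
      have b2 := h.inv b (hT.cen b fun t ht e' => by
        have := hy2 _ (hs2 t ht e')
        rw [e, h.binv, h.bmul, h.bmul, h.bmul] at this
        rcases this with x | x
        · exact (mul_inv_eq_iff_eq_mul.1 (h.beq x).2).symm
        · exact absurd (by simpa using (h.beq x).1) h.mne) b1
      rcases a2 with rfl | rfl <;> rcases b2 with rfl | rfl
      · exact absurd (e ▸ h.zc 1 (one_mem _)) hy3
      · exact Or.inl e
      · right; rw [e, h.bmul, h.msq, one_mul]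
      · exact absurd (e ▸ h.zc _ h.mc) hy3
    · refine absurd (eq_top_iff.2 fun g _ => hT.cen g fun t ht e' => ?_) h.nc
      have := hy2 _ (hs1 t ht e')
      rw [e, h.binv, ← mul_assoc, h.bmul, mul_assoc, h.τβ, ← mul_assoc, h.bmul, mul_assoc _ τ, h.τβ, ← mul_assoc,
        h.bmul] at this
      rcases this with x | x
      · have : t = 1 := by simpa using (h.beq (mul_right_cancel x)).1
        rw [this]; exact Commute.one_right g
      · have : t = m₀ := by simpa [c a] using (h.beq (mul_right_cancel x)).1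
        rw [this]; exact c g
  have hxz : Commute x (β (1, m₀)) := commute_of_sq_odd ho (mul_inv_eq_iff_eq_mul.1 (by
    rw [show x * x * β (1, m₀) * (x * x)⁻¹ = x * y * x⁻¹ by rw [hy]; group]
    rcases hy4 with e | e
    · rw [e, ← hy, e]
    · rw [e, show x * (β (1, m₀) * β (m₀, m₀)) * x⁻¹ = x * β (1, m₀) * (β (m₀, m₀) * x⁻¹) by group, ← hm, ← mul_assoc, ← hy,
        e, mul_assoc, h.bmul m₀, h.msq]
      simp [← Prod.one_eq_mk]))
  obtain ⟨⟨a, b⟩, rfl⟩ := h.cent x hxz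
  rw [orderOf_injective β h.inj] at ho
  have a0 : Odd (orderOf a) := ho.of_dvd_nat (orderOf_fst_dvd_orderOf (x := (a, b)))
  have b0 : Odd (orderOf b) := ho.of_dvd_nat (orderOf_snd_dvd_orderOf (x := (a, b)))
  have a1 := hT.nor a a0 fun t ht => by
    have := hx _ (h.β_mem.2 ⟨ht, inv_mem ht⟩) (by simp [h.dβ])
    rw [h.binv, h.bmul, h.bmul] at this
    exact (h.β_mem.1 this).1
  have b1 := hT.nor b b0 fun t ht => by
    have := hx _ (h.β_mem.2 ⟨inv_mem ht, ht⟩) (by simp [h.dβ])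
    rw [h.binv, h.bmul, h.bmul] at this
    exact (h.β_mem.1 this).2
  have h3 := mul_mem (hx _ h.τ_mem h.dτ) h.τ_mem
  rw [h.binv, mul_assoc _ τ, h.τβ, ← mul_assoc, h.bmul, mul_assoc, h.ττ, mul_one] at h3
  obtain ⟨k, hk⟩ := hT.p2 ⟨_, (h.β_mem.1 h3).1⟩
  have h4 : orderOf (a * b⁻¹) ∣ 2 ^ k := orderOf_dvd_of_pow_eq_one (congrArg Subtype.val hk)
  have h5 : Odd (orderOf (a * b⁻¹)) := (a0.mul (by rwa [orderOf_inv] : Odd (orderOf b⁻¹))).of_dvd_nat
    (Commute.orderOf_mul_dvd_mul_orderOf (mem_center_iff.1 a1 _).symm)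
  have h6 : a = b := mul_inv_eq_one.1 (orderOf_eq_one_iff.1
    (Nat.eq_one_of_dvd_coprimes ((Nat.coprime_two_right.2 h5).pow_right k) dvd_rfl h4))
  exact h6 ▸ h.zc a a1

theorem gd (hc : ∃ k, Nat.card T = 2 ^ k) : Gd d (β (m₀, m₀)) (h.W T) where
  p2 := hc.elim fun k e => IsPGroup.of_card (n := 2 * k + 1) (by rw [h.card_W, e]; ring)
  mem := h.β_mem.2 ⟨hT.mem, hT.mem⟩
  cen x hx := by
    obtain ⟨⟨a, b⟩, rfl⟩ := h.cent x (hx _ (h.β_mem.2 ⟨one_mem _, hT.mem⟩) (by simp [h.dβ, h.dm]))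
    have h1 := (hx _ h.τ_mem h.dτ).eq
    rw [h.τβ] at h1
    obtain ⟨rfl, -⟩ := h.beq (mul_right_cancel h1)
    refine h.zc a (hT.cen a fun t ht e => ?_)
    have := (hx _ (h.β_mem.2 ⟨ht, one_mem _⟩) (by simp [h.dβ, e])).eq
    rw [h.bmul, h.bmul] at this
    exact (h.beq this).1
  nor x ho hx := h.strong hT x ho fun t ht _ => hx t ht

end WD

end H01
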