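import Mathlib
import Cfsg.Agent.H18.RK1
import Cfsg.Agent.H05.Orth
import Cfsg.Agent.H05.Values
import Cfsg.Agent.H06.IndChar
import Cfsg.Agent.H06.Induction

/-!
# Principal series for split rank-one pairs

* `H01.RKI.irr_ind` : a Mackey-type irreducibility criterion for induced characters.
* `H01.RKI.exists_irr` : if `w` moves a conjugacy class of the torus, some irreducible character has degree
  divisible by `[G : B]`.
-/

set_option autoImplicit false
set_option linter.style.haveILetI false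
set_option linter.unusedSectionVars false

open Cfsg H05 Classical
open scoped ComplexConjugate

namespace H01.RKI

variable {G : Type*} [Group G]

theorem irr_ind [Fintype G] (H : Subgroup G) {θ : H → ℂ} (hθ : IsIrrCharacter H θ)
    (h : ∀ x : G, x ∉ H → ∑ b : H, θ b * conj (extendByZero H θ (x⁻¹ * b * x)) = 0) :
    IsIrrCharacter G (indFun H θ) := by
  have hc := H06.isCharacter_indFun H hθ.isCharacter
  have h0 : (Nat.card H : ℂ) ≠ 0 := card_ne_zero_complex
  refine hc.isGeneralizedCharacter.isIrr_of_norm_one_of_nonneg ?_ ?_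
  · rw [H06.frobenius_reciprocity H θ _ hc.isClassFunction, classInner_def]
    simp only [H06.indFun_apply, map_mul, map_sum, map_inv₀, map_natCast, Finset.mul_sum]
    rw [Finset.sum_comm]
    have e : ∀ x : G, ∑ b : H, (Nat.card H : ℂ)⁻¹ * (θ b * ((Nat.card H : ℂ)⁻¹ *
        conj (extendByZero H θ (x⁻¹ * b * x)))) = if x ∈ H then (Nat.card H : ℂ)⁻¹ else 0 := by
      intro x
      have : ∑ b : H, (Nat.card H : ℂ)⁻¹ * (θ b * ((Nat.card H : ℂ)⁻¹ *
          conj (extendByZero H θ (x⁻¹ * b * x)))) = (Nat.card H : ℂ)⁻¹ * ((Nat.card H : ℂ)⁻¹ *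
          ∑ b : H, θ b * conj (extendByZero H θ (x⁻¹ * b * x))) := by
        simp only [Finset.mul_sum]
        exact Finset.sum_congr rfl fun b _ => by ring
      rw [this]
      split_ifs with hx
      · simp only [H06.extendByZero_conj' H hθ.isClassFunction hx, H06.extendByZero_coe]
        rw [← classInner_def, hθ.classInner_self, mul_one]
      · rw [h x hx]; simp
    simp only [e]
    rw [← Finset.sum_filter, Finset.sum_const, nsmul_eq_mul]
    have : (Finset.univ.filter fun x => x ∈ H).card = Nat.card H := by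
      rw [Nat.card_eq_fintype_card, Fintype.card_subtype]
    rw [this, mul_inv_cancel₀ h0]
  · rw [← hc.charDegree_eq]
    simp

theorem exists_irr [Finite G] {B U : Subgroup G} {w : G} (h : H18.RK B U w) {d : G}
    (hd : d ∈ H18.torus B w) (hd' : ∀ c ∈ H18.torus B w, c * d * c⁻¹ ≠ w * d * w) :
    ∃ χ : IrrCharacter G, B.index ∣ charDegree (χ : G → ℂ) := by
  have := Fintype.ofFinite G
  set D := H18.torus B w with hD
  have hDB : D ≤ B := inf_le_left
  haveI : (U.subgroupOf B).Normal := ⟨fun u hu b => h.conj b b.2 u hu⟩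
  let f : D →* B ⧸ U.subgroupOf B := (QuotientGroup.mk' _).comp (Subgroup.inclusion hDB)
  have hf : Function.Bijective f := by
    constructor
    · rw [injective_iff_map_eq_one]
      intro x hx
      exact Subtype.ext (h.eq_one_of_mem_torus ((QuotientGroup.eq_one_iff (Subgroup.inclusion hDB x)).1 hx) x.2)
    · intro q
      obtain ⟨b, rfl⟩ := QuotientGroup.mk_surjective q
      obtain ⟨u, hu, x, hx, e⟩ := h.dec b.2
      refine ⟨⟨x, hx⟩, ?_⟩
      change ((⟨x, hDB hx⟩ : B) : B ⧸ U.subgroupOf B) = b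
      rw [QuotientGroup.eq]
      change x⁻¹ * b ∈ U
      rw [e, ← mul_assoc]
      exact h.conj' (hDB hx) hu
  let e := MulEquiv.ofBijective f hf
  let π : B →* D := e.symm.toMonoidHom.comp (QuotientGroup.mk' _)
  have hπ : ∀ x : D, π (Subgroup.inclusion hDB x) = x := fun x => e.symm_apply_apply x
  have hw : ∀ x ∈ D, w * x * w ∈ D := by
    intro x hx
    refine h.mem_torus.2 ⟨(h.mem_torus.1 hx).2, ?_⟩
    simpa [mul_assoc, h.wwx, h.ww] using hDB hx
  let σ : D ≃* D :=
    { toFun := fun x => ⟨w * x * w, hw x x.2⟩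
      invFun := fun x => ⟨w * x * w, hw x x.2⟩
      left_inv := fun x => Subtype.ext (by simp [mul_assoc, h.wwx, h.ww])
      right_inv := fun x => Subtype.ext (by simp [mul_assoc, h.wwx, h.ww])
      map_mul' := fun x y => Subtype.ext (by simp [mul_assoc, h.wwx]) }
  obtain ⟨μ, hμ⟩ : ∃ μ : IrrCharacter D, (μ : D → ℂ) ⟨d, hd⟩ ≠ (μ : D → ℂ) (σ ⟨d, hd⟩) := by
    by_contra! hcon
    obtain ⟨c, hc⟩ := isConj_iff.1 ((isConj_iff_irr _ _).2 hcon)
    exact hd' c c.2 (congrArg Subtype.val hc)
  have hσ : IsIrrCharacter D (fun x => (μ : D → ℂ) (σ x)) := μ.2.comp_mulEquiv σ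
  have horth : ∑ x : D, (μ : D → ℂ) x * conj ((μ : D → ℂ) (σ x)) = 0 := by
    rw [← card_mul_classInner, μ.2.classInner_of_ne hσ (fun e => hμ (congrFun e _)), mul_zero]
  let θ : B → ℂ := fun b => (μ : D → ℂ) (π b)
  have hθ : IsIrrCharacter B θ := μ.2.comp_of_surjective π fun x => ⟨_, hπ x⟩
  refine ⟨⟨indFun B θ, irr_ind B hθ fun x hx => ?_⟩, charDegree θ, ?_⟩
  · obtain ⟨u, hu, c, hc, rfl⟩ := h.bruhat x hx
    have e1 : ∀ b : B, (u * w * c)⁻¹ * b * (u * w * c) = c⁻¹ * (w * (u⁻¹ * b * u) * w) * c := by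
      intro b
      conv_lhs => rw [mul_inv_rev, mul_inv_rev, h.winv]
      group
    simp only [e1, H06.extendByZero_conj' B hθ.isClassFunction hc]
    rw [← Equiv.sum_comp (MulAut.conj (⟨u, h.le hu⟩ : B)).toEquiv]
    have e2 : ∀ b : B, θ ((MulAut.conj (⟨u, h.le hu⟩ : B)).toEquiv b) * conj (extendByZero B θ
        (w * (u⁻¹ * ((MulAut.conj (⟨u, h.le hu⟩ : B)).toEquiv b : B) * u) * w)) =
        θ b * conj (extendByZero B θ (w * b * w)) := by
      intro b
      congr 1
      · exact hθ.isClassFunction b _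
      · congr 2
        simp [mul_assoc]
    simp only [e2]
    rw [← horth]
    symm
    refine Fintype.sum_of_injective (Subgroup.inclusion hDB) (Subgroup.inclusion_injective hDB) _ _
      (fun b hb => ?_) fun x => ?_
    · rw [H06.extendByZero_of_notMem, map_zero, mul_zero]
      exact fun hb' => hb ⟨⟨b, h.mem_torus.2 ⟨b.2, hb'⟩⟩, rfl⟩
    · rw [H06.extendByZero_of_mem B θ (g := w * (Subgroup.inclusion hDB x : B) * w) (hDB (hw x x.2))]
      change _ = (μ : D → ℂ) (π _) * conj ((μ : D → ℂ) (π (Subgroup.inclusion hDB (σ x))))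
      rw [hπ, hπ]
  · apply charDegree_eq_of_apply_one
    change indFun B θ 1 = _
    rw [H06.indFun_one, ← hθ.charDegree_eq]
    push_cast
    rfl

end H01.RKI
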