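import Mathlib

/-!
# Elements of order 2 and 4 in `SL₂(F)`, `F` finite of odd order

* `H01.SL4.sq_one` : `w² = 1 ⇒ w = ±1`.
* `H01.SL4.conj` : elements with square `-1` are conjugate.
* `H01.SL4.comm` : commuting elements with square `-1` agree up to sign.
* `H01.SL4.sq_of_inv` : an element inverting an element with square `-1` has square `-1`.
* `H01.SL4.Q` : the same facts for a subgroup `L ≃* SL₂(F)` with involution `j`; `H01.SL4.q_of_equiv`.
-/

set_option autoImplicit false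
set_option linter.style.haveILetI false
set_option linter.unusedSectionVars false

namespace H01.SL4

open Matrix

variable {F : Type*} [Field F] [Fintype F]

theorem two_ne (hF : Odd (Fintype.card F)) : (2 : F) ≠ 0 := by
  apply Ring.two_ne_zero
  intro h
  have := FiniteField.even_card_of_char_two h
  rw [Nat.odd_iff] at hF
  omega

theorem ent (x y : SpecialLinearGroup (Fin 2) F) (i j : Fin 2) :
    (x * y) i j = x i 0 * y 0 j + x i 1 * y 1 j := by
  simp [Matrix.mul_apply, Fin.sum_univ_two]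

theorem det2 (x : SpecialLinearGroup (Fin 2) F) : x 0 0 * x 1 1 - x 0 1 * x 1 0 = 1 := by
  have := x.det_coe
  rwa [Matrix.det_fin_two] at this

theorem ext4 {x y : SpecialLinearGroup (Fin 2) F} (h1 : x 0 0 = y 0 0) (h2 : x 0 1 = y 0 1)
    (h3 : x 1 0 = y 1 0) (h4 : x 1 1 = y 1 1) : x = y := by
  ext i j
  fin_cases i <;> fin_cases j <;> assumption

theorem ents {x y z : SpecialLinearGroup (Fin 2) F} (h : x * y = z) :
    x 0 0 * y 0 0 + x 0 1 * y 1 0 = z 0 0 ∧ x 0 0 * y 0 1 + x 0 1 * y 1 1 = z 0 1 ∧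
    x 1 0 * y 0 0 + x 1 1 * y 1 0 = z 1 0 ∧ x 1 0 * y 0 1 + x 1 1 * y 1 1 = z 1 1 := by
  subst h
  simp only [ent, and_self]

theorem sq_one (hF : Odd (Fintype.card F)) {w : SpecialLinearGroup (Fin 2) F} (h : w * w = 1) :
    w = 1 ∨ w = -1 := by
  have h2 := two_ne hF
  obtain ⟨e1, e2, e3, e4⟩ := ents h
  simp at e1 e2 e3 e4
  have d := det2 w
  have ht : w 0 0 + w 1 1 ≠ 0 := by
    intro ht
    apply h2
    linear_combination (w 0 0) * ht - e1 - d
  have hb : w 0 1 = 0 := by
    apply mul_left_cancel₀ ht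
    linear_combination e2
  have hc : w 1 0 = 0 := by
    apply mul_left_cancel₀ ht
    linear_combination e3
  have ha : (w 0 0 - 1) * (w 0 0 + 1) = 0 := by linear_combination e1 - (w 1 0) * hb
  rcases mul_eq_zero.1 ha with ha | ha
  · left
    refine ext4 (by simp; linear_combination ha) (by simpa using hb) (by simpa using hc) ?_
    simp
    linear_combination d - (w 1 1) * ha + (w 1 0) * hb
  · right
    refine ext4 (by simp; linear_combination ha) (by simpa using hb) (by simpa using hc) ?_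
    simp
    linear_combination -d + (w 1 1) * ha - (w 1 0) * hb

theorem tr_of_sq {x : SpecialLinearGroup (Fin 2) F} (h : x * x = -1) : x 1 1 = -x 0 0 := by
  obtain ⟨e1, e2, e3, e4⟩ := ents h
  simp at e1 e2 e3 e4
  have d := det2 x
  linear_combination (-(x 0 0 + x 1 1)) * d + (x 1 1) * e1 - (x 1 0) * e2 + (x 1 1) * d

theorem sq_of_tr {x : SpecialLinearGroup (Fin 2) F} (h : x 1 1 = -x 0 0) : x * x = -1 := by
  have d := det2 x
  refine ext4 ?_ ?_ ?_ ?_ <;> rw [ent] <;> simp
  · linear_combination -d + (x 0 0) * h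
  · linear_combination (x 0 1) * h
  · linear_combination (x 1 0) * h
  · linear_combination -d + (x 1 1) * h

/-- the standard element of order four -/
def J (F : Type*) [Field F] : SpecialLinearGroup (Fin 2) F :=
  ⟨!![0, -1; 1, 0], by simp [Matrix.det_fin_two]⟩

theorem J_sq : J F * J F = -1 := sq_of_tr (by simp [J])

theorem conj_J (hF : Odd (Fintype.card F)) {x : SpecialLinearGroup (Fin 2) F} (h : x * x = -1) :
    ∃ y : SpecialLinearGroup (Fin 2) F, y * J F = x * y := by
  have h2 := two_ne hF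
  have ht := tr_of_sq h
  have d := det2 x
  rw [ht] at d
  obtain ⟨s, t, hst⟩ : ∃ s t : F, s * (x 1 0 * s - x 0 0 * t) - (x 0 0 * s + x 0 1 * t) * t = 1 := by
    by_cases hc : x 1 0 = 0
    · have ha : x 0 0 ≠ 0 := by
        intro ha
        rw [ha, hc] at d
        simp at d
      refine ⟨-(x 0 1 + 1) / (2 * x 0 0), 1, ?_⟩
      rw [hc]
      field_simp
      ring
    · obtain ⟨u, v, huv⟩ := FiniteField.exists_root_sum_quadratic (R := F) (f := Polynomial.X ^ 2)
        (g := Polynomial.X ^ 2 - Polynomial.C (x 1 0)) (Polynomial.degree_X_pow 2)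
        (Polynomial.degree_X_pow_sub_C (by norm_num) _) (Nat.odd_iff.1 hF)
      simp at huv
      refine ⟨(u + x 0 0 * v) / x 1 0, v, ?_⟩
      field_simp
      linear_combination huv + v ^ 2 * d
  obtain ⟨y, y1, y2, y3, y4⟩ : ∃ y : SpecialLinearGroup (Fin 2) F, y 0 0 = s ∧
      y 0 1 = x 0 0 * s + x 0 1 * t ∧ y 1 0 = t ∧ y 1 1 = x 1 0 * s - x 0 0 * t :=
    ⟨⟨!![s, x 0 0 * s + x 0 1 * t; t, x 1 0 * s - x 0 0 * t], by
      rw [Matrix.det_fin_two_of]; exact hst⟩, rfl, rfl, rfl, rfl⟩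
  have j1 : J F 0 0 = 0 := rfl
  have j2 : J F 0 1 = -1 := rfl
  have j3 : J F 1 0 = 1 := rfl
  have j4 : J F 1 1 = 0 := rfl
  refine ⟨y, ext4 ?_ ?_ ?_ ?_⟩ <;> simp only [ent, y1, y2, y3, y4, j1, j2, j3, j4, ht]
  · ring
  · linear_combination s * d
  · ring
  · linear_combination t * d

theorem conj (hF : Odd (Fintype.card F)) {x x' : SpecialLinearGroup (Fin 2) F} (h : x * x = -1)
    (h' : x' * x' = -1) : ∃ y : SpecialLinearGroup (Fin 2) F, y * x * y⁻¹ = x' := by
  obtain ⟨y, hy⟩ := conj_J hF h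
  obtain ⟨y', hy'⟩ := conj_J hF h'
  refine ⟨y' * y⁻¹, ?_⟩
  have e : x = y * J F * y⁻¹ := by rw [hy, mul_inv_cancel_right]
  have e' : x' = y' * J F * y'⁻¹ := by rw [hy', mul_inv_cancel_right]
  rw [e, e']
  group

theorem comm (hF : Odd (Fintype.card F)) {x w : SpecialLinearGroup (Fin 2) F} (h : x * x = -1)
    (h' : w * w = -1) (hc : x * w = w * x) : w = x ∨ w = -x := by
  have : (x * w) * (x * w) = 1 := by
    calc (x * w) * (x * w) = x * (w * x) * w := by group
      _ = (x * x) * (w * w) := by rw [← hc]; group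
      _ = 1 := by rw [h, h']; simp
  rcases sq_one hF this with e | e
  · right
    calc w = -(x * x) * w := by rw [h]; simp
      _ = -x := by rw [neg_mul, mul_assoc, e, mul_one]
  · left
    calc w = -(x * x) * w := by rw [h]; simp
      _ = x := by rw [neg_mul, mul_assoc, e]; simp

theorem sq_of_inv (hF : Odd (Fintype.card F)) {x b : SpecialLinearGroup (Fin 2) F} (h : x * x = -1)
    (hb : b * x = -(x * b)) : b * b = -1 := by
  have h2 := two_ne hF
  apply sq_of_tr
  have ht := tr_of_sq h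
  have d := det2 x
  obtain ⟨e1, e2, e3, e4⟩ := ents hb
  simp [ht] at e1 e2 e3 e4
  simp only [Matrix.mul_apply, Fin.sum_univ_two, ht] at e1 e2 e3 e4
  rw [ht] at d
  apply mul_left_cancel₀ h2
  linear_combination (-2 * (b 0 0 + b 1 1)) * d - (x 0 0) * e1 - (x 1 0) * e2 - (x 0 1) * e3 + (x 0 0) * e4

/-- the facts used about a subgroup `L ≅ SL₂(q)` with involution `j` -/
structure Q {G : Type*} [Group G] (L : Subgroup G) (j : G) : Prop where
  one : ∀ w ∈ L, w * w = 1 → w = 1 ∨ w = j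
  ex : ∃ x ∈ L, x * x = j
  conj : ∀ x ∈ L, ∀ x' ∈ L, x * x = j → x' * x' = j → ∃ y ∈ L, y * x * y⁻¹ = x'
  comm : ∀ x ∈ L, ∀ w ∈ L, x * x = j → w * w = j → x * w = w * x → w = x ∨ w = x * j
  inv : ∀ x ∈ L, x * x = j → ∃ b ∈ L, b * b = j ∧ b * x * b⁻¹ = x * j

theorem q_of_equiv {G : Type*} [Group G] (hF : Odd (Fintype.card F)) {L : Subgroup G}
    (e : L ≃* SpecialLinearGroup (Fin 2) F) {j : G} (hj : orderOf j = 2) (hjL : j ∈ L) : Q L j := by
  have hj2 : j * j = 1 := by rw [← pow_two, ← hj, pow_orderOf_eq_one]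
  have hej : e ⟨j, hjL⟩ = -1 := by
    rcases sq_one hF (w := e ⟨j, hjL⟩) (by rw [← map_mul, ← map_one e]; congr 1; exact Subtype.ext hj2)
      with h | h
    · have : j = 1 := congrArg Subtype.val ((map_eq_one_iff e e.injective).1 h)
      rw [this, orderOf_one] at hj
      omega
    · exact h
  have hsq : ∀ x : L, (x : G) * x = j ↔ e x * e x = -1 := by
    intro x
    rw [← map_mul, ← hej, e.apply_eq_iff_eq, Subtype.ext_iff]
    rfl
  have hneg : ∀ x y : L, e y = -e x → (y : G) = x * j := by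
    intro x y h
    have : y = x * ⟨j, hjL⟩ := e.injective (by rw [map_mul, hej, h]; simp)
    exact congrArg Subtype.val this
  refine ⟨fun w hw h => ?_, ⟨e.symm (J F), (e.symm (J F)).2, (hsq _).2 (by simp [J_sq])⟩,
    fun x hx x' hx' h h' => ?_, fun x hx w hw h h' hc => ?_, fun x hx h => ?_⟩
  · rcases sq_one hF (w := e ⟨w, hw⟩) (by rw [← map_mul, ← map_one e]; congr 1; exact Subtype.ext h)
      with h | h
    · exact Or.inl (congrArg Subtype.val ((map_eq_one_iff e e.injective).1 h))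
    · exact Or.inr (congrArg Subtype.val (e.injective (h.trans hej.symm)))
  · obtain ⟨y, hy⟩ := conj hF ((hsq ⟨x, hx⟩).1 h) ((hsq ⟨x', hx'⟩).1 h')
    refine ⟨e.symm y, (e.symm y).2, ?_⟩
    have : e.symm y * ⟨x, hx⟩ * (e.symm y)⁻¹ = ⟨x', hx'⟩ := e.injective (by simpa using hy)
    exact congrArg Subtype.val this
  · rcases comm hF ((hsq ⟨x, hx⟩).1 h) ((hsq ⟨w, hw⟩).1 h')
      (by rw [← map_mul, ← map_mul]; congr 1; exact Subtype.ext hc) with h1 | h1
    · exact Or.inl (congrArg Subtype.val (e.injective h1))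
    · exact Or.inr (hneg _ _ h1)
  · have h1 := (hsq ⟨x, hx⟩).1 h
    obtain ⟨y, hy⟩ := conj hF h1 (x' := -e ⟨x, hx⟩) (by simpa using h1)
    refine ⟨e.symm y, (e.symm y).2, (hsq _).2 ?_, ?_⟩
    · rw [e.apply_symm_apply]
      exact sq_of_inv hF h1 (by rw [mul_inv_eq_iff_eq_mul.1 hy, neg_mul])
    · exact hneg ⟨x, hx⟩ (e.symm y * ⟨x, hx⟩ * (e.symm y)⁻¹) (by simpa using hy)

end H01.SL4
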