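import Mathlib
import Cfsg.Agent.H01.Powell
import Cfsg.Agent.H22.SigF2
import Cfsg.Agent.BG.Api
import Cfsg.Agent.BG.C1_15
import Cfsg.Agent.BG.C1_16
import Cfsg.Agent.BG.C1_17
import Cfsg.Agent.BG.C3_7
import Cfsg.Agent.BG.C3_9

/-!
Finite groups in which every two elements generate a solvable subgroup (namespace `H01`).
* `S2 G` (minimal counterexample), `S2.core_cent`, `S2.core_norm`, `S2.se` (strongly `p`-embedded `N(ZJ(P))`)
* `cyc_line`, `S2.noncyc`, `S2.cyc`, `S2.false`, `sol_of_two_gen`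
-/

set_option autoImplicit false
set_option linter.style.haveILetI false
set_option linter.unusedSectionVars false

namespace H01
open Cfsg BG
open scoped commutatorElement MatrixGroups

universe u
variable {G : Type u} [Group G] [Finite G] {A B D E H K L M N P Q R S T U V W X Y Z : Subgroup G}
  {a b c d g h s t v w x y z : G} {π : Set ℕ} {p n : ℕ}

/-- a simple group, not two-generated, all of whose proper subgroups are solvable -/
structure S2 (G : Type u) [Group G] : Prop where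
  simple : IsSimpleGroup G
  sol : ∀ H : Subgroup G, H ≠ ⊤ → Group.IsSolvable H
  two : ∀ a b : G, Subgroup.zpowers a ⊔ Subgroup.zpowers b ≠ ⊤

theorem S2.ne_top (h : S2 G) (hH : Group.IsSolvable H) : H ≠ ⊤ := by
  rintro rfl
  have := h.simple
  have : Group.IsSolvable G := Group.isSolvable_of_surjective (f := (⊤ : Subgroup G).subtype) fun x => ⟨⟨x, trivial⟩, rfl⟩
  have hc : ∀ a b : G, a * b = b * a := IsSimpleGroup.comm_iff_isSolvable.2 this
  obtain ⟨x, hx⟩ := exists_ne (1 : G)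
  have hn : (Subgroup.zpowers x).Normal := ⟨fun n hn g => by rwa [hc g n, mul_inv_cancel_right]⟩
  exact h.two x x (by rw [hn.eq_bot_or_eq_top.resolve_left (zpowers_ne_bot hx), sup_idem])

theorem S2.norm_ne (h : S2 G) (h0 : H ≠ ⊥) (h1 : H ≠ ⊤) : N_(H) ≠ ⊤ := fun e => by
  have := h.simple
  exact (Subgroup.normalizer_eq_top_iff.1 e).eq_bot_or_eq_top.elim h0 h1

theorem S2.cent1_ne (h : S2 G) (hx : x ≠ 1) : C_[x] ≠ ⊤ :=
  proper_of_le (h.norm_ne (zpowers_ne_bot hx) (h.ne_top (sol_of_abelian (abelian_of_cyclic (cyclic_zpowers x)))))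
    ((cent_zpowers x).ge.trans (cent_le_norm _))

theorem S2.exists_out (h : S2 G) (hp : p.Prime) (hd : p ∣ Nat.card G) (hM : M ≠ ⊤) :
    ∃ x, orderOf x = p ∧ x ∉ M := by
  have := h.simple
  have h1 : omegaOne p (⊤ : Subgroup G) = ⊤ := (Subgroup.normalizer_eq_top_iff.1 (top_le_iff.1
    (norm_omega p le_norm_top))).eq_bot_or_eq_top.resolve_left (omega_ne_bot' hp (by rwa [Subgroup.card_top]))
  by_contra e
  push Not at e
  refine hM (top_le_iff.1 (h1.ge.trans (omega_le_iff.2 fun x _ hx => ?_)))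
  by_cases h2 : x = 1
  · exact h2 ▸ one_mem M
  · have := Fact.mk hp
    exact e x (orderOf_eq_prime hx h2)

theorem isPiElt_of_orderOf (hp : p.Prime) (hx : orderOf x = p) : IsPiElt {p} x := fun r hr hd => by
  rw [hx] at hd; exact (Nat.prime_dvd_prime_iff_eq hr hp).1 hd

theorem S2.core_cent (h : S2 G) (hp : p.Prime) (hd : p ∣ Nat.card G) (hc : IsPiElt {p} c) :
    piCoreOf {p}ᶜ C_[c] = ⊥ := by
  have := Fact.mk hp
  have := h.simple
  let D : Set G := {d | ∀ g : G, d ∈ piCoreOf {p}ᶜ (Subgroup.zpowers d ⊔ Subgroup.zpowers g)}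
  have h1 : ∀ d ∈ piCoreOf {p}ᶜ C_[c], d ∈ D := fun d hd g => by
    have h1 : IsPiElt {p}ᶜ d := (pcore_isPi _ _).elt hd
    have h2 : Commute c d := (mem_cent1.1 (pcore_le _ _ hd)).symm
    obtain ⟨H, hH⟩ : ∃ H, H = Subgroup.zpowers (c * d) ⊔ Subgroup.zpowers g := ⟨_, rfl⟩
    have cH : c ∈ H := by
      have := piPart_mem_zpowers {p} (c * d)
      rw [piPart_mul_of_commute hc h1 h2] at this
      exact hH ▸ Subgroup.mem_sup_left this
    have dH : d ∈ H := (H.mul_mem_cancel_left cH).1 (hH ▸ mem_two_left _ g)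
    have h3 := T1_15.b (h.sol H (hH ▸ h.two _ g)) (Subgroup.zpowers_le.2 cH)
      ((isPi_singleton hp).1 (isPiElt_iff.1 hc))
    rw [cent_zpowers] at h3
    exact pcore_inf_le _ (two_le dH (hH ▸ mem_two_right _ g))
      ⟨h3 (pcore_inf_le _ inf_le_right ⟨hd, dH, pcore_le _ _ hd⟩), mem_two_left d g⟩
  have h2 : ∀ d ∈ D, ∀ y, IsPiElt {p}ᶜ y → IsPiElt {p}ᶜ (d * y) := fun d hd y hy =>
    ((pcore_isPi _ _).sup (isPiElt_iff.1 hy) (le_sup_right.trans (le_norm_pcore _ _))).elt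
      (Subgroup.mul_mem_sup (hd y) (Subgroup.mem_zpowers y))
  have h3 : (Subgroup.closure D).Normal := Subgroup.normalizer_eq_top_iff.1 (top_le_iff.1 (le_norm_of_cj_le
    fun a _ => cj_le_iff.2 ((Subgroup.closure_le _).2 fun d hd => mem_cj_inv.2 (Subgroup.subset_closure fun g => by
      have := conj_mem_cj a (hd (a⁻¹ * g * a))
      rw [← pcore_cj, cj_sup, cj_zpowers, cj_zpowers] at this
      rwa [show a * (a⁻¹ * g * a) * a⁻¹ = g by group] at this))))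
  by_contra e
  obtain ⟨d, hd', d1⟩ := exists_mem_ne_one e
  have h4 := h3.eq_bot_or_eq_top.resolve_left (ne_bot_of_mem (Subgroup.subset_closure (h1 d hd')) d1)
  have h5 : ∀ x ∈ Subgroup.closure D, ∀ y, IsPiElt {p}ᶜ y → IsPiElt {p}ᶜ (x * y) := fun x hx => by
    induction hx using Subgroup.closure_induction'' with
    | mem x hx => exact h2 x hx
    | inv_mem x hx => exact h2 x⁻¹ fun g => by rw [Subgroup.zpowers_inv]; exact inv_mem (hx g)
    | one => intro y hy; rwa [one_mul]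
    | mul x y _ _ h6 h7 => intro z hz; rw [mul_assoc]; exact h6 _ (h7 z hz)
  obtain ⟨x, hx⟩ := exists_prime_orderOf_dvd_card' p hd
  have h6 := h5 x (h4 ▸ Subgroup.mem_top x) 1 (isPiElt_one _)
  rw [mul_one] at h6
  exact h6 p hp (hx ▸ dvd_rfl) rfl

theorem S2.core_norm (h : S2 G) (hp : p.Prime) (hQ : IsPGroup p Q) (h0 : Q ≠ ⊥) : piCoreOf {p}ᶜ N_(Q) = ⊥ := by
  have := Fact.mk hp
  obtain ⟨c, hc, c1⟩ := exists_mem_ne_one (pg_center_ne_bot hp hQ h0)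
  have h1 := h.core_cent hp ((pg_dvd hp hQ h0).trans (card_dvd_top Q)) (((isPi_singleton hp).2 hQ).elt hc.1)
  have h2 : piCoreOf {p}ᶜ N_(Q) ≤ C_(Q) := le_cent_of_coprime (pcore_le _ _) ((le_norm Q).trans (le_norm_pcore _ _))
    (pg_coprime hp hQ (pcore_not_dvd hp _)).symm
  have h3 := T1_15.b (h.sol _ (h.cent1_ne c1)) (le_cent1_iff.2 hc.2) hQ
  rw [h1, inf_eq_right.2 (cent_le_cent1 hc.1)] at h3
  exact le_bot_iff.1 ((le_pcore (pcore_isPi _ _) h2 ((cent_le_norm Q).trans (le_norm_pcore _ _))).trans h3)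

theorem S2.se (h : S2 G) (hp : p.Prime) (h2 : p ≠ 2) (h3 : p ≠ 3) (hP : IsSylowIn p P ⊤) (R : Subgroup G) :
    ∀ Q : Subgroup G, IsPGroup p Q → Q ≠ ⊥ → Q ≤ N_(centerThompsonOf p P) →
      IsSylowIn p R (N_(centerThompsonOf p P) ⊓ N_(Q)) → N_(Q) ≤ N_(centerThompsonOf p P) := by
  obtain ⟨M, hM⟩ : ∃ M, M = N_(centerThompsonOf p P) := ⟨_, rfl⟩
  have PM : P ≤ M := hM ▸ (le_norm P).trans (H17.normalizer_le_normalizer_centerThompsonOf p P)
  rw [← hM]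
  induction R using WellFoundedGT.induction with
  | _ R ih =>
  intro Q hQ h0 hQM hR
  have QR : Q ≤ R := hR.le_of_norm_pg hp hQ (le_inf hQM (le_norm Q)) (hR.le.trans inf_le_right)
  have R0 := ne_bot_mono h0 QR
  have fin : IsSylowIn p R N_(Q) → N_(Q) ≤ N_(centerThompsonOf p R) := fun h4 => by
    have := H22.zj5 hp h2 h3 (h.sol _ (h.norm_ne h0 (h.ne_top (pg_sol hp hQ)))) h4
    rw [h.core_norm hp hQ h0, bot_sup_eq] at this
    exact this.trans inf_le_right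
  obtain ⟨m, hm, h4⟩ := sylow_subJ hp (hP.sub PM le_top) (hR.pg hp) (hR.le.trans inf_le_left)
  rcases h4.eq_or_lt with e | h5
  · have h5 : IsSylowIn p R ⊤ := e ▸ hP.cj_of_mem (Subgroup.mem_top m)
    refine (fin (h5.sub (hR.le.trans inf_le_right) le_top)).trans (le_of_eq ?_)
    rw [e, show centerThompsonOf p (cj m P) = cj m (centerThompsonOf p P) from
      H17.centerThompsonOf_map _ (MulAut.conj m).injective.injOn, cj_of_mem_norm (hM ▸ hm), hM]
  have key : ∀ K : Subgroup G, K ≠ ⊥ → K ≤ R → N_(R) ≤ N_(K) → N_(K) ≤ M := fun K h6 h7 h8 => by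
    have h9 : IsPGroup p (cj m P) := isPGroup_cj.2 (hP.pg hp)
    obtain ⟨R', h10, h11⟩ := sylow_superset hp (pg_le h9 inf_le_left : IsPGroup p ↥(cj m P ⊓ N_(R)))
      (inf_le_inf (cj_le_of_mem PM hm) h8)
    exact ih R' ((nil_lt_norm (pg_nil hp h9) h5).trans_le h11) K (pg_le (hR.pg hp) h7) h6
      (h7.trans (hR.le.trans inf_le_left)) h10
  have h6 := key R R0 le_rfl le_rfl
  exact (fin (hR.of_norm_le hp inf_le_right (le_inf (inf_le_right.trans h6) inf_le_left))).trans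
    (key _ (H22.zj_ne_bot hp (hR.pg hp) R0) (H17.centerThompsonOf_le p R)
      (H17.normalizer_le_normalizer_centerThompsonOf p R))

theorem sol_frattini (hp : p.Prime) (hH : Group.IsSolvable H) (hS : IsSylowIn p S H) (h0 : S ≠ ⊥) :
    ∃ T ≤ S, T ≠ ⊥ ∧ H ≤ piCoreOf {p}ᶜ H ⊔ (H ⊓ N_(T)) := by
  have := Fact.mk hp
  have hn : H ≤ N_(pPrimePCoreOf p H) := norm_ppcore p (le_norm H)
  have hT := hS.inf_normal (ppcore_le p H) hn
  refine ⟨S ⊓ pPrimePCoreOf p H, inf_le_left, fun e => ?_, ?_⟩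
  · have h1 := T1_15.a hH hT
    rw [e, cent_bot, inf_top_eq] at h1
    exact h0 (by rw [← e, inf_eq_left.2 (hS.le.trans h1)])
  · refine (sylow_frattini hp hT (ppcore_le p H) hn).ge.trans (sup_le ?_ le_sup_right)
    exact (ppcore_eq_sup hp hT).ge.trans (sup_le_sup_left (le_inf (inf_le_left.trans hS.le) (le_norm _)) _)

theorem cyc_core (hp : p.Prime) (hH : Group.IsSolvable H) (hS : IsSylowIn p S H) (hc : IsCyclic S) (hX : X ≤ S)
    (hx : Nat.card X = p) : H ≤ N_(piCoreOf {p}ᶜ H ⊔ X) ∧ ∀ Y ≤ H, Nat.card Y = p → Y ≤ piCoreOf {p}ᶜ H ⊔ X := by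
  obtain ⟨T, h1, h2, h3⟩ := sol_frattini hp hH hS (ne_bot_mono (ne_bot_of_prime (hx ▸ hp)) hX)
  have h4 : X ≤ T := le_of_card_dvd_of_cyclic hc hX h1 (hx ▸ pg_dvd hp (pg_le (hS.pg hp) h1) h2)
  have h5 : H ≤ N_(piCoreOf {p}ᶜ H ⊔ X) := h3.trans (sup_le (le_sup_left.trans (le_norm _)) (norm_sup
    (inf_le_left.trans (le_norm_pcore _ H)) (inf_le_right.trans (norm_le_norm_of_cyclic (cyclic_of_le hc h1) h4))))
  refine ⟨h5, fun Y hY hy => ?_⟩
  obtain ⟨g, hg, h6⟩ := sylow_subJ hp hS (pg_of_card_eq hy) hY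
  rw [eq_of_card_eq_of_cyclic (isCyclic_cj.2 hc) h6 (cj_mono g hX) (by rw [card_cj, hx, hy])]
  exact cj_le_of_mem_norm le_sup_right (h5 hg)

theorem cyc_line (hp : p.Prime) (hw : w ^ p = 1) (ht : t ∈ N_(Subgroup.zpowers w)) (h1 : IsPiElt {p}ᶜ t)
    (h2 : IsPiElt {p}ᶜ (t * w)) (hv : v ∈ Subgroup.zpowers w) : IsPiElt {p}ᶜ (t * v) := by
  have := Fact.mk hp
  by_cases w1 : w = 1
  · rw [w1, Subgroup.zpowers_one_eq_bot, Subgroup.mem_bot] at hv
    rwa [hv, mul_one]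
  have ho := orderOf_eq_prime hw w1
  have hW : (Nat.card (Subgroup.zpowers w)).Prime := by rwa [card_zpowers, ho]
  have h3 : t ∉ C_(Subgroup.zpowers w) := fun e => by
    have h3 : Commute t w := (mem_cent.1 e w (Subgroup.mem_zpowers w)).symm
    have h4 := h1.inv.mul h2 ((Commute.refl t).mul_right h3).inv_left
    rw [inv_mul_cancel_left] at h4
    exact w1 ((isPiElt_of_orderOf hp ho).eq_one h4)
  refine isPiElt_of_piPart_eq_one (by_contra fun e => h3 ?_)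
  have h4 := hall_sup_left (isPiElt_iff.1 (isPiElt_of_orderOf hp ho)) (isPiElt_iff.1 h1) (Subgroup.zpowers_le.2 ht)
  have h5 : piPart {p} (t * v) ∈ Subgroup.zpowers w := h4.elt_mem (sup_le_norm_left (Subgroup.zpowers_le.2 ht))
    (piPart_mem _ (mul_mem (mem_two_right w t) (Subgroup.mem_sup_left hv))) (isPiElt_piPart _ _)
  have h6 := cent1_le_cent1_piPart {p} (t * v) (mem_cent1_self _)
  rw [cent1_eq_of_prime hW h5 e] at h6
  exact ((C_(Subgroup.zpowers w)).mul_mem_cancel_right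
    (abelian_iff.1 (abelian_of_cyclic (cyclic_zpowers w)) hv)).1 h6

theorem isPiElt_qmk (hx : x ∈ N_(N)) (h : IsPiElt π x) : IsPiElt π (qmk N ⟨x, hx⟩) :=
  fun r hr hd => h r hr (hd.trans (orderOf_qmk_dvd hx))

theorem isPiElt_of_qmk (hx : x ∈ N_(N)) (hN : IsPiSubgroup π N) (h : IsPiElt π (qmk N ⟨x, hx⟩)) : IsPiElt π x :=
  isPiElt_iff.2 (pi_of_quo (Subgroup.zpowers_le.2 hx) (hN.inf_left _) (by rw [quo_zpowers hx]; exact isPiElt_iff.1 h))

theorem S2.noncyc (h : S2 G) (hp : p.Prime) (h2 : p ≠ 2) (hM : M ≠ ⊤)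
    (se : ∀ Q : Subgroup G, IsPGroup p Q → Q ≠ ⊥ → Q ≤ M → N_(Q) ≤ M) (hA : IsElem p 2 A M) : False := by
  have := Fact.mk hp
  have D : ∀ H : Subgroup G, H ≠ ⊤ → ¬ H ≤ M → ∀ u ∈ A, u ≠ 1 → u ∈ H →
      H ≤ N_(piCoreOf {p}ᶜ H ⊔ Subgroup.zpowers u) ∧
      ∀ Y ≤ H, Nat.card Y = p → Y ≤ piCoreOf {p}ᶜ H ⊔ Subgroup.zpowers u := fun H h3 h4 u hu u1 uH => by
    have h5 := hA.elemAb.card_zpowers hp hu u1
    obtain ⟨S, hS, h6⟩ := sylow_superset hp (pg_of_card_eq h5)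
      (Subgroup.zpowers_le.2 (show u ∈ M ⊓ H from ⟨hA.le hu, uH⟩))
    have S0 := ne_bot_mono (zpowers_ne_bot u1) h6
    have SM := hS.le.trans inf_le_left
    have hS' := hS.of_norm_le hp inf_le_right (le_inf (inf_le_right.trans (se S (hS.pg hp) S0 SM)) inf_le_left)
    refine cyc_core hp (h.sol H h3) hS' (by_contra fun e => h4 ?_) h6 h5
    obtain ⟨T, h7, h8, h9⟩ := sol_frattini hp (h.sol H h3) hS' S0
    obtain ⟨E, hE⟩ := exists_elem2_of_not_cyclic hp h2 (hS.pg hp) e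
    refine h9.trans (sup_le (T1_16.cent1 hE.abelian (hE.not_cyclic hp) (hE.le.trans (hS'.le.trans (le_norm_pcore _ H)))
      (pg_coprime hp hE.pg (pcore_not_dvd hp H)) fun a ha a1 => inf_le_right.trans ?_)
      (inf_le_right.trans (se T (pg_le (hS.pg hp) h7) h8 (h7.trans SM))))
    rw [← cent_zpowers]
    exact (cent_le_norm _).trans (se _ (pg_le hE.pg (Subgroup.zpowers_le.2 ha)) (zpowers_ne_bot a1)
      (Subgroup.zpowers_le.2 (SM (hE.le ha))))
  obtain ⟨x, hx, xM⟩ := h.exists_out hp (hA.dvd.trans (card_dvd_top A)) hM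
  have x0 : ¬ IsPiElt {p}ᶜ x := fun e => e p hp (hx ▸ dvd_rfl) rfl
  have pa : ∀ u ∈ A, u ≠ 1 → ∃ v ∈ Subgroup.zpowers u, IsPiElt {p}ᶜ (x * v) := fun u hu u1 => by
    have h3 := (D _ (h.two x u) (fun e => xM (e (mem_two_left x u))) u hu u1 (mem_two_right x u)).2 _ le_sup_left
      (by rw [card_zpowers, hx]) (Subgroup.mem_zpowers x)
    obtain ⟨k, hk, a, ha, h4⟩ := (mem_sup_norm (le_sup_right.trans (le_norm_pcore _ _))).1 h3
    refine ⟨a⁻¹, inv_mem ha, ?_⟩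
    have h5 := (pcore_isPi _ _).elt hk
    rwa [eq_mul_inv_of_mul_eq h4] at h5
  have pb : ∀ u ∈ A, ∀ w ∈ A, IsPiElt {p}ᶜ (x * u) → IsPiElt {p}ᶜ (x * (u * w)) → ∀ v ∈ Subgroup.zpowers w,
      IsPiElt {p}ᶜ (x * (u * v)) := fun u hu w hw h3 h4 v hv => by
    by_cases w1 : w = 1
    · rw [w1, Subgroup.zpowers_one_eq_bot, Subgroup.mem_bot] at hv
      rwa [hv, mul_one]
    rw [← mul_assoc] at h4 ⊢
    have tM : x * u ∉ M := fun e => xM ((M.mul_mem_cancel_right (hA.le hu)).1 e)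
    generalize x * u = t at h3 h4 tM
    have h5 := (D _ (h.two t w) (fun e => tM (e (mem_two_left t w))) w hw w1 (mem_two_right t w)).1
    obtain ⟨O, hO⟩ : ∃ O, O = piCoreOf {p}ᶜ (Subgroup.zpowers t ⊔ Subgroup.zpowers w) := ⟨_, rfl⟩
    have hn : Subgroup.zpowers t ⊔ Subgroup.zpowers w ≤ N_(O) := hO ▸ le_norm_pcore _ _
    have tO := hn (mem_two_left t w)
    have wO := hn (mem_two_right t w)
    have vO := hn (Subgroup.mem_sup_right hv)
    rw [← hO] at h5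
    refine isPiElt_of_qmk (mul_mem tO vO) (hO ▸ pcore_isPi _ _) ?_
    rw [qmk_mul tO vO]
    refine cyc_line (w := qmk O ⟨w, wO⟩) hp ?_ ?_ (isPiElt_qmk tO h3) ?_ ?_
    · rw [← qmk_pow, qmk_eq_one]
      show w ^ p ∈ O
      rw [hA.elemAb.pow hw]; exact one_mem O
    · rw [← quo_zpowers, ← quo_sup_left (Subgroup.zpowers_le.2 wO)]
      exact qmk_mem_norm tO (h5 (mem_two_left t w))
    · rw [← qmk_mul tO wO]; exact isPiElt_qmk _ h4
    · rw [← quo_zpowers]; exact qmk_mem_quo hv _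
  obtain ⟨X, hX, cX⟩ := hA.exists_line hp
  obtain ⟨Y, hY, cY, -, hd⟩ := hA.exists_other hp hX cX
  obtain ⟨a, ha, a1⟩ := exists_mem_ne_one (ne_bot_of_prime (cX ▸ hp))
  obtain ⟨b, hb, b1⟩ := exists_mem_ne_one (ne_bot_of_prime (cY ▸ hp))
  obtain ⟨u, hu, h3⟩ := pa a (hX ha) a1
  obtain ⟨u', hu', h4⟩ := pa b (hY hb) b1
  have uX : u ∈ X := Subgroup.zpowers_le.2 ha hu
  have uY : u' ∈ Y := Subgroup.zpowers_le.2 hb hu'
  have uA := hX uX
  have wA : u⁻¹ * u' ∈ A := mul_mem (inv_mem uA) (hY uY)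
  have w1 : u⁻¹ * u' ≠ 1 := fun e => by
    rw [inv_mul_eq_one] at e
    rw [eq_one_of_mem_of_disj hd.disj uX (e ▸ uY), mul_one] at h3
    exact x0 h3
  obtain ⟨c, hc, h5⟩ := pa _ wA w1
  have cA : c ∈ A := Subgroup.zpowers_le.2 wA hc
  obtain ⟨k, hk⟩ := hp.odd_of_ne_two h2
  have sA : c ^ (k + 1) ∈ A := pow_mem cA _
  have h6 := pb u uA _ wA h3 (by rwa [mul_inv_cancel_left]) _ (pow_mem hc (k + 1))
  have h7 : c ^ (k + 1) * c ^ (k + 1) = c := by
    rw [← pow_add, show k + 1 + (k + 1) = p + 1 by omega, pow_succ, hA.elemAb.pow cA, one_mul]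
  generalize c ^ (k + 1) = s at sA h6 h7
  have h8 := pb c cA (c⁻¹ * (u * s)) (mul_mem (inv_mem cA) (mul_mem uA sA)) h5 (by rwa [mul_inv_cancel_left]) _
    (pow_mem (Subgroup.mem_zpowers _) 2)
  have h9 : c * (c⁻¹ * (u * s)) ^ 2 = u * u := by
    have e1 := mul_comm_of_abelian hA.abelian sA uA
    calc c * (c⁻¹ * (u * s)) ^ 2 = u * (s * c⁻¹ * u * s) := by rw [pow_two]; group
      _ = u * (s⁻¹ * (u * s)) := by rw [← h7]; group
      _ = u * u := by rw [← e1, inv_mul_cancel_left]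
  rw [h9] at h8
  have h10 := pb u uA u uA h3 h8 u⁻¹ (inv_mem (Subgroup.mem_zpowers u))
  rw [mul_inv_cancel, mul_one] at h10
  exact x0 h10

theorem S2.cyc (h : S2 G) (hp : p.Prime) (h2 : p ≠ 2) (hd : p ∣ Nat.card G) (hP : IsSylowIn p P ⊤)
    (hc : IsCyclic P) : False := by
  have := Fact.mk hp
  have := h.simple
  have cyc : ∀ Q : Subgroup G, IsPGroup p Q → IsCyclic Q := fun Q hQ => by
    obtain ⟨g, -, h3⟩ := sylow_subJ hp hP hQ le_top
    exact cyclic_of_le (isCyclic_cj.2 hc) h3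
  have H1 : ∀ Z H : Subgroup G, Nat.card Z = p → H ≠ ⊤ → Z ≤ H → H ≤ N_(piCoreOf {p}ᶜ H ⊔ Z) ∧
      ∀ Y ≤ H, Nat.card Y = p → Y ≤ piCoreOf {p}ᶜ H ⊔ Z := fun Z H hZ h3 h4 => by
    obtain ⟨S, hS, h5⟩ := sylow_superset hp (pg_of_card_eq hZ) h4
    exact cyc_core hp (h.sol H h3) hS (cyc S (hS.pg hp)) h5 hZ
  have H2 : ∀ Z : Subgroup G, Nat.card Z = p → IsPiSubgroup {p} C_(Z) := fun Z hZ q hq h3 => by
    by_contra hqp
    obtain ⟨z, hz, z1⟩ := exists_mem_ne_one (ne_bot_of_prime (hZ ▸ hp))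
    have h4 := h.core_cent hp hd ((isPi_of_card (π := {p}) hp (n := 1) (by rw [hZ, pow_one]) rfl).elt hz)
    rw [cent1_eq_of_prime (hZ ▸ hp) hz z1] at h4
    have h5 := cent_pcore_le hp (h.sol _ (cent1_eq_of_prime (hZ ▸ hp) hz z1 ▸ h.cent1_ne z1)) h4
    obtain ⟨Y, hY, cY⟩ := exists_card_eq_prime hq h3
    have nd : ¬ p ∣ Nat.card Y := fun e => hqp ((Nat.prime_dvd_prime_iff_eq hp hq).1 (cY ▸ e)).symm
    obtain ⟨T, hT⟩ : ∃ T, T = piCoreOf {p} C_(Z) := ⟨_, rfl⟩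
    have Tp : IsPGroup p T := hT ▸ pcore_pg hp _
    have ZT : Z ≤ T := hT ▸ le_pcore_pg hp (pg_of_card_eq hZ)
      (abelian_iff.1 (abelian_of_cyclic (cyclic_of_prime (hZ ▸ hp)))) (cent_le_norm Z)
    have hn : Y ≤ N_(T) := hT ▸ hY.trans (le_norm_pcore _ _)
    have h6 := coprime_abelian_dprod hn (pg_coprime hp Tp nd).symm (abelian_of_cyclic (cyc T Tp))
    have h7 : ⁅T, Y⁆ = ⊥ := by
      by_contra e
      have h7 : Z ≤ ⁅T, Y⁆ := le_of_card_dvd_of_cyclic (cyc T Tp) ZT (comm_le_left hn)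
        (hZ ▸ pg_dvd hp (pg_le Tp (comm_le_left hn)) e)
      exact ne_bot_of_prime (hZ ▸ hp) (le_bot_iff.1 ((le_inf (le_inf ZT (cent_symm hY)) h7).trans h6.disj.le))
    rw [← hT] at h5
    exact ne_bot_of_prime (cY ▸ hq) (pg_eq_bot hp (pg_le Tp ((le_inf hY (cent_symm (comm_eq_bot.1 h7))).trans h5)) nd)
  have ndT : ∀ K : Subgroup G, IsPiSubgroup {p}ᶜ K → K ≠ ⊤ := fun K hK e =>
    hK p hp (by rwa [e, Subgroup.card_top]) rfl
  have H3 : ∀ Z K H : Subgroup G, Nat.card Z = p → IsPiSubgroup {p}ᶜ K → Z ≤ N_(K) → H ≠ ⊤ → Z ≤ H → K ≤ H →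
      K ≤ piCoreOf {p}ᶜ H := fun Z K H hZ hK h3 h4 h5 h6 => by
    have Zp := isPi_of_card (π := {p}) hp (n := 1) (by rw [hZ, pow_one]) rfl
    have h7 := coprime_comm_eq_of_cent_bot h3 (Zp.coprime hK) (Or.inr (h.sol K (ndT K hK)))
      (hK.inf_eq_bot' (H2 Z hZ))
    refine (hall_sup_left (pcore_isPi _ H) (by rwa [compl_compl]) (h5.trans (le_norm_pcore _ H))).le_of_norm' hK ?_
      (h6.trans (le_norm_pcore _ H))
    rw [← h7]
    exact (comm_mono le_rfl le_sup_right).trans (comm_le_right (h6.trans (H1 Z H hZ h4 h5).1))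
  have TI : ∀ Z : Subgroup G, Nat.card Z = p → ∀ D : Subgroup G, ∀ K₁ ∈ maxInvSubgroups ⊤ Z {p}ᶜ,
      ∀ K₂ ∈ maxInvSubgroups ⊤ Z {p}ᶜ, K₁ ⊓ K₂ = D → D ≠ ⊥ → K₁ = K₂ := fun Z hZ D => by
    induction D using WellFoundedGT.induction with
    | _ D ih =>
    intro K₁ h3 K₂ h4 h5 h6
    by_contra e
    have hn : Z ≤ N_(D) := h5 ▸ norm_inf (maxInv_norm h3) (maxInv_norm h4)
    have Dp : IsPiSubgroup {p}ᶜ D := h5 ▸ (maxInv_isPi h3).inf_left _
    have h7 := h.norm_ne h6 (ndT D Dp)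
    obtain ⟨K₃, h8, h9⟩ := exists_maxInv_ge le_top (pcore_isPi {p}ᶜ N_(D)) (hn.trans (le_norm_pcore _ _))
    have key : ∀ K ∈ maxInvSubgroups ⊤ Z {p}ᶜ, D < K → K = K₃ := fun K hK h10 => by
      have h11 := nil_lt_norm (T3_7.prime (h.sol K (ndT K (maxInv_isPi hK))) (maxInv_norm hK) (hZ ▸ hp)
        ((maxInv_isPi hK).inf_eq_bot' (H2 Z hZ))) h10
      have h12 := H3 Z (K ⊓ N_(D)) _ hZ ((maxInv_isPi hK).inf_left _) (norm_inf (maxInv_norm hK) (norm_norm hn)) h7 hn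
        inf_le_right
      have h13 := h11.trans_le (le_inf inf_le_left (h12.trans h9))
      exact ih _ h13 K hK K₃ h8 rfl (ne_bot_mono h6 h13.le)
    refine e ((key K₁ h3 (lt_of_le_of_ne (h5.ge.trans inf_le_left) fun e' => e ?_)).trans
      (key K₂ h4 (lt_of_le_of_ne (h5.ge.trans inf_le_right) fun e' => e ?_)).symm)
    · exact (maxInv_max h3 le_top (maxInv_isPi h4) (maxInv_norm h4) (e'.ge.trans (h5.ge.trans inf_le_right))).symm
    · exact maxInv_max h4 le_top (maxInv_isPi h3) (maxInv_norm h3) (e'.ge.trans (h5.ge.trans inf_le_left))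
  have two : ∀ Z : Subgroup G, Nat.card Z = p → ∀ g : G, Z ⊔ Subgroup.zpowers g ≠ ⊤ := fun Z hZ g => by
    obtain ⟨z, rfl⟩ := cyclic_iff.1 (cyclic_of_prime (hZ ▸ hp))
    exact h.two z g
  have core0 : ∀ Y Z H : Subgroup G, Nat.card Y = p → Nat.card Z = p → Y ≠ Z → H ≠ ⊤ → Y ≤ H → Z ≤ H →
      piCoreOf {p}ᶜ H ≠ ⊥ := fun Y Z H hY hZ h3 h4 h5 h6 e => by
    have := (H1 Z H hZ h4 h6).2 Y h5 hY
    rw [e, bot_sup_eq] at this
    exact h3 (eq_of_le_of_card_eq this (hY.trans hZ.symm))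
  have two' : ∀ Y Z : Subgroup G, Nat.card Y = p → Nat.card Z = p → Z ⊔ Y ≠ ⊤ := fun Y Z hY hZ => by
    obtain ⟨y, rfl⟩ := cyclic_iff.1 (cyclic_of_prime (hY ▸ hp))
    exact two Z hZ y
  have U : ∀ Y Z : Subgroup G, Nat.card Y = p → Nat.card Z = p → Y ≠ Z → ∃ L : Subgroup G, L ≠ ⊤ ∧
      ∀ H : Subgroup G, H ≠ ⊤ → Y ≤ H → Z ≤ H → H ≤ L := fun Y Z hY hZ h3 => by
    have h4 := two' Y Z hY hZ
    have h5 := core0 Y Z _ hY hZ h3 h4 le_sup_right le_sup_left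
    have h6 : Z ≤ N_(piCoreOf {p}ᶜ (Z ⊔ Y)) := le_sup_left.trans (le_norm_pcore _ _)
    obtain ⟨K, hK, h7⟩ := exists_maxInv_ge le_top (pcore_isPi {p}ᶜ (Z ⊔ Y)) h6
    refine ⟨N_(K), h.norm_ne (ne_bot_mono h5 h7) (ndT K (maxInv_isPi hK)), fun H h8 h9 h10 => ?_⟩
    have h11 := H3 Z _ H hZ (pcore_isPi _ _) h6 h8 h10 ((pcore_le _ _).trans (sup_le h10 h9))
    have h12 : Z ≤ N_(piCoreOf {p}ᶜ H) := h10.trans (le_norm_pcore _ H)
    obtain ⟨K', hK', h13⟩ := exists_maxInv_ge le_top (pcore_isPi {p}ᶜ H) h12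
    obtain rfl := TI Z hZ _ K' hK' K hK rfl (ne_bot_mono h5 (le_inf (h11.trans h13) h7))
    refine ((le_inf le_rfl (H1 Z H hZ h8 h10).1).trans (norm_sup_coprime h12 (pcore_le _ H)
      (pg_coprime hp (pg_of_card_eq hZ) (pcore_not_dvd hp H)) (Or.inl (pg_sol hp (pg_of_card_eq hZ))))).trans
      (sup_le (h13.trans (le_norm _)) fun n hn => cj_eq_self_iff.1 ?_)
    refine TI Z hZ _ _ (maxInv_cj_of_norm hK hn.2) _ hK rfl (ne_bot_mono (ne_bot_mono h5 h11) (le_inf ?_ h13))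
    rw [← cj_of_mem_norm (le_norm_pcore {p}ᶜ H hn.1)]
    exact cj_mono n h13
  have U1 : ∀ Y Z L₁ L₂ : Subgroup G, Nat.card Y = p → Nat.card Z = p → Y ≠ Z → IsCoatom L₁ → IsCoatom L₂ →
      Y ≤ L₁ → Z ≤ L₁ → Y ≤ L₂ → Z ≤ L₂ → L₁ = L₂ := fun Y Z L₁ L₂ hY hZ h3 h4 h5 h6 h7 h8 h9 => by
    obtain ⟨L, h10, h11⟩ := U Y Z hY hZ h3
    rw [← mmax_max h4 (h11 _ h4.1 h6 h7) h10, mmax_max h5 (h11 _ h5.1 h8 h9) h10]
  have U2 : ∀ Y Z L : Subgroup G, Nat.card Y = p → Nat.card Z = p → Y ≠ Z → IsCoatom L → Y ≤ L → Z ≤ L →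
      N_(Z) ≤ L := fun Y Z L hY hZ h3 h4 h5 h6 => by
    obtain ⟨g, h7⟩ : ∃ g, Y = cj g Z := by
      obtain ⟨a, -, ha⟩ := sylow_Jsub hp hP (pg_of_card_eq hY) le_top
      obtain ⟨b, -, hb⟩ := sylow_Jsub hp hP (pg_of_card_eq hZ) le_top
      refine ⟨a⁻¹ * b, ?_⟩
      rw [← cj_cj, ← eq_of_card_eq_of_cyclic hc ha hb (by rw [card_cj, card_cj, hY, hZ]), cj_inv_cj]
    have key : ∀ m ∈ N_(Z), g * m ∈ L := fun m hm => by
      obtain ⟨L', h8, h9⟩ := mmax_exists (two Z hZ (g * m))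
      have h10 : g * m ∈ L' := h9 (Subgroup.mem_sup_right (Subgroup.mem_zpowers _))
      rwa [U1 Y Z L L' hY hZ h3 h4 h8 h5 h6 (by
        rw [h7, ← cj_mul_of_mem_norm hm]; exact cj_le_of_mem (le_sup_left.trans h9) h10) (le_sup_left.trans h9)]
    have h8 := key 1 (one_mem _)
    rw [mul_one] at h8
    exact fun m hm => (L.mul_mem_cancel_left h8).1 (key m hm)
  have P0 := hP.ne_bot' hp (by rwa [Subgroup.card_top])
  obtain ⟨X, hX, cX⟩ := exists_card_eq_prime hp (pg_dvd hp (hP.pg hp) P0)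
  have X0 : X ≠ ⊥ := ne_bot_of_prime (cX ▸ hp)
  have Xp := pg_of_card_eq cX
  have out : ∀ L : Subgroup G, L ≠ ⊤ → ∃ Z : Subgroup G, Nat.card Z = p ∧ ¬ Z ≤ L := fun L hL => by
    obtain ⟨x, hx, h3⟩ := h.exists_out hp hd hL
    exact ⟨_, by rw [card_zpowers, hx], fun e => h3 (e (Subgroup.mem_zpowers x))⟩
  obtain ⟨s, hs, h3, hsp⟩ : ∃ s : ℕ, s.Prime ∧ s ∣ Nat.card N_(X) ∧ s ≠ p := by
    by_contra e
    push Not at e
    have h3 := norm_le_norm_of_cyclic hc hX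
    have h4 := hP.eq_of_pg hp ((isPi_singleton hp).1 e) ((le_norm P).trans h3) le_top
    have h5 := T1_17.burnside hP (inf_le_right.trans (h3.trans (h4.le.trans (abelian_iff.1 (abelian_of_cyclic hc)))))
    rcases (Subgroup.normalizer_eq_top_iff.1 (top_le_iff.1 h5.normal)).eq_bot_or_eq_top with h6 | h6
    · exact h.ne_top (pg_sol hp (hP.pg hp)) (h5.eq_right h6)
    · exact ndT _ (pcore_isPi _ _) h6
  obtain ⟨E, hE, cE⟩ := exists_card_eq_prime hs h3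
  have Ep : IsPiSubgroup {p}ᶜ E := isPi_of_card hs (n := 1) (by rw [cE, pow_one]) hsp
  obtain ⟨Y₀, hY₀, h4⟩ := out X (h.ne_top (pg_sol hp Xp))
  have h5 : Y₀ ≠ X := fun e => h4 e.le
  obtain ⟨L, hL, h6⟩ := mmax_exists (two' Y₀ X hY₀ cX)
  have XL := le_sup_left.trans h6
  have NL := U2 Y₀ X L hY₀ cX h5 hL (le_sup_right.trans h6) XL
  have h7 := core0 Y₀ X L hY₀ cX h5 hL.1 (le_sup_right.trans h6) XL
  obtain ⟨K, hK⟩ : ∃ K, K = piCoreOf {p}ᶜ L := ⟨_, rfl⟩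
  have Kp : IsPiSubgroup {p}ᶜ K := hK ▸ pcore_isPi _ L
  have KL : K ≤ L := hK ▸ pcore_le _ L
  have nK : L ≤ N_(K) := hK ▸ le_norm_pcore _ L
  have KX := Kp.inf_eq_bot' (H2 X cX)
  rw [← hK] at h7
  have Xpi := (isPi_singleton hp).2 Xp
  obtain ⟨r, hr, r1, h8⟩ : ∃ r ∈ X ⊔ E, r ≠ 1 ∧ K ⊓ C_[r] ≠ ⊥ := by
    by_contra e
    push Not at e
    have h8 := T3_9.pq_cyclic hp hs hsp.symm (by rw [card_sup_of_disj hE (Xpi.inf_eq_bot Ep), cX, cE]) h7
      ((sup_le_norm_left hE).trans (NL.trans nK)) e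
    exact ne_bot_of_prime (cE ▸ hs) (((H2 X cX).of_le
      (le_cent_of_abelian (abelian_of_cyclic h8) le_sup_right le_sup_left)).eq_bot Ep)
  have rN : r ∈ N_(X) := sup_le_norm_left hE hr
  have rC : r ∉ C_(X) := fun e => h8 (by
    rw [cent1_eq_of_prime (cX ▸ hp) ((hall_sup_left Xpi Ep hE).elt_mem (sup_le_norm_left hE) hr ((H2 X cX).elt e)) r1]
    exact KX)
  obtain ⟨k, hk, k1⟩ := exists_mem_ne_one h8
  have cY : Nat.card (cj k X) = p := by rw [card_cj, cX]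
  have YX : cj k X ≠ X := fun e => k1 (eq_one_of_mem_of_disj KX hk.1 (le_cent_of_disj
    (A := K ⊓ N_(X)) inf_le_right (norm_inf (XL.trans nK) (norm_norm (le_norm X))) ((Kp.inf_left _).inf_eq_bot' Xpi)
    ⟨hk.1, cj_eq_self_iff.1 e⟩))
  have YL : cj k X ≤ L := cj_le_of_mem XL (KL hk.1)
  have rY : r ∈ N_(cj k X) := by
    rw [← cj_norm, mem_cj, mul_assoc, ← mem_cent1.1 hk.2, inv_mul_cancel_left]
    exact rN
  have fix : ∀ Z : Subgroup G, Nat.card Z = p → ¬ Z ≤ L → r ∈ N_(Z) := fun Z hZ h9 => by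
    by_contra e
    obtain ⟨L₁, h10, h11⟩ := mmax_exists (two' Z X hZ cX)
    obtain ⟨L₂, h12, h13⟩ := mmax_exists (two' Z _ hZ cY)
    have h14 := U2 Z X L₁ hZ cX (fun e => h9 (e.le.trans XL)) h10 (le_sup_right.trans h11) (le_sup_left.trans h11) rN
    have h15 := U2 Z _ L₂ hZ cY (fun e => h9 (e.le.trans YL)) h12 (le_sup_right.trans h13) (le_sup_left.trans h13) rY
    obtain rfl := U1 (cj r Z) Z L₁ L₂ (by rw [card_cj, hZ]) hZ (fun e' => e (cj_eq_self_iff.1 e')) h10 h12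
      (cj_le_of_mem (le_sup_right.trans h11) h14) (le_sup_right.trans h11)
      (cj_le_of_mem (le_sup_right.trans h13) h15) (le_sup_right.trans h13)
    exact h9 ((le_sup_right.trans h11).trans (U1 _ X L₁ L cY cX YX h10 hL (le_sup_left.trans h13)
      (le_sup_left.trans h11) YL XL).le)
  obtain ⟨Z, hZ, h9⟩ := out L hL.1
  obtain ⟨x, hx, h10⟩ : ∃ x ∈ X, x * r ≠ r * x := by
    by_contra e
    push Not at e
    exact rC (mem_cent.2 e)
  have h11 := fix (cj x Z) (by rw [card_cj, hZ]) fun e => h9 ((cj_le_iff_of_mem_norm (le_norm L (XL hx))).1 e)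
  rw [← cj_norm, mem_cj] at h11
  have h12 : r⁻¹ * x⁻¹ * r * x ∈ X ⊓ N_(Z) := Subgroup.mem_inf.2 ⟨mul_mem (conj_mem_of_norm' rN (inv_mem hx)) hx, by
    have := mul_mem (inv_mem (fix Z hZ h9)) h11
    simpa only [mul_assoc] using this⟩
  have h13 : X ≤ N_(Z) := le_of_prime_of_inf_ne (cX ▸ hp) (ne_bot_of_mem h12 fun e => h10 (by
    calc x * r = x * r * (r⁻¹ * x⁻¹ * r * x) := by rw [e, mul_one]
      _ = r * x := by group))
  exact h9 ((eq_of_card_eq_of_cyclic (cyc _ (pg_sup (pg_of_card_eq hZ) Xp h13)) le_sup_left le_sup_right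
    (hZ.trans cX.symm)).le.trans XL)

theorem S2.false (h : S2 G) : False := by
  obtain ⟨p, hp, hd, h2, h3⟩ : ∃ p : ℕ, p.Prime ∧ p ∣ Nat.card (⊤ : Subgroup G) ∧ p ≠ 2 ∧ p ≠ 3 := by
    by_contra e
    push Not at e
    exact h.ne_top (H22.sol_of_two Nat.prime_two Nat.prime_three fun s hs hd => (em (s = 2)).imp_right (e s hs hd)) rfl
  obtain ⟨P, hP⟩ := sylow_exists hp (⊤ : Subgroup G)
  by_cases hc : IsCyclic P
  · exact h.cyc hp h2 (by rwa [Subgroup.card_top] at hd) hP hc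
  obtain ⟨A, hA⟩ := exists_elem2_of_not_cyclic hp h2 (hP.pg hp) hc
  refine h.noncyc hp h2 (h.norm_ne (H22.zj_ne_bot hp (hP.pg hp) (hP.ne_bot' hp hd))
    (h.ne_top (pg_sol hp (pg_le (hP.pg hp) (H17.centerThompsonOf_le p P))))) (fun Q h4 h5 h6 => ?_)
    (hA.mono ((le_norm P).trans (H17.normalizer_le_normalizer_centerThompsonOf p P)))
  obtain ⟨R, hR⟩ := sylow_exists hp (N_(centerThompsonOf p P) ⊓ N_(Q))
  exact h.se hp h2 h3 hP R Q h4 h5 h6 hR

theorem closure_pair (a b : G) : Subgroup.closure ({a, b} : Set G) = Subgroup.zpowers a ⊔ Subgroup.zpowers b := by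
  rw [Set.insert_eq, Subgroup.closure_union, Subgroup.zpowers_eq_closure, Subgroup.zpowers_eq_closure]

theorem min_simple_induction {Pr : ∀ (G : Type u) [Group G], Prop}
    (hsub : ∀ (G : Type u) [Group G] [Finite G] (H : Subgroup G), Pr G → Pr H)
    (hquo : ∀ (G : Type u) [Group G] [Finite G] (N : Subgroup G) [N.Normal], Group.IsSolvable N → Pr G → Pr (G ⧸ N))
    (hs : ∀ (G : Type u) [Group G] [Finite G], IsSimpleGroup G → (∀ H : Subgroup G, H ≠ ⊤ → Group.IsSolvable H) →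
      Pr G → Group.IsSolvable G) (c : ℕ) :
    ∀ (G : Type u) [Group G] [Finite G], Nat.card G = c → Pr G → Group.IsSolvable G := by
  induction c using Nat.strong_induction_on with
  | _ c ih =>
  intro G _ _ hc h
  have h1 : ∀ H : Subgroup G, H ≠ ⊤ → Group.IsSolvable H := fun H hH =>
    ih _ (by rw [← hc, ← Subgroup.card_top (G := G)]; exact card_lt (lt_top_iff_ne_top.2 hH)) H rfl (hsub G H h)
  rcases subsingleton_or_nontrivial G with h2 | h2
  · infer_instance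
  by_cases h3 : ∀ N : Subgroup G, N.Normal → N = ⊥ ∨ N = ⊤
  · exact hs G ⟨h3⟩ h1 h
  push Not at h3
  obtain ⟨N, hN, h4, h5⟩ := h3
  have := h1 N h5
  have := ih _ (by
    rw [← hc, ← N.card_mul_index]
    exact lt_mul_of_one_lt_left (Nat.pos_of_ne_zero N.index_ne_zero_of_finite) (one_lt_card h4)) (G ⧸ N) rfl
    (hquo G N this h)
  exact Group.isSolvable_of_ker_le_range N.subtype (QuotientGroup.mk' N) (by simp)

theorem sol_of_two_gen (h : ∀ a b : G, Group.IsSolvable (Subgroup.closure ({a, b} : Set G))) : Group.IsSolvable G := by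
  refine min_simple_induction (Pr := fun G _ => ∀ a b : G, Group.IsSolvable (Subgroup.closure ({a, b} : Set G)))
    ?_ ?_ ?_ _ G rfl h
  · intro G _ _ H h a b
    have := h (H.subtype a) (H.subtype b)
    rw [← Set.image_pair H.subtype, ← MonoidHom.map_closure] at this
    exact Group.isSolvable_of_surjective
      (f := (Subgroup.equivMapOfInjective _ _ H.subtype_injective).symm.toMonoidHom) (MulEquiv.surjective _)
  · intro G _ _ N _ _ h a b
    obtain ⟨a, rfl⟩ := QuotientGroup.mk'_surjective N a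
    obtain ⟨b, rfl⟩ := QuotientGroup.mk'_surjective N b
    have := h a b
    rw [← Set.image_pair, ← MonoidHom.map_closure]
    exact Group.isSolvable_of_surjective (MonoidHom.subgroupMap_surjective _ _)
  · intro G _ _ h1 h2 h3
    by_contra e
    refine S2.false ⟨h1, h2, fun a b e' => e ?_⟩
    have := h3 a b
    rw [closure_pair, e'] at this
    exact Group.isSolvable_of_surjective (f := (⊤ : Subgroup G).subtype) fun x => ⟨⟨x, trivial⟩, rfl⟩

end H01
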