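import Mathlib

/-!
# Elementary abelian groups with a fixed-point-free automorphism of prime order (helper1)

* `H01.TO.gl_trans`, `H01.TO.iso_of_card` : linear algebra.
* `H01.TO.twist` : two endomorphisms killed by one irreducible polynomial are intertwined by an additive
  automorphism taking a given nonzero vector to another.
* `H01.TO.ord_of_trans` : linear version of "p is a primitive root mod q".
* `H01.TO.grp_twist`, `H01.TO.grp_ord` : the same for an elementary abelian group with a fixed-point-free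
  automorphism of prime order `q`.
-/

set_option autoImplicit false
set_option linter.style.haveILetI false
set_option linter.unusedSectionVars false

namespace H01.TO

open Polynomial

theorem gl_trans {K V : Type*} [Field K] [AddCommGroup V] [Module K V] {v w : V} (hv : v ≠ 0)
    (hw : w ≠ 0) : ∃ e : V ≃ₗ[K] V, e v = w := by
  let f := (LinearEquiv.toSpanNonzeroSingleton K V v hv).symm ≪≫ₗ
    (LinearEquiv.toSpanNonzeroSingleton K V w hw)
  obtain ⟨g, hg⟩ := Submodule.exists_linearEquiv_restrict_eq f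
  refine ⟨g, ?_⟩
  have := hg ⟨v, Submodule.mem_span_singleton_self v⟩
  rw [← this]
  have h1 : (LinearEquiv.toSpanNonzeroSingleton K V v hv).symm
      ⟨v, Submodule.mem_span_singleton_self v⟩ = 1 := by
    rw [LinearEquiv.symm_apply_eq]
    ext; simp
  simp [f, h1]

theorem iso_of_card {K V W : Type*} [Field K] [Finite K] [AddCommGroup V] [Module K V]
    [AddCommGroup W] [Module K W] [Finite V] [Finite W] (h : Nat.card V = Nat.card W)
    {v : V} {w : W} (hv : v ≠ 0) (hw : w ≠ 0) :
    ∃ e : V ≃+ W, e v = w ∧ ∀ (k : K) u, e (k • u) = k • e u := by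
  haveI : Module.Finite K V := Module.Finite.of_finite
  haveI : Module.Finite K W := Module.Finite.of_finite
  rw [Module.natCard_eq_pow_finrank (K := K) (V := V),
    Module.natCard_eq_pow_finrank (K := K) (V := W)] at h
  have h1 : Module.finrank K V = Module.finrank K W :=
    Nat.pow_right_injective (Finite.one_lt_card (α := K)) h
  let e := LinearEquiv.ofFinrankEq V W h1
  obtain ⟨g, hg⟩ := gl_trans (K := K) (e.map_ne_zero_iff.2 hv) hw
  exact ⟨(e ≪≫ₗ g).toAddEquiv, hg, (e ≪≫ₗ g).map_smul⟩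

theorem twist {F V : Type*} [Field F] [Finite F] [AddCommGroup V] [Module F V] [Finite V]
    {f : F[X]} (hf : Irreducible f) (T T' : Module.End F V) (hT : aeval T f = 0)
    (hT' : aeval T' f = 0) {v w : V} (hv : v ≠ 0) (hw : w ≠ 0) :
    ∃ β : V ≃+ V, β v = w ∧ ∀ u, β (T u) = T' (β u) := by
  haveI : Fact (Irreducible f) := ⟨hf⟩
  haveI : Module.Finite F (AdjoinRoot f) := (AdjoinRoot.powerBasis hf.ne_zero).finite
  haveI : Finite (AdjoinRoot f) := Module.finite_of_finite F
  have key : ∀ S : Module.End F V, aeval S f = 0 →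
      ∃ ρ : AdjoinRoot f →+* Module.End F V, ρ (AdjoinRoot.root f) = S := by
    intro S hS
    refine ⟨Ideal.Quotient.lift (Ideal.span {f}) (aeval S : F[X] →ₐ[F] _).toRingHom ?_, ?_⟩
    · intro a ha
      obtain ⟨b, rfl⟩ := Ideal.mem_span_singleton'.1 ha
      simp [hS]
    · exact (Ideal.Quotient.lift_mk _ _ _).trans (aeval_X S)
  obtain ⟨ρ, hρ⟩ := key T hT
  obtain ⟨ρ', hρ'⟩ := key T' hT'
  obtain ⟨e, he, he'⟩ := @iso_of_card (AdjoinRoot f) V V _ _ _ (Module.compHom V ρ) _
    (Module.compHom V ρ') _ _ rfl v w hv hw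
  refine ⟨e, he, fun u => ?_⟩
  rw [← hρ, ← hρ']
  exact he' (AdjoinRoot.root f) u

theorem aeval_intertwine {F V : Type*} [Field F] [AddCommGroup V] [Module F V]
    (T S : Module.End F V) (β : V →ₗ[F] V) (h : ∀ u, β (T u) = S (β u)) (a : F[X]) (u : V) :
    β (aeval T a u) = aeval S a (β u) := by
  induction a using Polynomial.induction_on' generalizing u with
  | add a b ha hb => simp [ha, hb]
  | monomial n c =>
    have : ∀ u, β ((T ^ n) u) = (S ^ n) (β u) := by
      induction n with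
      | zero => simp
      | succ n ih => intro u; rw [pow_succ, pow_succ, Module.End.mul_apply, Module.End.mul_apply, ih, h]
    simp [aeval_monomial, this]

theorem aeval_cyclotomic {F V : Type*} [Field F] [AddCommGroup V] [Module F V]
    (T : Module.End F V) {q : ℕ} [Fact q.Prime] (hT : T ^ q = 1) (hfix : ∀ u, T u = u → u = 0) :
    aeval T (cyclotomic q F) = 0 := by
  have h1 : aeval T ((X - 1) * cyclotomic q F) = 0 := by
    rw [mul_comm, cyclotomic_prime_mul_X_sub_one]; simp [hT]
  ext u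
  apply hfix
  have := congrArg (fun S : Module.End F V => S u) h1
  simp only [map_mul, map_sub, aeval_X, map_one, Module.End.mul_apply, LinearMap.sub_apply,
    Module.End.one_apply, LinearMap.zero_apply] at this
  exact sub_eq_zero.1 this

theorem ord_of_trans {p q : ℕ} [hp : Fact p.Prime] [hq : Fact q.Prime] (hpq : p ≠ q) {V : Type*}
    [AddCommGroup V] [Module (ZMod p) V] [Finite V] [Nontrivial V] (T : Module.End (ZMod p) V)
    (hT : T ^ q = 1) (hfix : ∀ u, T u = u → u = 0)
    (H : ∀ v w : V, v ≠ 0 → w ≠ 0 → ∃ (β : V ≃ₗ[ZMod p] V) (k : ℕ), β v = w ∧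
      ∀ u, β (T u) = (T ^ k) (β u))
    (H' : ∀ k, 0 < k → k < q → ∃ β : V ≃ₗ[ZMod p] V, ∀ u, β (T u) = (T ^ k) (β u)) :
    orderOf (p : ZMod q) = q - 1 := by
  classical
  haveI : Module.Finite (ZMod p) V := Module.Finite.of_finite
  let M : V → Set V := fun v => Set.range fun a : (ZMod p)[X] => aeval T a v
  have hpow : ∀ (k : ℕ) (a : (ZMod p)[X]), aeval (T ^ k) a = aeval T (a.comp (X ^ k)) := by
    intro k a
    rw [aeval_comp]; simp
  have hle : ∀ v w, v ≠ 0 → w ≠ 0 → (M v).ncard ≤ (M w).ncard := by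
    intro v w hv hw
    obtain ⟨β, k, rfl, hβ⟩ := H v w hv hw
    refine Set.ncard_le_ncard_of_injOn β ?_ β.injective.injOn (Set.toFinite _)
    rintro _ ⟨a, rfl⟩
    exact ⟨a.comp (X ^ k), by
      simp only [← hpow]; exact (aeval_intertwine T (T ^ k) β.toLinearMap hβ a v).symm⟩
  have hsub : ∀ v w, w ∈ M v → M w ⊆ M v := by
    rintro v _ ⟨a, rfl⟩ _ ⟨b, rfl⟩
    exact ⟨b * a, by simp⟩
  have hself : ∀ v, v ∈ M v := fun v => ⟨1, by simp⟩
  have heq : ∀ v w, w ≠ 0 → w ∈ M v → M w = M v := by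
    intro v w hw h
    have hv : v ≠ 0 := by
      rintro rfl
      obtain ⟨a, rfl⟩ := h
      simp at hw
    exact Set.eq_of_subset_of_ncard_le (hsub v w h) (hle v w hv hw)
  have hdom : ∀ a : (ZMod p)[X], aeval T a ≠ 0 → ∀ v, aeval T a v = 0 → v = 0 := by
    intro a ha v hv
    by_contra hv0
    obtain ⟨w, hw⟩ : ∃ w, aeval T a w ≠ 0 := by
      by_contra! h
      exact ha (LinearMap.ext h)
    have h1 : M (aeval T a w) = M (v + w) := heq _ _ hw ⟨a, by simp [hv]⟩
    have h2 : M (aeval T a w) = M w := heq _ _ hw ⟨a, rfl⟩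
    obtain ⟨b, hb⟩ : v + w ∈ M w := h2 ▸ h1 ▸ hself _
    have h3 : v ∈ M w := ⟨b - 1, by simp only at hb; simp [hb]⟩
    obtain ⟨c, hc⟩ : w ∈ M v := (heq w v hv0 h3).symm ▸ hself w
    apply hw
    rw [← hc, ← Module.End.mul_apply, ← map_mul, mul_comm, map_mul, Module.End.mul_apply, hv,
      map_zero]
  have hint : IsIntegral (ZMod p) T := Algebra.IsIntegral.isIntegral T
  set f := minpoly (ZMod p) T with hf
  have hf0 : f ≠ 0 := minpoly.ne_zero hint
  have hprime : Prime f := by
    refine ⟨hf0, minpoly.not_isUnit _ _, fun a b hab => ?_⟩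
    have h1 : aeval T (a * b) = 0 := minpoly.dvd_iff.1 hab
    by_cases ha : aeval T a = 0
    · exact Or.inl (minpoly.dvd _ _ ha)
    · refine Or.inr (minpoly.dvd _ _ (LinearMap.ext fun u => hdom a ha _ ?_))
      rw [← Module.End.mul_apply, ← map_mul, h1, LinearMap.zero_apply]
  have hirr := hprime.irreducible
  have hdvd : f ∣ cyclotomic q (ZMod p) := minpoly.dvd _ _ (aeval_cyclotomic T hT hfix)
  have hcop : p.Coprime q := (Nat.coprime_primes hp.out hq.out).2 hpq
  have hdeg := natDegree_of_dvd_cyclotomic_of_irreducible (p := p) (f := 1) (by simp) hcop hdvd hirr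
  rw [← orderOf_units, ZMod.coe_unitOfCoprime, pow_one] at hdeg
  rw [← hdeg]
  apply le_antisymm
  · have := natDegree_le_of_dvd hdvd (cyclotomic_ne_zero _ _)
    rwa [natDegree_cyclotomic, Nat.totient_prime hq.out] at this
  haveI : Fact (Irreducible f) := ⟨hirr⟩
  set ζ := AdjoinRoot.root f with hζ
  have hζ1 : IsPrimitiveRoot ζ q := by
    haveI : NeZero (q : ZMod p) := NeZero.of_not_dvd (ZMod p)
      ((Nat.Prime.coprime_iff_not_dvd hp.out).1 hcop)
    haveI : NeZero (q : AdjoinRoot f) := NeZero.of_injective (algebraMap (ZMod p) _).injective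
    rw [← isRoot_cyclotomic_iff, ← map_cyclotomic q (algebraMap (ZMod p) _), IsRoot,
      eval_map_algebraMap]
    obtain ⟨g, hg⟩ := hdvd
    rw [hg, map_mul, AdjoinRoot.aeval_eq, AdjoinRoot.mk_self, zero_mul]
  have hroot : ∀ k ∈ Finset.Ioo 0 q, ζ ^ k ∈ (f.map (algebraMap (ZMod p) (AdjoinRoot f))).roots.toFinset := by
    intro k hk
    obtain ⟨β, hβ⟩ := H' k (Finset.mem_Ioo.1 hk).1 (Finset.mem_Ioo.1 hk).2
    have h1 : aeval (T ^ k) f = 0 := by
      ext u
      obtain ⟨u, rfl⟩ := β.surjective u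
      have := aeval_intertwine T (T ^ k) β.toLinearMap hβ f u
      rw [hf, minpoly.aeval, LinearMap.zero_apply, map_zero] at this
      exact this.symm
    rw [hpow] at h1
    obtain ⟨g, hg⟩ := minpoly.dvd _ _ h1
    rw [Multiset.mem_toFinset, mem_roots (map_ne_zero hf0), IsRoot, eval_map_algebraMap]
    have : aeval (ζ ^ k) f = aeval ζ (f.comp (X ^ k)) := by rw [aeval_comp]; simp
    rw [this, hg, map_mul, ← hf, AdjoinRoot.aeval_eq, AdjoinRoot.mk_self, zero_mul]
  have h2 := Finset.card_le_card_of_injOn (fun k => ζ ^ k) hroot (fun i hi j hj hij =>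
    hζ1.pow_inj (Finset.mem_Ioo.1 hi).2 (Finset.mem_Ioo.1 hj).2 hij)
  rw [Nat.card_Ioo, Nat.sub_zero] at h2
  exact h2.trans ((Multiset.toFinset_card_le _).trans ((card_roots' _).trans (natDegree_map_le)))

section grp
variable {p : ℕ} [hp : Fact p.Prime] {N : Type*} [CommGroup N]

/-- the `ZMod p`-module structure on an elementary abelian group -/
@[reducible] noncomputable def zmod (h : ∀ n : N, n ^ p = 1) : Module (ZMod p) (Additive N) :=
  AddCommGroup.zmodModule (fun x => by
    have := congrArg Additive.ofMul (h x.toMul)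
    simpa using this)

/-- an automorphism as a linear equivalence -/
noncomputable def lin [Module (ZMod p) (Additive N)] (τ : MulAut N) :
    Additive N ≃ₗ[ZMod p] Additive N :=
  { (MulEquiv.toAdditive τ) with
    map_smul' := fun c x => ZMod.map_smul (MulEquiv.toAdditive τ) c x }

theorem lin_apply [Module (ZMod p) (Additive N)] (τ : MulAut N) (u : Additive N) :
    lin (p := p) τ u = Additive.ofMul (τ u.toMul) := rfl

theorem lin_pow [Module (ZMod p) (Additive N)] (τ : MulAut N) (k : ℕ) (u : Additive N) :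
    ((lin (p := p) τ).toLinearMap ^ k) u = Additive.ofMul ((τ ^ k) u.toMul) := by
  induction k generalizing u with
  | zero => simp
  | succ k ih => rw [pow_succ, Module.End.mul_apply, ih, pow_succ]; rfl

theorem grp_twist [Finite N] (h : ∀ n : N, n ^ p = 1) {q : ℕ} [hq : Fact q.Prime] (hpq : p ≠ q)
    (hord : orderOf (p : ZMod q) = q - 1) (τ τ' : MulAut N) (h1 : τ ^ q = 1) (h1' : τ' ^ q = 1)
    (h2 : ∀ n, τ n = n → n = 1) (h2' : ∀ n, τ' n = n → n = 1) {v w : N} (hv : v ≠ 1)
    (hw : w ≠ 1) : ∃ β : MulAut N, β v = w ∧ ∀ u, β (τ u) = τ' (β u) := by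
  letI := zmod h
  have hcop : ¬ p ∣ q := fun h => hpq ((Nat.prime_dvd_prime_iff_eq hp.out hq.out).1 h)
  have hirr : Irreducible (cyclotomic q (ZMod p)) := by
    refine ZMod.irreducible_of_dvd_cyclotomic_of_natDegree hcop dvd_rfl ?_
    rw [← orderOf_units, ZMod.coe_unitOfCoprime, hord, natDegree_cyclotomic,
      Nat.totient_prime hq.out]
  have key := fun (σ : MulAut N) (a : σ ^ q = 1) (b : ∀ n, σ n = n → n = 1) =>
    aeval_cyclotomic (F := ZMod p) (q := q) (lin (p := p) σ).toLinearMap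
      (LinearMap.ext fun u => by rw [lin_pow, a]; rfl)
      (fun u hu => b u.toMul (congrArg Additive.toMul hu))
  obtain ⟨β, hβ, hβ'⟩ := twist hirr _ _ (key τ h1 h2) (key τ' h1' h2') (v := Additive.ofMul v)
    (w := Additive.ofMul w) hv hw
  exact ⟨MulEquiv.toAdditive.symm β, congrArg Additive.toMul hβ,
    fun u => congrArg Additive.toMul (hβ' (Additive.ofMul u))⟩

theorem grp_ord [Finite N] [Nontrivial N] (h : ∀ n : N, n ^ p = 1) {q : ℕ} [hq : Fact q.Prime]
    (hpq : p ≠ q) (τ : MulAut N) (h1 : τ ^ q = 1) (h2 : ∀ n, τ n = n → n = 1)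
    (H : ∀ v w : N, v ≠ 1 → w ≠ 1 → ∃ (β : MulAut N) (k : ℕ), β v = w ∧
      ∀ u, β (τ u) = (τ ^ k) (β u))
    (H' : ∀ k, 0 < k → k < q → ∃ β : MulAut N, ∀ u, β (τ u) = (τ ^ k) (β u)) :
    orderOf (p : ZMod q) = q - 1 := by
  letI := zmod h
  refine ord_of_trans hpq (V := Additive N) (lin (p := p) τ).toLinearMap
    (LinearMap.ext fun u => by rw [lin_pow, h1]; rfl)
    (fun u hu => h2 u.toMul (congrArg Additive.toMul hu)) ?_ ?_
  · intro v w hv hw
    obtain ⟨β, k, a, b⟩ := H v.toMul w.toMul hv hw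
    exact ⟨lin β, k, congrArg Additive.ofMul a, fun u => by
      rw [lin_pow]; exact congrArg Additive.ofMul (b u.toMul)⟩
  · intro k hk hk'
    obtain ⟨β, b⟩ := H' k hk hk'
    exact ⟨lin β, fun u => by rw [lin_pow]; exact congrArg Additive.ofMul (b u.toMul)⟩

end grp

end H01.TO
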